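import Mathlib
import Cfsg.Agent.H87.FlagsGL_m3
import Cfsg.Agent.H139.FlagInner
import Cfsg.Agent.H139.Unipotent
import Cfsg.Agent.LieClassical.SLGen
import Cfsg.Agent.FastGrp
import Cfsg.Agent.Prune
set_option linter.all false

section
prune_inst 0x7fffedf8bebfeddfffff7e3fa6f8cffc13928fffe6dffd43ffe0e1bf0b9f33920fe1ff8f0de030fe0f57e01410b87813f97ee77fe86bdc7ffffd5ff41ffbee1fe5f7350851949c341fbc2fff83f0778e7f3fffffffffffffffffffffffffffbeffbffffffffd

-- part: H87/Geo3
section
prune_inst 0x204010012200000004009063001e86550001900003800061a40d460c004a00c00206210c80040a002a1080080400400088002000000000000004000004010008a810043014ac00100006000000000000000000000000000000000000000004000000000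
set_option linter.all false
open scoped Cfsg.Agent.FastGrp

-- part: H87/Cov
section
/-!
# Counting vectors along the subspaces covering a subspace

`cn D A B` is the number of vectors of `B` outside `A` satisfying `D`; `cov A B` is the set of the subspaces
`A ⊔ ⟨v⟩` with `v ∈ B`, `v ∉ A`.
-/

set_option autoImplicit false
set_option linter.unusedSectionVars false

namespace Cfsg.Agent.H87.Cov

open Finset Submodule Module

variable {F V : Type*} [Field F] [Fintype F] [AddCommGroup V] [Module F V] [Fintype V]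

open Classical in
/-- number of vectors of `B`, outside `A`, with the property `D`. -/
noncomputable def cn (D : V → Prop) (A B : Submodule F V) : ℕ :=
  (univ.filter fun v : V => v ∈ B ∧ v ∉ A ∧ D v).card

open Classical in
/-- the subspaces `A ⊔ ⟨v⟩` of `B` covering `A`. -/
noncomputable def cov (A B : Submodule F V) : Finset (Submodule F V) :=
  (univ.filter fun v : V => v ∈ B ∧ v ∉ A).image fun v => A ⊔ span F {v}

theorem sup_span_eq {A : Submodule F V} {v w : V} (hw : w ∈ A ⊔ span F {v}) (hwA : w ∉ A) :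
    A ⊔ span F {w} = A ⊔ span F {v} := by
  apply le_antisymm
  · exact sup_le le_sup_left (by rw [span_singleton_le_iff_mem]; exact hw)
  · refine sup_le le_sup_left ?_
    rw [span_singleton_le_iff_mem]
    obtain ⟨a, ha, b, hb, rfl⟩ := mem_sup.1 hw
    obtain ⟨c, rfl⟩ := mem_span_singleton.1 hb
    have hc : c ≠ 0 := by
      rintro rfl
      apply hwA
      rw [zero_smul, add_zero]
      exact ha
    have h1 : c⁻¹ • ((a + c • v) - a) = v := by
      rw [add_sub_cancel_left, smul_smul, inv_mul_cancel₀ hc, one_smul]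
    have h2 : c⁻¹ • ((a + c • v) - a) ∈ A ⊔ span F {a + c • v} := by
      apply smul_mem
      exact sub_mem (mem_sup_right (mem_span_singleton_self _)) (mem_sup_left ha)
    rwa [h1] at h2

theorem finrank_sup_span {A : Submodule F V} {v : V} (hv : v ∉ A) :
    finrank F ↥(A ⊔ span F {v}) = finrank F A + 1 := by
  have h0 : v ≠ 0 := by
    rintro rfl
    exact hv (zero_mem _)
  have h1 := finrank_sup_add_finrank_inf_eq A (span F {v})
  have h2 : A ⊓ span F {v} = ⊥ := by
    rw [eq_bot_iff]
    rintro x ⟨hx1, hx2⟩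
    obtain ⟨c, rfl⟩ := mem_span_singleton.1 hx2
    by_cases hc : c = 0
    · rw [hc, zero_smul]
      exact zero_mem _
    · exfalso
      apply hv
      have : v = c⁻¹ • (c • v) := by rw [smul_smul, inv_mul_cancel₀ hc, one_smul]
      rw [this]
      exact smul_mem _ _ hx1
  rw [h2, finrank_bot, finrank_span_singleton h0, add_zero] at h1
  exact h1

theorem mem_cov {A B C : Submodule F V} : C ∈ cov A B ↔ ∃ v ∈ B, v ∉ A ∧ A ⊔ span F {v} = C := by
  classical
  simp only [cov, mem_image, mem_filter, mem_univ, true_and]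
  constructor
  · rintro ⟨v, ⟨h1, h2⟩, h3⟩
    exact ⟨v, h1, h2, h3⟩
  · rintro ⟨v, h1, h2, h3⟩
    exact ⟨v, ⟨h1, h2⟩, h3⟩

theorem le_of_mem_cov {A B C : Submodule F V} (h : C ∈ cov A B) : A ≤ C := by
  obtain ⟨v, _, _, rfl⟩ := mem_cov.1 h
  exact le_sup_left

theorem le_of_mem_cov' {A B C : Submodule F V} (hAB : A ≤ B) (h : C ∈ cov A B) : C ≤ B := by
  obtain ⟨v, h1, _, rfl⟩ := mem_cov.1 h
  exact sup_le hAB ((span_singleton_le_iff_mem _ _).2 h1)

theorem finrank_of_mem_cov {A B C : Submodule F V} (h : C ∈ cov A B) : finrank F C = finrank F A + 1 := by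
  obtain ⟨v, _, h2, rfl⟩ := mem_cov.1 h
  exact finrank_sup_span h2

theorem cn_eq_sum (D : V → Prop) {A B : Submodule F V} (hAB : A ≤ B) :
    cn D A B = ∑ C ∈ cov A B, cn D A C := by
  classical
  have h1 : (univ.filter fun v : V => v ∈ B ∧ v ∉ A ∧ D v) =
      (cov A B).biUnion fun C => univ.filter fun v : V => v ∈ C ∧ v ∉ A ∧ D v := by
    ext v
    simp only [mem_filter, mem_univ, true_and, mem_biUnion]
    constructor
    · rintro ⟨hv1, hv2, hv3⟩
      exact ⟨A ⊔ span F {v}, mem_cov.2 ⟨v, hv1, hv2, rfl⟩,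
        mem_sup_right (mem_span_singleton_self _), hv2, hv3⟩
    · rintro ⟨C, hC, hv1, hv2, hv3⟩
      exact ⟨le_of_mem_cov' hAB hC hv1, hv2, hv3⟩
  rw [cn, h1, card_biUnion]
  · rfl
  · intro C hC C' hC' hne
    change Disjoint _ _
    rw [disjoint_left]
    intro v hv hv'
    simp only [mem_filter, mem_univ, true_and] at hv hv'
    apply hne
    obtain ⟨w, _, _, rfl⟩ := mem_cov.1 hC
    obtain ⟨w', _, _, rfl⟩ := mem_cov.1 hC'
    rw [← sup_span_eq hv.1 hv.2.1, ← sup_span_eq hv'.1 hv'.2.1]

open Classical in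
theorem card_filter_mem (A : Submodule F V) : (univ.filter fun v : V => v ∈ A).card = Fintype.card F ^ finrank F A := by
  have h1 : Fintype.card A = Fintype.card F ^ finrank F A := card_eq_pow_finrank
  rw [← h1]
  exact (Fintype.card_subtype _).symm

theorem cn_split (D : V → Prop) {A B C : Submodule F V} (hAB : A ≤ B) (hBC : B ≤ C) :
    cn D A C = cn D A B + cn D B C := by
  classical
  rw [cn, cn, cn, ← card_union_of_disjoint]
  · congr 1
    ext v
    simp only [mem_filter, mem_univ, true_and, mem_union]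
    constructor
    · rintro ⟨h1, h2, h3⟩
      by_cases h : v ∈ B
      · exact Or.inl ⟨h, h2, h3⟩
      · exact Or.inr ⟨h1, h, h3⟩
    · rintro (⟨h1, h2, h3⟩ | ⟨h1, h2, h3⟩)
      · exact ⟨hBC h1, h2, h3⟩
      · exact ⟨h1, fun h => h2 (hAB h), h3⟩
  · rw [disjoint_left]
    intro v hv hv'
    simp only [mem_filter, mem_univ, true_and] at hv hv'
    exact hv'.2.1 hv.1

theorem cn_true {A B : Submodule F V} (hAB : A ≤ B) :
    cn (fun _ : V => True) A B + Fintype.card F ^ finrank F A = Fintype.card F ^ finrank F B := by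
  classical
  rw [← card_filter_mem A, ← card_filter_mem B, cn, ← card_union_of_disjoint]
  · congr 1
    ext v
    simp only [mem_filter, mem_univ, true_and, mem_union, and_true]
    constructor
    · rintro (⟨h1, _⟩ | h1)
      · exact h1
      · exact hAB h1
    · intro h
      by_cases h' : v ∈ A
      · exact Or.inr h'
      · exact Or.inl ⟨h, h'⟩
  · rw [disjoint_left]
    intro v hv hv'
    simp only [mem_filter, mem_univ, true_and] at hv hv'
    exact hv.2.1 hv'

theorem one_lt_q : 1 < Fintype.card F := Fintype.one_lt_card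

theorem card_cov {A B : Submodule F V} (hAB : A ≤ B) :
    (cov A B).card * (Fintype.card F ^ finrank F A * (Fintype.card F - 1)) + Fintype.card F ^ finrank F A =
      Fintype.card F ^ finrank F B := by
  rw [← cn_true hAB, cn_eq_sum _ hAB]
  congr 1
  rw [sum_congr rfl (g := fun _ => Fintype.card F ^ finrank F A * (Fintype.card F - 1)), sum_const, smul_eq_mul]
  intro C hC
  have h1 := cn_true (le_of_mem_cov hC)
  rw [finrank_of_mem_cov hC] at h1
  obtain ⟨k, hk⟩ : ∃ k, Fintype.card F = k + 1 := ⟨Fintype.card F - 1, by have := one_lt_q (F := F); omega⟩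
  rw [hk] at h1 ⊢
  rw [pow_succ, Nat.mul_add, Nat.mul_one] at h1
  simpa only [_root_.add_tsub_cancel_right, _root_.Nat.add_right_cancel_iff] using h1

theorem card_cov_two {A B : Submodule F V} (hAB : A ≤ B) (h : finrank F B = finrank F A + 2) :
    (cov A B).card = Fintype.card F + 1 := by
  have h1 := card_cov hAB
  obtain ⟨k, hk⟩ : ∃ k, Fintype.card F = k + 2 := ⟨Fintype.card F - 2, by have := one_lt_q (F := F); omega⟩
  rw [h, hk] at h1
  rw [hk]
  have hpos : 0 < (k + 2) ^ finrank F A := by positivity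
  have h2 : (k + 2) ^ finrank F A * ((cov A B).card * (k + 1) + 1) = (k + 2) ^ finrank F A * (k + 2) ^ 2 := by
    rw [pow_add] at h1
    rw [← h1]
    simp only [show k + 2 - 1 = k + 1 by omega]
    ring
  have h3 := Nat.eq_of_mul_eq_mul_left hpos h2
  have h4 : (cov A B).card * (k + 1) = (k + 2 + 1) * (k + 1) := by
    linarith only [h3]
  exact Nat.eq_of_mul_eq_mul_right (by omega) h4

theorem sum_cov (D : V → Prop) {P A B : Submodule F V} (hPA : P ≤ A) (hAB : A ≤ B) :
    cn D P B + (cov A B).card * cn D P A = cn D P A + ∑ C ∈ cov A B, cn D P C := by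
  have h1 : ∑ C ∈ cov A B, cn D P C = (cov A B).card * cn D P A + cn D A B := by
    rw [cn_eq_sum D hAB, ← smul_eq_mul, ← sum_const, ← sum_add_distrib]
    apply sum_congr rfl
    intro C hC
    exact cn_split D hPA (le_of_mem_cov hC)
  rw [h1, cn_split D hPA hAB]
  ring

theorem exists_finrank (A : Submodule F V) (j : ℕ) (h : finrank F A + j ≤ finrank F V) :
    ∃ B : Submodule F V, A ≤ B ∧ finrank F B = finrank F A + j := by
  induction j with
  | zero => exact ⟨A, le_rfl, by simp⟩
  | succ j ih =>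
    obtain ⟨B, hB1, hB2⟩ := ih (by omega)
    obtain ⟨v, hv⟩ : ∃ v, v ∉ B := by
      by_contra hcon
      push Not at hcon
      have : B = ⊤ := by
        rw [eq_top_iff]
        intro v _
        exact hcon v
      rw [this, finrank_top] at hB2
      omega
    exact ⟨B ⊔ span F {v}, hB1.trans le_sup_left, by rw [finrank_sup_span hv, hB2]; ring⟩

theorem exists_finrank_between {A C : Submodule F V} (hAC : A ≤ C) (j : ℕ) (h : finrank F A + j ≤ finrank F C) :
    ∃ B : Submodule F V, A ≤ B ∧ B ≤ C ∧ finrank F B = finrank F A + j := by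
  induction j with
  | zero => exact ⟨A, le_rfl, hAC, by simp⟩
  | succ j ih =>
    obtain ⟨B, hB1, hB3, hB2⟩ := ih (by omega)
    obtain ⟨v, hvC, hv⟩ : ∃ v, v ∈ C ∧ v ∉ B := by
      by_contra hcon
      push Not at hcon
      have : C ≤ B := hcon
      have := finrank_mono this
      omega
    exact ⟨B ⊔ span F {v}, hB1.trans le_sup_left, sup_le hB3 ((span_singleton_le_iff_mem _ _).2 hvC),
      by rw [finrank_sup_span hv, hB2]; ring⟩

end Cfsg.Agent.H87.Cov
end

-- part: H87/LemS
section
/-!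
# Sets of points with few intersection numbers with respect to lines

`lemS` : a set of points of a projective space of dimension at least `3` which meets every line in `0`, `m` or all
points (`1 ≤ m ≤ q` fixed) is empty, everything, a subspace or the complement of a subspace.
-/

set_option autoImplicit false
set_option linter.unusedSectionVars false

namespace Cfsg.Agent.H87.LemS

open Finset Submodule Module Cfsg.Agent.H87.Cov

variable {F V : Type*} [Field F] [Fintype F] [AddCommGroup V] [Module F V] [Fintype V]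

/-- the property `D` depends only on the subspace `P ⊔ ⟨v⟩`. -/
def Inv (P : Submodule F V) (D : V → Prop) : Prop :=
  ∀ v w, v ∉ P → w ∉ P → P ⊔ span F {v} = P ⊔ span F {w} → D v → D w

/-- number of vectors of a point outside `P`. -/
noncomputable def u (P : Submodule F V) : ℕ := Fintype.card F ^ finrank F P * (Fintype.card F - 1)

theorem u_pos (P : Submodule F V) : 0 < u P := by
  have := one_lt_q (F := F)
  unfold u
  have h1 : 0 < Fintype.card F ^ finrank F P := by positivity
  exact Nat.mul_pos h1 (by omega)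

theorem cn_not (D : V → Prop) (A B : Submodule F V) :
    cn D A B + cn (fun v => ¬ D v) A B = cn (fun _ => True) A B := by
  classical
  rw [cn, cn, cn, ← card_union_of_disjoint]
  · congr 1
    ext v
    simp only [mem_filter, mem_univ, true_and, mem_union, and_true]
    tauto
  · rw [disjoint_left]
    intro v hv hv'
    simp only [mem_filter, mem_univ, true_and] at hv hv'
    exact hv'.2.2 hv.2.2

theorem eq_zero_iff {D : V → Prop} {A B : Submodule F V} : cn D A B = 0 ↔ ∀ v ∈ B, v ∉ A → ¬ D v := by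
  classical
  rw [cn, card_eq_zero, filter_eq_empty_iff]
  constructor
  · intro h v hv hvA hD
    exact h (mem_univ v) ⟨hv, hvA, hD⟩
  · intro h v _ hv
    exact h v hv.1 hv.2.1 hv.2.2

theorem full_iff {D : V → Prop} {A B : Submodule F V} :
    cn D A B = cn (fun _ => True) A B ↔ ∀ v ∈ B, v ∉ A → D v := by
  have h1 := cn_not D A B
  have h2 : cn D A B = cn (fun _ => True) A B ↔ cn (fun v => ¬ D v) A B = 0 := by omega
  rw [h2, eq_zero_iff]
  simp only [not_not]

theorem cn_true_add {A B : Submodule F V} (hAB : A ≤ B) (j : ℕ) (h : finrank F B = finrank F A + j) :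
    cn (fun _ : V => True) A B = Fintype.card F ^ finrank F A * (Fintype.card F ^ j - 1) := by
  have h1 := cn_true hAB
  rw [h, pow_add] at h1
  rw [Nat.mul_sub, mul_one]
  omega

theorem sq_sub_one (q : ℕ) (hq : 1 < q) : q ^ 2 - 1 = (q + 1) * (q - 1) := by
  obtain ⟨k, rfl⟩ : ∃ k, q = k + 1 := ⟨q - 1, by omega⟩
  simp only [Nat.add_sub_cancel]
  have : (k + 1) ^ 2 = (k + 1 + 1) * k + 1 := by ring
  omega

theorem cn_true_two {P B : Submodule F V} (hPB : P ≤ B) (h : finrank F B = finrank F P + 2) :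
    cn (fun _ : V => True) P B = (Fintype.card F + 1) * u P := by
  rw [cn_true_add hPB 2 h, sq_sub_one _ one_lt_q, u]
  ring

theorem cn_true_one {P B : Submodule F V} (hPB : P ≤ B) (h : finrank F B = finrank F P + 1) :
    cn (fun _ : V => True) P B = u P := by
  rw [cn_true_add hPB 1 h, pow_one, u]

theorem cn_point {P : Submodule F V} {D : V → Prop} (hI : Inv P D) {v : V} (hv : v ∉ P) (h : D v) :
    cn D P (P ⊔ span F {v}) = u P := by
  rw [← cn_true_one (le_sup_left : P ≤ P ⊔ span F {v}) (finrank_sup_span hv), full_iff]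
  intro w hw hwP
  exact hI v w hv hwP (sup_span_eq hw hwP).symm h

theorem cn_point' {P : Submodule F V} {D : V → Prop} (hI : Inv P D) {v : V} (hv : v ∉ P) (h : ¬ D v) :
    cn D P (P ⊔ span F {v}) = 0 := by
  rw [eq_zero_iff]
  intro w hw hwP hD
  exact h (hI w v hwP hv (sup_span_eq hw hwP) hD)

theorem Inv.not {P : Submodule F V} {D : V → Prop} (hI : Inv P D) : Inv P (fun v => ¬ D v) := by
  intro v w hv hw h h1 h2
  exact h1 (hI w v hw hv h.symm h2)

/-- the intersection numbers with lines. -/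
def Lines (P : Submodule F V) (D : V → Prop) (m : ℕ) : Prop :=
  ∀ B : Submodule F V, P ≤ B → finrank F B = finrank F P + 2 →
    cn D P B = 0 ∨ cn D P B = m * u P ∨ cn D P B = (Fintype.card F + 1) * u P

theorem Lines.not {P : Submodule F V} {D : V → Prop} {m : ℕ} (hm : m ≤ Fintype.card F) (h : Lines P D m) :
    Lines P (fun v => ¬ D v) (Fintype.card F + 1 - m) := by
  intro B hB1 hB2
  have h1 := cn_not D P B
  rw [cn_true_two hB1 hB2] at h1
  have h2 : m * u P + (Fintype.card F + 1 - m) * u P = (Fintype.card F + 1) * u P := by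
    rw [← add_mul]
    congr 1
    omega
  rcases h B hB1 hB2 with h3 | h3 | h3
  · right; right; omega
  · right; left; omega
  · left; omega

/-- the lines through a point in a bigger subspace: `cn D P B` from the lines. -/
theorem cn_of_lines {P : Submodule F V} {D : V → Prop} {v : V} (hv : v ∉ P) {T : Submodule F V}
    (hT : P ⊔ span F {v} ≤ T) {k : ℕ}
    (hk : ∀ C ∈ cov (P ⊔ span F {v}) T, cn D P C = k) :
    cn D P T + (cov (P ⊔ span F {v}) T).card * cn D P (P ⊔ span F {v}) =
      cn D P (P ⊔ span F {v}) + (cov (P ⊔ span F {v}) T).card * k := by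
  rw [sum_cov D (le_sup_left : P ≤ P ⊔ span F {v}) hT, sum_congr rfl hk, sum_const, smul_eq_mul]

theorem line_of_mem_cov {P : Submodule F V} {v : V} (hv : v ∉ P) {T C : Submodule F V}
    (hC : C ∈ cov (P ⊔ span F {v}) T) : P ≤ C ∧ finrank F C = finrank F P + 2 := by
  refine ⟨le_sup_left.trans (le_of_mem_cov hC), ?_⟩
  rw [finrank_of_mem_cov hC, finrank_sup_span hv]

theorem card_cov_three {A B : Submodule F V} (hAB : A ≤ B) (h : finrank F B = finrank F A + 3) :
    (cov A B).card = Fintype.card F ^ 2 + Fintype.card F + 1 := by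
  have h1 := card_cov hAB
  obtain ⟨k, hk⟩ : ∃ k, Fintype.card F = k + 2 := ⟨Fintype.card F - 2, by have := one_lt_q (F := F); omega⟩
  rw [h, hk] at h1
  rw [hk]
  have hpos : 0 < (k + 2) ^ finrank F A := by positivity
  have h2 : (k + 2) ^ finrank F A * ((cov A B).card * (k + 1) + 1) = (k + 2) ^ finrank F A * (k + 2) ^ 3 := by
    rw [pow_add] at h1
    rw [← h1]
    simp only [show k + 2 - 1 = k + 1 by omega]
    ring
  have h3 := Nat.eq_of_mul_eq_mul_left hpos h2
  have h4 : (cov A B).card * (k + 1) = ((k + 2) ^ 2 + (k + 2) + 1) * (k + 1) := by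
    linarith only [h3]
  exact Nat.eq_of_mul_eq_mul_right (by omega) h4

/-- **No set of type `(0, m)` with `2 ≤ m ≤ q - 1` in a solid.** -/
theorem caseA {P : Submodule F V} {D : V → Prop} {m : ℕ} (hI : Inv P D) (h2 : 2 ≤ m) (hm : m + 1 ≤ Fintype.card F)
    (hl : ∀ B : Submodule F V, P ≤ B → finrank F B = finrank F P + 2 → cn D P B = 0 ∨ cn D P B = m * u P)
    (hdim : finrank F P + 4 ≤ finrank F V) {p : V} (hp : p ∉ P) (hD : D p) : False := by
  set q := Fintype.card F with hq
  have hu := u_pos P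
  -- secant lines through `p`
  have hsec : ∀ x, x ∉ P → D x → ∀ T : Submodule F V, P ⊔ span F {x} ≤ T → ∀ C ∈ cov (P ⊔ span F {x}) T,
      cn D P C = m * u P := by
    intro x hx hDx T _ C hC
    obtain ⟨h3, h4⟩ := line_of_mem_cov hx hC
    rcases hl C h3 h4 with h5 | h5
    · exfalso
      rw [eq_zero_iff] at h5
      exact h5 x (le_of_mem_cov hC (mem_sup_right (mem_span_singleton_self _))) hx hDx
    · exact h5
  -- planes and solids
  have hpl : ∀ T : Submodule F V, P ≤ T → finrank F T = finrank F P + 3 → (∃ x ∈ T, x ∉ P ∧ D x) →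
      cn D P T = (1 + (m - 1) * (q + 1)) * u P := by
    rintro T hPT hT ⟨x, hxT, hx, hDx⟩
    have hle : P ⊔ span F {x} ≤ T := sup_le hPT ((span_singleton_le_iff_mem _ _).2 hxT)
    have h3 := cn_of_lines hx hle (hsec x hx hDx T hle)
    rw [cn_point hI hx hDx, card_cov_two hle (by rw [hT, finrank_sup_span hx])] at h3
    obtain ⟨j, rfl⟩ : ∃ j, m = j + 1 := ⟨m - 1, by omega⟩
    simp only [Nat.add_sub_cancel]
    linarith only [h3]
  have hsol : ∀ T : Submodule F V, P ≤ T → finrank F T = finrank F P + 4 → (∃ x ∈ T, x ∉ P ∧ D x) →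
      cn D P T = (1 + (m - 1) * (q ^ 2 + q + 1)) * u P := by
    rintro T hPT hT ⟨x, hxT, hx, hDx⟩
    have hle : P ⊔ span F {x} ≤ T := sup_le hPT ((span_singleton_le_iff_mem _ _).2 hxT)
    have h3 := cn_of_lines hx hle (hsec x hx hDx T hle)
    rw [cn_point hI hx hDx, card_cov_three hle (by rw [hT, finrank_sup_span hx])] at h3
    obtain ⟨j, rfl⟩ : ∃ j, m = j + 1 := ⟨m - 1, by omega⟩
    simp only [Nat.add_sub_cancel]
    linarith only [h3]
  -- a plane `T` and a solid `S`
  obtain ⟨T, hT1, hT2⟩ := exists_finrank (P ⊔ span F {p}) 2 (by rw [finrank_sup_span hp]; omega)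
  obtain ⟨S, hS1, hS2⟩ := exists_finrank T 1 (by rw [hT2, finrank_sup_span hp]; omega)
  have hPT : P ≤ T := le_sup_left.trans hT1
  have hPS : P ≤ S := hPT.trans hS1
  have hT3 : finrank F T = finrank F P + 3 := by rw [hT2, finrank_sup_span hp]
  have hS3 : finrank F S = finrank F P + 4 := by rw [hS2, hT3]
  have hpT : p ∈ T := hT1 (mem_sup_right (mem_span_singleton_self _))
  have hcT := hpl T hPT hT3 ⟨p, hpT, hp, hD⟩
  have hcS := hsol S hPS hS3 ⟨p, hS1 hpT, hp, hD⟩
  -- a point `r` of `T` outside the set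
  obtain ⟨r, hrT, hr, hDr⟩ : ∃ r ∈ T, r ∉ P ∧ ¬ D r := by
    by_contra hcon
    push Not at hcon
    obtain ⟨C, hC1, hC3, hC2⟩ := exists_finrank_between hT1 1 (by rw [hT2]; omega)
    have h5 : cn D P C = cn (fun _ => True) P C := by
      rw [full_iff]
      intro v hv hvP
      exact hcon v (hC3 hv) hvP
    have hPC : P ≤ C := le_sup_left.trans hC1
    have hC4 : finrank F C = finrank F P + 2 := by rw [hC2, finrank_sup_span hp]
    rw [cn_true_two hPC hC4] at h5
    rcases hl C hPC hC4 with h6 | h6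
    · rw [h6] at h5
      have : 0 < (Fintype.card F + 1) * u P := by positivity
      omega
    · rw [h6] at h5
      have := Nat.eq_of_mul_eq_mul_right hu h5
      omega
  have hrle : P ⊔ span F {r} ≤ T := sup_le hPT ((span_singleton_le_iff_mem _ _).2 hrT)
  -- an exterior line through `r`
  obtain ⟨L, hL, hL0⟩ : ∃ L ∈ cov (P ⊔ span F {r}) T, cn D P L = 0 := by
    by_contra hcon
    push Not at hcon
    have h5 : ∀ C ∈ cov (P ⊔ span F {r}) T, cn D P C = m * u P := by
      intro C hC
      obtain ⟨h3, h4⟩ := line_of_mem_cov hr hC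
      rcases hl C h3 h4 with h6 | h6
      · exact absurd h6 (hcon C hC)
      · exact h6
    have h6 := cn_of_lines hr hrle h5
    rw [cn_point' hI hr hDr, card_cov_two hrle (by rw [hT3, finrank_sup_span hr]), hcT] at h6
    have h7 : (1 + (m - 1) * (q + 1)) * u P = ((q + 1) * m) * u P := by
      linarith only [h6]
    have h8 := Nat.eq_of_mul_eq_mul_right hu h7
    obtain ⟨j, rfl⟩ : ∃ j, m = j + 1 := ⟨m - 1, by omega⟩
    simp only [Nat.add_sub_cancel] at h8
    linarith only [hm, h8]
  obtain ⟨hPL, hL2⟩ := line_of_mem_cov hr hL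
  have hLT : L ≤ T := le_of_mem_cov' hrle hL
  have hLS : L ≤ S := hLT.trans hS1
  have h5 := sum_cov D hPL hLS
  rw [hL0, mul_zero, add_zero, zero_add] at h5
  have h6 : (1 + (m - 1) * (q + 1)) * u P ∣ ∑ C ∈ cov L S, cn D P C := by
    apply dvd_sum
    intro C hC
    have hPC : P ≤ C := hPL.trans (le_of_mem_cov hC)
    have hC3 : finrank F C = finrank F P + 3 := by rw [finrank_of_mem_cov hC, hL2]
    by_cases h7 : ∃ x ∈ C, x ∉ P ∧ D x
    · rw [hpl C hPC hC3 h7]
    · have : cn D P C = 0 := by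
        rw [eq_zero_iff]
        intro v hv hvP hDv
        exact h7 ⟨v, hv, hvP, hDv⟩
      rw [this]
      exact dvd_zero _
  rw [← h5, hcS] at h6
  have h7 := Nat.dvd_of_mul_dvd_mul_right hu h6
  -- arithmetic
  obtain ⟨j, rfl⟩ : ∃ j, m = j + 1 := ⟨m - 1, by omega⟩
  simp only [Nat.add_sub_cancel] at h7
  obtain ⟨i, hi⟩ : ∃ i, q = j + 1 + (i + 1) := ⟨q - (j + 2), by omega⟩
  have h8 : q * (1 + j * (q + 1)) = (1 + j * (q ^ 2 + q + 1)) + (i + 1) := by
    rw [hi]
    ring
  have h9 : 1 + j * (q + 1) ∣ i + 1 := by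
    have h10 : 1 + j * (q + 1) ∣ (1 + j * (q ^ 2 + q + 1)) + (i + 1) := by
      rw [← h8]
      exact dvd_mul_left _ _
    exact (Nat.dvd_add_right h7).1 h10
  have h10 := Nat.le_of_dvd (by omega) h9
  have h11 : q + 1 ≤ j * (q + 1) := Nat.le_mul_of_pos_left _ (by omega)
  omega

/-- a plane containing a full line and a point outside the set. -/
theorem mixed_plane {P : Submodule F V} {D : V → Prop} {m : ℕ} (hI : Inv P D) (h1 : 1 ≤ m)
    (hm : m ≤ Fintype.card F) (hl : Lines P D m) {L : Submodule F V} (hPL : P ≤ L) (hL2 : finrank F L = finrank F P + 2)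
    (hL : ∀ v ∈ L, v ∉ P → D v) {r : V} (hr : r ∉ P) (hDr : ¬ D r) :
    Fintype.card F + 1 - m ∣ Fintype.card F := by
  classical
  set q := Fintype.card F with hq
  have hu := u_pos P
  have hrL : r ∉ L := fun h => hDr (hL r h hr)
  set T : Submodule F V := L ⊔ span F {r} with hTdef
  have hLT : L ≤ T := le_sup_left
  have hPT : P ≤ T := hPL.trans hLT
  have hrT : r ∈ T := mem_sup_right (mem_span_singleton_self _)
  have hT3 : finrank F T = finrank F P + 3 := by rw [hTdef, finrank_sup_span hrL, hL2]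
  have hrle : P ⊔ span F {r} ≤ T := sup_le hPT ((span_singleton_le_iff_mem _ _).2 hrT)
  have h5 : ∀ C ∈ cov (P ⊔ span F {r}) T, cn D P C = m * u P := by
    intro C hC
    obtain ⟨h3, h4⟩ := line_of_mem_cov hr hC
    have hCT : C ≤ T := le_of_mem_cov' hrle hC
    rcases hl C h3 h4 with h6 | h6 | h6
    · exfalso
      -- `C` meets `L` outside `P`
      have h7 := finrank_sup_add_finrank_inf_eq C L
      have h8 : finrank F ↥(C ⊔ L) ≤ finrank F T := finrank_mono (sup_le hCT hLT)
      have h9 : finrank F P + 1 ≤ finrank F ↥(C ⊓ L) := by omega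
      obtain ⟨x, hx, hxP⟩ : ∃ x ∈ C ⊓ L, x ∉ P := by
        by_contra hcon
        push Not at hcon
        have : C ⊓ L ≤ P := hcon
        have := finrank_mono this
        omega
      rw [eq_zero_iff] at h6
      exact h6 x hx.1 hxP (hL x hx.2 hxP)
    · exact h6
    · exfalso
      rw [← cn_true_two h3 h4, full_iff] at h6
      exact hDr (h6 r (le_of_mem_cov hC (mem_sup_right (mem_span_singleton_self _))) hr)
  have h6 := cn_of_lines hr hrle h5
  rw [cn_point' hI hr hDr, card_cov_two hrle (by rw [hT3, finrank_sup_span hr]), mul_zero, add_zero, zero_add] at h6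
  -- a point of the set
  obtain ⟨p, hpL, hp⟩ : ∃ p ∈ L, p ∉ P := by
    by_contra hcon
    push Not at hcon
    have : L ≤ P := hcon
    have := finrank_mono this
    omega
  have hDp := hL p hpL hp
  have hple : P ⊔ span F {p} ≤ T := sup_le hPT ((span_singleton_le_iff_mem _ _).2 (hLT hpL))
  have h7 := sum_cov D (le_sup_left : P ≤ P ⊔ span F {p}) hple
  rw [cn_point hI hp hDp, card_cov_two hple (by rw [hT3, finrank_sup_span hp]), h6] at h7
  -- number of full lines
  set φ := ((cov (P ⊔ span F {p}) T).filter fun C => cn D P C = (q + 1) * u P).card with hφ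
  have h8 : ∑ C ∈ cov (P ⊔ span F {p}) T, cn D P C = ∑ C ∈ cov (P ⊔ span F {p}) T,
      (m * u P + if cn D P C = (q + 1) * u P then (q + 1 - m) * u P else 0) := by
    apply sum_congr rfl
    intro C hC
    obtain ⟨h3, h4⟩ := line_of_mem_cov hp hC
    split_ifs with h9
    · rw [h9, ← add_mul]
      congr 1
      omega
    · rcases hl C h3 h4 with h10 | h10 | h10
      · exfalso
        rw [eq_zero_iff] at h10
        exact h10 p (le_of_mem_cov hC (mem_sup_right (mem_span_singleton_self _))) hp hDp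
      · rw [h10, add_zero]
      · exact absurd h10 h9
  rw [h8, sum_add_distrib, sum_const, ← sum_filter, sum_const, ← hφ, smul_eq_mul, smul_eq_mul,
    card_cov_two hple (by rw [hT3, finrank_sup_span hp])] at h7
  have h9 : q * u P = (φ * (q + 1 - m)) * u P := by
    have : φ * ((q + 1 - m) * u P) = (φ * (q + 1 - m)) * u P := by ring
    rw [← this]
    have h11 : (q + 1) * u P = q * u P + u P := by ring
    have h12 : (q + 1) * (m * u P) + (q + 1) * u P = u P + ((q + 1) * (m * u P) + φ * ((q + 1 - m) * u P)) := h7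
    omega
  have h10 := Nat.eq_of_mul_eq_mul_right hu h9
  exact ⟨φ, by rw [mul_comm]; exact h10⟩

/-- a set closed under joining points is a subspace. -/
theorem subspace_of_closed {P : Submodule F V} {D : V → Prop} (hI : Inv P D)
    (h : ∀ v w, v ∉ P → w ∉ P → D v → D w → w ∉ P ⊔ span F {v} →
      ∀ x ∈ (P ⊔ span F {v}) ⊔ span F {w}, x ∉ P → D x) :
    ∃ U : Submodule F V, ∀ v, v ∈ U ↔ v ∈ P ∨ D v ∧ v ∉ P := by
  refine ⟨{ carrier := {v | v ∈ P ∨ D v ∧ v ∉ P}
            add_mem' := ?_
            zero_mem' := Or.inl (zero_mem _)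
            smul_mem' := ?_ }, fun v => Iff.rfl⟩
  · have key : ∀ a b : V, D b → b ∉ P → a ∈ P → D (a + b) ∧ a + b ∉ P := by
      intro a b hb hbP ha
      have h1 : a + b ∉ P := fun hc => hbP ((add_mem_cancel_left ha).1 hc)
      refine ⟨hI b (a + b) hbP h1 ?_ hb, h1⟩
      exact (sup_span_eq (add_mem (mem_sup_left ha) (mem_sup_right (mem_span_singleton_self _))) h1).symm
    rintro a b (ha | ⟨ha, haP⟩) (hb | ⟨hb, hbP⟩)
    · exact Or.inl (add_mem ha hb)
    · exact Or.inr (key a b hb hbP ha)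
    · rw [add_comm]
      exact Or.inr (key b a ha haP hb)
    · by_cases hab : a + b ∈ P
      · exact Or.inl hab
      · refine Or.inr ⟨?_, hab⟩
        by_cases hba : b ∈ P ⊔ span F {a}
        · refine hI a (a + b) haP hab ?_ ha
          exact (sup_span_eq (add_mem (mem_sup_right (mem_span_singleton_self _)) hba) hab).symm
        · exact h a b haP hbP ha hb hba (a + b)
            (add_mem (mem_sup_left (mem_sup_right (mem_span_singleton_self _)))
              (mem_sup_right (mem_span_singleton_self _))) hab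
  · rintro c a (ha | ⟨ha, haP⟩)
    · exact Or.inl (smul_mem _ _ ha)
    · by_cases hc : c = 0
      · rw [hc, zero_smul]
        exact Or.inl (zero_mem _)
      · have h1 : c • a ∉ P := fun h => haP (by
          have := smul_mem P c⁻¹ h
          rwa [smul_smul, inv_mul_cancel₀ hc, one_smul] at this)
        refine Or.inr ⟨hI a (c • a) haP h1 ?_ ha, h1⟩
        exact (sup_span_eq (smul_mem _ _ (mem_sup_right (mem_span_singleton_self _))) h1).symm

/-- **Sets of type `(0, 1, q + 1)` are subspaces.** -/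
theorem of_one {P : Submodule F V} {D : V → Prop} (hI : Inv P D) (hl : Lines P D 1) :
    ∃ U : Submodule F V, ∀ v, v ∈ U ↔ v ∈ P ∨ D v ∧ v ∉ P := by
  apply subspace_of_closed hI
  intro v w hv hw hDv hDw hne x hx hxP
  have hPL : P ≤ (P ⊔ span F {v}) ⊔ span F {w} := le_sup_left.trans le_sup_left
  have hL2 : finrank F ↥((P ⊔ span F {v}) ⊔ span F {w}) = finrank F P + 2 := by
    rw [finrank_sup_span hne, finrank_sup_span hv]
  have hu := u_pos P
  rcases hl _ hPL hL2 with h1 | h1 | h1
  · exfalso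
    rw [eq_zero_iff] at h1
    exact h1 v (mem_sup_left (mem_sup_right (mem_span_singleton_self _))) hv hDv
  · exfalso
    have h2 := cn_split D (le_sup_left : P ≤ P ⊔ span F {v}) (le_sup_left : P ⊔ span F {v} ≤ (P ⊔ span F {v}) ⊔ span F {w})
    rw [h1, cn_point hI hv hDv, one_mul] at h2
    have h3 : cn D (P ⊔ span F {v}) ((P ⊔ span F {v}) ⊔ span F {w}) = 0 := by omega
    rw [eq_zero_iff] at h3
    exact h3 w (mem_sup_right (mem_span_singleton_self _)) hne hDw
  · rw [← cn_true_two hPL hL2, full_iff] at h1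
    exact h1 x hx hxP

/-- **Sets of points meeting every line in `0`, `m` or `q + 1` points.** -/
theorem lemS {P : Submodule F V} {D : V → Prop} {m : ℕ} (hI : Inv P D) (h1 : 1 ≤ m) (hm : m ≤ Fintype.card F)
    (hl : Lines P D m) (hdim : finrank F P + 4 ≤ finrank F V) (hex : ∃ p, p ∉ P ∧ D p) (hex' : ∃ r, r ∉ P ∧ ¬ D r) :
    (∃ U : Submodule F V, ∀ v, v ∈ U ↔ v ∈ P ∨ D v ∧ v ∉ P) ∨
      (∃ U : Submodule F V, ∀ v, v ∈ U ↔ v ∈ P ∨ ¬ D v ∧ v ∉ P) := by
  obtain ⟨p, hp, hDp⟩ := hex
  obtain ⟨r, hr, hDr⟩ := hex'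
  have hl' := hl.not hm
  rcases Nat.lt_or_ge 1 m with h2 | h2
  · rcases Nat.lt_or_ge m (Fintype.card F) with h3 | h3
    · exfalso
      -- full lines?
      by_cases hf : ∃ B : Submodule F V, P ≤ B ∧ finrank F B = finrank F P + 2 ∧
          cn D P B = (Fintype.card F + 1) * u P
      · by_cases he : ∃ B : Submodule F V, P ≤ B ∧ finrank F B = finrank F P + 2 ∧ cn D P B = 0
        · obtain ⟨B, hB1, hB2, hB3⟩ := hf
          obtain ⟨B', hB1', hB2', hB3'⟩ := he
          rw [← cn_true_two hB1 hB2, full_iff] at hB3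
          rw [eq_zero_iff] at hB3'
          have h4 := mixed_plane hI h1 hm hl hB1 hB2 hB3 hr hDr
          have h5 := mixed_plane hI.not (by omega) (by omega) hl' hB1' hB2' hB3' hp (not_not.2 hDp)
          have h6 : Fintype.card F + 1 - (Fintype.card F + 1 - m) = m := by omega
          rw [h6] at h5
          obtain ⟨a, ha⟩ := h4
          obtain ⟨b, hb⟩ := h5
          have hb2 : 2 ≤ b := by
            rcases Nat.lt_or_ge b 2 with h | h
            · interval_cases b
              · omega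
              · omega
            · exact h
          have ha2 : 2 ≤ a := by
            rcases Nat.lt_or_ge a 2 with h | h
            · interval_cases a
              · omega
              · omega
            · exact h
          have h7 : m * 2 ≤ m * b := Nat.mul_le_mul_left _ hb2
          have h8 : (Fintype.card F + 1 - m) * 2 ≤ (Fintype.card F + 1 - m) * a := Nat.mul_le_mul_left _ ha2
          omega
        · -- no exterior lines
          refine caseA (m := Fintype.card F + 1 - m) hI.not (by omega) (by omega) ?_ hdim hr hDr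
          intro B hB1 hB2
          rcases hl' B hB1 hB2 with h4 | h4 | h4
          · exact Or.inl h4
          · exact Or.inr h4
          · exfalso
            apply he
            refine ⟨B, hB1, hB2, ?_⟩
            have h5 := cn_not D P B
            rw [cn_true_two hB1 hB2] at h5
            omega
      · refine caseA hI h2 (by omega) ?_ hdim hp hDp
        intro B hB1 hB2
        rcases hl B hB1 hB2 with h4 | h4 | h4
        · exact Or.inl h4
        · exact Or.inr h4
        · exact absurd ⟨B, hB1, hB2, h4⟩ hf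
    · right
      have h4 : Fintype.card F + 1 - m = 1 := by omega
      rw [h4] at hl'
      exact of_one hI.not hl'
  · left
    have : m = 1 := by omega
    subst this
    exact of_one hI hl

end Cfsg.Agent.H87.LemS
end

-- part: H87/Geo3
section
/-!
# Linear groups with two orbits on points and on lines

`geo3` : a linear group with two orbits on points, two orbits on lines and at most three orbits on incident point-line
pairs leaves a proper subspace invariant.
-/

set_option autoImplicit false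
set_option linter.unusedSectionVars false

namespace Cfsg.Agent.H87.Geo3

open Finset Submodule Module MulAction
open Cfsg.Agent.H87.Cov Cfsg.Agent.H87.LemS Cfsg.Agent.H87.Flags Cfsg.Agent.H87.Orb
open scoped Pointwise

variable {F V : Type*} [Field F] [Fintype F] [AddCommGroup V] [Module F V] [Fintype V]

/-- the number of vectors with `D` on a line is a multiple of the size of a point. -/
theorem exists_mul {P : Submodule F V} {D : V → Prop} (hI : _root_.Cfsg.Agent.H87.LemS.Inv P D) {B : Submodule F V} (hPB : P ≤ B)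
    (h : finrank F B = finrank F P + 2) : ∃ m ≤ Fintype.card F + 1, cn D P B = m * u P := by
  classical
  refine ⟨((cov P B).filter fun C => cn D P C = u P).card, ?_, ?_⟩
  · rw [← card_cov_two hPB h]
    exact card_filter_le _ _
  · rw [cn_eq_sum D hPB, card_filter, sum_mul]
    apply sum_congr rfl
    intro C hC
    obtain ⟨v, _, hv, rfl⟩ := mem_cov.1 hC
    by_cases hD : D v
    · rw [cn_point hI hv hD, if_pos rfl, one_mul]
    · rw [cn_point' hI hv hD, if_neg (u_pos P).ne, zero_mul]

variable {H : Type*} [Group H] [DistribMulAction H V] [SMulCommClass H F V]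

/-- the number of vectors is invariant. -/
theorem cn_smul (D : V → Prop) (hD : ∀ (h : H) (v : V), D v → D (h • v)) (h : H) (A B : Submodule F V) :
    cn D (h • A) (h • B) = cn D A B := by
  classical
  have hD' : ∀ (h : H) (v : V), D (h • v) → D v := by
    intro h v hv
    have := hD h⁻¹ _ hv
    rwa [inv_smul_smul] at this
  symm
  refine card_bij (fun v _ => h • v) ?_ ?_ ?_
  · intro v hv
    simp only [mem_filter, mem_univ, true_and] at hv ⊢
    exact ⟨smul_mem_smul.2 hv.1, fun hh => hv.2.1 (smul_mem_smul.1 hh), hD h v hv.2.2⟩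
  · intro v _ w _ e
    exact smul_left_cancel h e
  · intro v hv
    simp only [mem_filter, mem_univ, true_and] at hv
    refine ⟨h⁻¹ • v, ?_, smul_inv_smul h v⟩
    simp only [mem_filter, mem_univ, true_and]
    exact ⟨mem_smul_iff.1 hv.1, fun hh => hv.2.1 (mem_smul_iff.2 hh), hD h⁻¹ v hv.2.2⟩

/-- the point of a vector. -/
def pt (v : V) (hv : v ≠ 0) : Fl F V ![1] :=
  ⟨fun _ => span F {v}, fun _ _ _ => le_rfl, fun i => by
    fin_cases i
    exact finrank_span_singleton hv⟩

/-- the line of a subspace. -/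
def ln (B : Submodule F V) (hB : finrank F B = 2) : Fl F V ![2] :=
  ⟨fun _ => B, fun _ _ _ => le_rfl, fun i => by
    fin_cases i
    exact hB⟩

/-- a flag. -/
def fl12 (A B : Submodule F V) (hA : finrank F A = 1) (hB : finrank F B = 2) (h : A ≤ B) : Fl F V ![1, 2] :=
  ⟨![A, B], by
    intro i j hij
    fin_cases i <;> fin_cases j
    · exact le_rfl
    · exact h
    · exact absurd hij (by decide)
    · exact le_rfl, fun i => by
    fin_cases i
    · exact hA
    · exact hB⟩

theorem pt_eq {v w : V} (hv : v ≠ 0) (hw : w ≠ 0) (h : span F {v} = span F {w}) :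
    pt (F := F) v hv = pt w hw := Subtype.ext (funext fun _ => h)

theorem smul_pt (h : H) {v : V} (hv : v ≠ 0) (hv' : h • v ≠ 0) : h • pt (F := F) v hv = pt (h • v) hv' := by
  apply Subtype.ext
  funext i
  rw [smul_val]
  exact act_span h v

/-- every point is the point of a vector. -/
theorem exists_pt (W : Fl F V ![1]) : ∃ (v : V) (hv : v ≠ 0), pt (F := F) v hv = W := by
  have h3 : finrank F ↥(W.1 0) = 1 := W.2.2 0
  obtain ⟨v, hv, hv'⟩ := finrank_eq_one_iff'.1 h3
  have hv0 : (v : V) ≠ 0 := fun h0 => hv (Subtype.ext h0)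
  refine ⟨v, hv0, ?_⟩
  apply Subtype.ext
  funext i
  fin_cases i
  change span F {(v : V)} = W.1 0
  apply eq_of_le_of_finrank_eq
  · rw [span_singleton_le_iff_mem]
    exact v.2
  · rw [finrank_span_singleton hv0, h3]

/-- the point of a flag. -/
def p1 (W : Fl F V ![1, 2]) : Fl F V ![1] := ⟨fun _ => W.1 0, fun _ _ _ => le_rfl, fun i => by
  fin_cases i
  exact W.2.2 0⟩

/-- the line of a flag. -/
def p2 (W : Fl F V ![1, 2]) : Fl F V ![2] := ⟨fun _ => W.1 1, fun _ _ _ => le_rfl, fun i => by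
  fin_cases i
  exact W.2.2 1⟩

theorem smul_p1 (h : H) (W : Fl F V ![1, 2]) : h • p1 W = p1 (h • W) := rfl

theorem smul_p2 (h : H) (W : Fl F V ![1, 2]) : h • p2 W = p2 (h • W) := rfl

theorem p1_fl12 (A B : Submodule F V) (hA : finrank F A = 1) (hB : finrank F B = 2) (h : A ≤ B) {v : V} (hv : v ≠ 0)
    (e : A = span F {v}) : p1 (fl12 A B hA hB h) = pt v hv := Subtype.ext (funext fun _ => e)

theorem p2_fl12 (A B : Submodule F V) (hA : finrank F A = 1) (hB : finrank F B = 2) (h : A ≤ B) :
    p2 (fl12 A B hA hB h) = ln B hB := Subtype.ext (funext fun _ => rfl)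

theorem act_bot (h : H) : h • (⊥ : Submodule F V) = ⊥ := by
  rw [eq_bot_iff]
  intro x hx
  rw [mem_smul_iff, mem_bot, smul_eq_zero_iff_eq] at hx
  exact hx

theorem geo3 (hdim : 4 ≤ finrank F V) (h1 : nOrb H (Fl F V ![1]) = 2) (h2 : nOrb H (Fl F V ![2]) = 2)
    (h12 : nOrb H (Fl F V ![1, 2]) ≤ 3) :
    ∃ U : Submodule F V, U ≠ ⊥ ∧ U ≠ ⊤ ∧ ∀ h : H, h • U = U := by
  classical
  -- classes
  obtain ⟨c1, hs1, hc1⟩ := exists_class h1
  obtain ⟨c2, hs2, hc2⟩ := exists_class h2
  -- a missing pair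
  obtain ⟨⟨a, c⟩, hac⟩ : ∃ t : Fin 2 × Fin 2, ¬ ∃ W, (c1 (p1 W), c2 (p2 W)) = t := by
    by_contra hcon
    push Not at hcon
    have h3 := card_le_nOrb (G := H) (fun W : Fl F V ![1, 2] => (c1 (p1 W), c2 (p2 W))) (by
      intro g W
      apply Prod.ext
      · exact (hc1 _ _).2 ⟨g, smul_p1 g W⟩
      · exact (hc2 _ _).2 ⟨g, smul_p2 g W⟩) univ (fun t _ => hcon t)
    rw [card_univ, Fintype.card_prod, Fintype.card_fin] at h3
    omega
  -- the set of points
  let D : V → Prop := fun v => ∃ hv : v ≠ 0, c1 (pt v hv) = a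
  have hDs : ∀ (h : H) (v : V), D v → D (h • v) := by
    rintro h v ⟨hv, e⟩
    have hv' : h • v ≠ 0 := fun h0 => hv ((smul_eq_zero_iff_eq h).1 h0)
    refine ⟨hv', ?_⟩
    rw [← e]
    exact (hc1 _ _).2 ⟨h, smul_pt h hv hv'⟩
  have hI : _root_.Cfsg.Agent.H87.LemS.Inv (⊥ : Submodule F V) D := by
    rintro v w hv hw e ⟨hv', e'⟩
    rw [bot_sup_eq, bot_sup_eq] at e
    have hw' : w ≠ 0 := fun h0 => hw (by rw [h0]; exact zero_mem _)
    refine ⟨hw', ?_⟩
    rw [← e', pt_eq hw' hv' e.symm]
  -- lines of class `c` contain no point of the set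
  have hcl : ∀ (B : Submodule F V) (hB : finrank F B = 2), c2 (ln B hB) = c → cn D ⊥ B = 0 := by
    intro B hB e
    rw [eq_zero_iff]
    rintro v hv hv0 ⟨hv', e'⟩
    refine hac ⟨fl12 (span F {v}) B (finrank_span_singleton hv') hB ((span_singleton_le_iff_mem _ _).2 hv), ?_⟩
    rw [p1_fl12 _ _ _ _ _ hv' rfl, p2_fl12, e', e]
  -- the other lines are conjugate
  have hcl' : ∀ (B B' : Submodule F V) (hB : finrank F B = 2) (hB' : finrank F B' = 2), c2 (ln B hB) ≠ c →
      c2 (ln B' hB') ≠ c → cn D ⊥ B = cn D ⊥ B' := by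
    intro B B' hB hB' e e'
    have h3 : c2 (ln B hB) = c2 (ln B' hB') := by
      generalize c2 (ln B hB) = t at e ⊢
      generalize c2 (ln B' hB') = t' at e' ⊢
      omega
    obtain ⟨g, hg⟩ := (hc2 _ _).1 h3
    have h4 : g • B' = B := congrArg (fun W => W.1 0) hg
    rw [← h4]
    have := cn_smul (F := F) D hDs g ⊥ B'
    rwa [act_bot] at this
  -- representatives of both classes of points
  obtain ⟨b, hb⟩ : ∃ b : Fin 2, b ≠ a := exists_ne a
  have hrep : ∀ t : Fin 2, ∃ (v : V) (hv : v ≠ 0), c1 (pt (F := F) v hv) = t := by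
    intro t
    obtain ⟨W, hW⟩ := hs1 t
    obtain ⟨v, hv, e⟩ := exists_pt W
    exact ⟨v, hv, by rw [e, hW]⟩
  obtain ⟨va, hva, eva⟩ := hrep a
  obtain ⟨vb, hvb, evb⟩ := hrep b
  have hDa : D va := ⟨hva, eva⟩
  have hDb : ¬ D vb := by
    rintro ⟨h, e⟩
    exact hb (evb.symm.trans e)
  have hnot : vb ∉ (⊥ ⊔ span F {va} : Submodule F V) := by
    intro h3
    apply hDb
    have hvb' : vb ∉ (⊥ : Submodule F V) := by rwa [mem_bot]
    have hva' : va ∉ (⊥ : Submodule F V) := by rwa [mem_bot]
    exact hI va vb hva' hvb' (sup_span_eq h3 hvb').symm hDa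
  set L : Submodule F V := (⊥ ⊔ span F {va}) ⊔ span F {vb} with hL
  have hL2 : finrank F L = finrank F (⊥ : Submodule F V) + 2 := by
    rw [hL, finrank_sup_span hnot, finrank_sup_span (by rwa [mem_bot])]
  have hL2' : finrank F L = 2 := by rw [hL2, finrank_bot]
  have hvaL : va ∈ L := mem_sup_left (mem_sup_right (mem_span_singleton_self _))
  have hvbL : vb ∈ L := mem_sup_right (mem_span_singleton_self _)
  obtain ⟨m, hm, em⟩ := exists_mul hI (bot_le : ⊥ ≤ L) hL2
  have hm0 : m ≠ 0 := by
    rintro rfl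
    rw [zero_mul, eq_zero_iff] at em
    exact em va hvaL (by rwa [mem_bot]) hDa
  have hmq : m ≠ Fintype.card F + 1 := by
    rintro rfl
    rw [← cn_true_two bot_le hL2, full_iff] at em
    exact hDb (em vb hvbL (by rwa [mem_bot]))
  have hLc : c2 (ln L hL2') ≠ c := by
    intro e
    have := hcl L hL2' e
    rw [this] at em
    have hu := u_pos (⊥ : Submodule F V)
    rcases Nat.mul_eq_zero.1 em.symm with h | h
    · exact hm0 h
    · omega
  have hlines : Lines (⊥ : Submodule F V) D m := by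
    intro B _ hB
    have hB' : finrank F B = 2 := by rw [hB, finrank_bot]
    by_cases hBc : c2 (ln B hB') = c
    · exact Or.inl (hcl B hB' hBc)
    · right; left
      rw [hcl' B L hB' hL2' hBc hLc, em]
  rcases lemS hI (by omega) (by omega) hlines (by rw [finrank_bot]; omega) ⟨va, by rwa [mem_bot], hDa⟩
    ⟨vb, by rwa [mem_bot], hDb⟩ with ⟨U, hU⟩ | ⟨U, hU⟩
  · refine ⟨U, ?_, ?_, ?_⟩
    · rintro rfl
      have := (hU va).2 (Or.inr ⟨hDa, by rwa [mem_bot]⟩)
      rw [mem_bot] at this
      exact hva this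
    · rintro rfl
      rcases (hU vb).1 mem_top with h | h
      · rw [mem_bot] at h
        exact hvb h
      · exact hDb h.1
    · have key : ∀ h : H, h • U ≤ U := by
        intro h x hx
        rw [mem_smul_iff, hU] at hx
        rw [hU]
        rcases hx with h3 | ⟨h3, h4⟩
        · left
          rwa [mem_bot, smul_eq_zero_iff_eq, ← mem_bot F] at h3
        · right
          have h5 := hDs h _ h3
          rw [smul_inv_smul] at h5
          refine ⟨h5, ?_⟩
          rwa [mem_bot, smul_eq_zero_iff_eq, ← mem_bot F] at h4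
      intro h
      exact eq_of_le_of_finrank_eq (key h) (Flags.finrank_smul h U)
  · refine ⟨U, ?_, ?_, ?_⟩
    · rintro rfl
      have := (hU vb).2 (Or.inr ⟨hDb, by rwa [mem_bot]⟩)
      rw [mem_bot] at this
      exact hvb this
    · rintro rfl
      rcases (hU va).1 mem_top with h | h
      · rw [mem_bot] at h
        exact hva h
      · exact h.1 hDa
    · have key : ∀ h : H, h • U ≤ U := by
        intro h x hx
        rw [mem_smul_iff, hU] at hx
        rw [hU]
        rcases hx with h3 | ⟨h3, h4⟩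
        · left
          rwa [mem_bot, smul_eq_zero_iff_eq, ← mem_bot F] at h3
        · right
          refine ⟨fun h5 => h3 (hDs _ _ h5), ?_⟩
          rwa [mem_bot, smul_eq_zero_iff_eq, ← mem_bot F] at h4
      intro h
      exact eq_of_le_of_finrank_eq (key h) (Flags.finrank_smul h U)

end Cfsg.Agent.H87.Geo3
end

private theorem dce_879e2c4f8324 : _root_.True := by
  try have : _root_.True := by simp only [_root_.Cfsg.Agent.H87.Cov.cn.eq_1]
  try have : _root_.True := by simp only [_root_.Cfsg.Agent.H87.Cov.cov.eq_1]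
  try have : _root_.True := by simp only [_root_.Cfsg.Agent.H87.LemS.u.eq_1]
  exact _root_.True.intro
end

-- part: H87/Red
section
prune_inst 0x10000000000000000000000000000000000000000000000000000000000000000000000000000000000000000000000008800000000000000000000000400008000000000000000000001000000000000000000000000000000000000000000000000002
set_option linter.all false
open scoped Cfsg.Agent.FastGrp

-- part: H87/MargCount
section
/-!
# Counting `ℕ`-matrices with given margins

`comp l` is the composition with parts the list `l` (and zeros); the numbers of matrices with row sums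
`comp l` and column sums `(1, n-1)`, `(2, n-2)`, `(1, 1, n-2)`.
-/

set_option autoImplicit false

namespace Cfsg.Agent.H87.MargCount

open Finset Cfsg.Agent.H139.Young

variable {n : ℕ}

/-- The composition with the parts of the list `l`, followed by zeros. -/
def comp (n : ℕ) (l : List ℕ) : Fin n → ℕ := fun i => l.getD i.val 0

theorem sum_three (hn : 3 ≤ n) (f : Fin n → ℕ) (h : ∀ j : Fin n, 3 ≤ j.val → f j = 0) :
    ∑ j, f j = f ⟨0, by omega⟩ + f ⟨1, by omega⟩ + f ⟨2, by omega⟩ := by
  obtain ⟨k, rfl⟩ : ∃ k, n = k + 3 := ⟨n - 3, by omega⟩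
  rw [Fin.sum_univ_succ, Fin.sum_univ_succ, Fin.sum_univ_succ]
  have : ∑ i : Fin k, f i.succ.succ.succ = 0 := by
    apply sum_eq_zero
    intro i _
    apply h
    simp
  rw [this, add_zero, ← add_assoc]
  rfl

theorem sum_four (hn : 4 ≤ n) (f : Fin n → ℕ) (h : ∀ j : Fin n, 4 ≤ j.val → f j = 0) :
    ∑ j, f j = f ⟨0, by omega⟩ + f ⟨1, by omega⟩ + f ⟨2, by omega⟩ + f ⟨3, by omega⟩ := by
  obtain ⟨k, rfl⟩ : ∃ k, n = k + 4 := ⟨n - 4, by omega⟩
  rw [Fin.sum_univ_succ, Fin.sum_univ_succ, Fin.sum_univ_succ, Fin.sum_univ_succ]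
  have : ∑ i : Fin k, f i.succ.succ.succ.succ = 0 := by
    apply sum_eq_zero
    intro i _
    apply h
    simp
  rw [this, add_zero, ← add_assoc, ← add_assoc]
  rfl

/-- pairs of columns. -/
def Cols (a : Fin n → ℕ) (b0 b1 : ℕ) : Type :=
  {p : (Fin n → ℕ) × (Fin n → ℕ) // (∀ i, p.1 i + p.2 i ≤ a i) ∧ ∑ i, p.1 i = b0 ∧ ∑ i, p.2 i = b1}

/-- the matrix with given first two columns. -/
def fill (a c c' : Fin n → ℕ) (i j : Fin n) : ℕ :=
  if j.val = 0 then c i else if j.val = 1 then c' i else if j.val = 2 then a i - c i - c' i else 0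

theorem comp_big (b0 b1 b2 : ℕ) {j : Fin n} (hj : 3 ≤ j.val) : comp n [b0, b1, b2] j = 0 := by
  rw [comp, List.getD_eq_getElem?_getD, List.getElem?_eq_none (by simpa using hj)]
  rfl

theorem fill_row (hn : 3 ≤ n) {a c c' : Fin n → ℕ} (h : ∀ i, c i + c' i ≤ a i) (i : Fin n) :
    ∑ j, fill a c c' i j = a i := by
  rw [sum_three hn]
  · have := h i
    simp only [fill]
    simp only [↓ _root_.reduceIte, _root_.one_ne_zero, _root_.OfNat.ofNat_ne_zero, _root_.OfNat.ofNat_ne_one]
    omega
  · intro j hj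
    rw [fill, if_neg (by omega), if_neg (by omega), if_neg (by omega)]

theorem fill_col {a c c' : Fin n → ℕ} (h : ∀ i, c i + c' i ≤ a i) {b0 b1 b2 : ℕ}
    (h0 : ∑ i, c i = b0) (h1 : ∑ i, c' i = b1) (ha : ∑ i, a i = b0 + b1 + b2) (j : Fin n) :
    ∑ i, fill a c c' i j = comp n [b0, b1, b2] j := by
  by_cases hj0 : j.val = 0
  · have e : ∀ i, fill a c c' i j = c i := fun i => if_pos hj0
    rw [sum_congr rfl (fun i _ => e i), h0, comp, hj0]
    rfl
  · by_cases hj1 : j.val = 1
    · have e : ∀ i, fill a c c' i j = c' i := fun i => by rw [fill, if_neg hj0, if_pos hj1]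
      rw [sum_congr rfl (fun i _ => e i), h1, comp, hj1]
      rfl
    · by_cases hj2 : j.val = 2
      · have e : ∀ i, fill a c c' i j = a i - c i - c' i := fun i => by
          rw [fill, if_neg hj0, if_neg hj1, if_pos hj2]
        have h4 : ∑ i, (a i - c i - c' i) + ∑ i, c i + ∑ i, c' i = ∑ i, a i := by
          rw [← sum_add_distrib, ← sum_add_distrib]
          apply sum_congr rfl
          intro i _
          have := h i
          omega
        rw [h0, h1, ha] at h4
        rw [sum_congr rfl (fun i _ => e i)]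
        have h5 : comp n [b0, b1, b2] j = b2 := by
          rw [comp, hj2]
          rfl
        rw [h5]
        omega
      · have e : ∀ i, fill a c c' i j = 0 := fun i => by rw [fill, if_neg hj0, if_neg hj1, if_neg hj2]
        rw [sum_congr rfl (fun i _ => e i), comp_big _ _ _ (by omega)]
        simp only [_root_.Finset.sum_const_zero]

theorem marg_big {a : Fin n → ℕ} {b0 b1 b2 : ℕ} (M : Marg a (comp n [b0, b1, b2])) (i : Fin n) :
    ∀ j : Fin n, 3 ≤ j.val → M.1 i j = 0 := by
  intro j hj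
  have h2 := M.2.2 j
  rw [comp_big _ _ _ hj, sum_eq_zero_iff] at h2
  exact h2 i (mem_univ i)

theorem marg_row (hn : 3 ≤ n) {a : Fin n → ℕ} {b0 b1 b2 : ℕ} (M : Marg a (comp n [b0, b1, b2])) (i : Fin n) :
    M.1 i ⟨0, by omega⟩ + M.1 i ⟨1, by omega⟩ + M.1 i ⟨2, by omega⟩ = a i := by
  have h2 := M.2.1 i
  rwa [sum_three hn _ (marg_big M i)] at h2

theorem fill_marg (hn : 3 ≤ n) {a : Fin n → ℕ} {b0 b1 b2 : ℕ} (M : Marg a (comp n [b0, b1, b2])) :
    fill a (fun i => M.1 i ⟨0, by omega⟩) (fun i => M.1 i ⟨1, by omega⟩) = M.1 := by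
  funext i j
  have h2 := marg_row hn M i
  rw [fill]
  split_ifs with h3 h4 h5
  · have h6 : j = ⟨0, by omega⟩ := Fin.ext h3
    rw [h6]
  · have h6 : j = ⟨1, by omega⟩ := Fin.ext h4
    rw [h6]
  · have h6 : j = ⟨2, by omega⟩ := Fin.ext h5
    rw [h6]
    omega
  · exact (marg_big M i j (by omega)).symm

/-- matrices with at most three nonzero columns are given by the first two columns. -/
def margEquiv (hn : 3 ≤ n) (a : Fin n → ℕ) (b0 b1 b2 : ℕ) (ha : ∑ i, a i = b0 + b1 + b2) :
    Marg a (comp n [b0, b1, b2]) ≃ Cols a b0 b1 where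
  toFun M := ⟨(fun i => M.1 i ⟨0, by omega⟩, fun i => M.1 i ⟨1, by omega⟩),
    fun i => by
      have := marg_row hn M i
      change M.1 i ⟨0, by omega⟩ + M.1 i ⟨1, by omega⟩ ≤ a i
      omega, M.2.2 ⟨0, by omega⟩, M.2.2 ⟨1, by omega⟩⟩
  invFun p := ⟨fill a p.1.1 p.1.2, fill_row hn p.2.1, fill_col p.2.1 p.2.2.1 p.2.2.2 ha⟩
  left_inv M := Subtype.ext (fill_marg hn M)
  right_inv p := by
    apply Subtype.ext
    apply Prod.ext
    · funext i
      rfl
    · funext i
      rfl

theorem single_of_sum_one {c : Fin n → ℕ} (h : ∑ i, c i = 1) : ∃ i, c = Pi.single i 1 := by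
  obtain ⟨i, hi⟩ : ∃ i, c i ≠ 0 := by
    by_contra hcon
    push Not at hcon
    rw [sum_eq_zero (fun i _ => hcon i)] at h
    exact zero_ne_one h
  refine ⟨i, ?_⟩
  have h1 := add_sum_erase univ c (mem_univ i)
  rw [h] at h1
  funext j
  by_cases hj : j = i
  · rw [hj, Pi.single_eq_same]
    omega
  · rw [Pi.single_eq_of_ne hj]
    have h2 : ∑ x ∈ univ.erase i, c x = 0 := by omega
    rw [sum_eq_zero_iff] at h2
    exact h2 j (mem_erase.2 ⟨hj, mem_univ j⟩)

theorem sum_single_one (i : Fin n) : ∑ j, (Pi.single i 1 : Fin n → ℕ) j = 1 := by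
  rw [sum_pi_single' i 1 univ, if_pos (mem_univ i)]

/-- unit vectors: type `(1, 0)`. -/
theorem card_cols_one (a : Fin n → ℕ) : Nat.card (Cols a 1 0) = ∑ i, if 1 ≤ a i then 1 else 0 := by
  classical
  have e : {i : Fin n // 1 ≤ a i} ≃ Cols a 1 0 := by
    refine Equiv.ofBijective (fun i => ⟨(Pi.single i.1 1, 0), ?_, sum_single_one _, by simp only [_root_.Pi.zero_apply, _root_.Finset.sum_const_zero]⟩) ⟨?_, ?_⟩
    · intro j
      by_cases hj : j = i.1
      · rw [hj]
        simpa using i.2
      · change (Pi.single i.1 1 : Fin n → ℕ) j + 0 ≤ _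
        rw [Pi.single_eq_of_ne hj]
        simp
    · intro i j h
      have h1 := congrArg (fun p => p.1.1) h
      change (Pi.single i.1 1 : Fin n → ℕ) = Pi.single j.1 1 at h1
      apply Subtype.ext
      by_contra hne
      have h2 := congrFun h1 i.1
      rw [Pi.single_eq_same, Pi.single_eq_of_ne hne] at h2
      exact one_ne_zero h2
    · rintro ⟨⟨c, c'⟩, h1, h2, h3⟩
      obtain ⟨i, hi⟩ := single_of_sum_one h2
      have h4 : c' = 0 := by
        funext j
        change ∑ i, c' i = 0 at h3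
        rw [sum_eq_zero_iff] at h3
        exact h3 j (mem_univ j)
      have h5 := h1 i
      change c = _ at hi
      change c i + c' i ≤ a i at h5
      rw [hi, Pi.single_eq_same] at h5
      refine ⟨⟨i, by omega⟩, ?_⟩
      apply Subtype.ext
      change (Pi.single i 1, (0 : Fin n → ℕ)) = (c, c')
      rw [hi, h4]
  rw [← Nat.card_congr e, Nat.card_eq_fintype_card, Fintype.card_subtype, card_filter]

/-- type `(1, 1)`. -/
theorem card_cols_one_one (a : Fin n → ℕ) :
    Nat.card (Cols a 1 1) = ∑ i, ∑ j, if 1 ≤ a i ∧ 1 ≤ a j ∧ (i = j → 2 ≤ a i) then 1 else 0 := by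
  classical
  have e : {p : Fin n × Fin n // 1 ≤ a p.1 ∧ 1 ≤ a p.2 ∧ (p.1 = p.2 → 2 ≤ a p.1)} ≃ Cols a 1 1 := by
    refine Equiv.ofBijective (fun p => ⟨(Pi.single p.1.1 1, Pi.single p.1.2 1), ?_, sum_single_one _,
      sum_single_one _⟩) ⟨?_, ?_⟩
    · intro j
      obtain ⟨⟨i, i'⟩, h1, h2, h3⟩ := p
      change (Pi.single i 1 : Fin n → ℕ) j + (Pi.single i' 1 : Fin n → ℕ) j ≤ a j
      change i = i' → 2 ≤ a i at h3
      change 1 ≤ a i at h1
      change 1 ≤ a i' at h2
      by_cases hj : j = i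
      · by_cases hj' : j = i'
        · subst hj
          have := h3 hj'
          rw [← hj', Pi.single_eq_same]
          exact this
        · rw [Pi.single_eq_of_ne hj', hj, Pi.single_eq_same]
          exact h1
      · by_cases hj' : j = i'
        · rw [Pi.single_eq_of_ne hj, hj', Pi.single_eq_same]
          simpa using h2
        · rw [Pi.single_eq_of_ne hj, Pi.single_eq_of_ne hj']
          exact Nat.zero_le _
    · intro p p' h
      have h1 := congrArg (fun p => p.1.1) h
      have h2 := congrArg (fun p => p.1.2) h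
      change (Pi.single p.1.1 1 : Fin n → ℕ) = Pi.single p'.1.1 1 at h1
      change (Pi.single p.1.2 1 : Fin n → ℕ) = Pi.single p'.1.2 1 at h2
      apply Subtype.ext
      apply Prod.ext
      · by_contra hne
        have h3 := congrFun h1 p.1.1
        rw [Pi.single_eq_same, Pi.single_eq_of_ne hne] at h3
        exact one_ne_zero h3
      · by_contra hne
        have h3 := congrFun h2 p.1.2
        rw [Pi.single_eq_same, Pi.single_eq_of_ne hne] at h3
        exact one_ne_zero h3
    · rintro ⟨⟨c, c'⟩, h1, h2, h3⟩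
      obtain ⟨i, hi⟩ := single_of_sum_one h2
      obtain ⟨i', hi'⟩ := single_of_sum_one h3
      change c = _ at hi
      change c' = _ at hi'
      change ∀ i, c i + c' i ≤ a i at h1
      subst hi hi'
      refine ⟨⟨(i, i'), ?_, ?_, ?_⟩, rfl⟩
      · have := h1 i
        rw [Pi.single_eq_same] at this
        change 1 ≤ a i
        omega
      · have := h1 i'
        rw [Pi.single_eq_same] at this
        change 1 ≤ a i'
        omega
      · intro h
        change i = i' at h
        have := h1 i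
        rw [← h, Pi.single_eq_same] at this
        exact this
  rw [← Nat.card_congr e, Nat.card_eq_fintype_card, Fintype.card_subtype, card_filter, Fintype.sum_prod_type]

theorem exists_of_sum_two {c : Fin n → ℕ} (h : ∑ i, c i = 2) :
    ∃ i j : Fin n, i ≤ j ∧ c = Pi.single i 1 + Pi.single j 1 := by
  obtain ⟨i, hi⟩ : ∃ i, c i ≠ 0 := by
    by_contra hcon
    push Not at hcon
    rw [sum_eq_zero (fun i _ => hcon i)] at h
    omega
  have h1 : ∑ j, (c j - (Pi.single i 1 : Fin n → ℕ) j) = 1 := by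
    have h2 : ∑ j, (c j - (Pi.single i 1 : Fin n → ℕ) j) + ∑ j, (Pi.single i 1 : Fin n → ℕ) j = ∑ j, c j := by
      rw [← sum_add_distrib]
      apply sum_congr rfl
      intro j _
      by_cases hj : j = i
      · rw [hj, Pi.single_eq_same]
        omega
      · rw [Pi.single_eq_of_ne hj]
        simp
    rw [sum_single_one, h] at h2
    omega
  obtain ⟨j, hj⟩ := single_of_sum_one h1
  have h2 : c = Pi.single i 1 + Pi.single j 1 := by
    funext k
    have h3 := congrFun hj k
    rw [Pi.add_apply, ← h3]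
    by_cases hk : k = i
    · rw [hk, Pi.single_eq_same]
      omega
    · rw [Pi.single_eq_of_ne hk]
      simp
  rcases le_total i j with h3 | h3
  · exact ⟨i, j, h3, h2⟩
  · exact ⟨j, i, h3, by rw [h2, add_comm]⟩

/-- type `(2, 0)`. -/
theorem card_cols_two (a : Fin n → ℕ) :
    Nat.card (Cols a 2 0) = ∑ i, ∑ j, if i ≤ j ∧ 1 ≤ a i ∧ 1 ≤ a j ∧ (i = j → 2 ≤ a i) then 1 else 0 := by
  classical
  have e : {p : Fin n × Fin n // p.1 ≤ p.2 ∧ 1 ≤ a p.1 ∧ 1 ≤ a p.2 ∧ (p.1 = p.2 → 2 ≤ a p.1)} ≃ Cols a 2 0 := by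
    refine Equiv.ofBijective (fun p => ⟨(Pi.single p.1.1 1 + Pi.single p.1.2 1, 0), ?_, ?_, by simp only [_root_.Pi.zero_apply, _root_.Finset.sum_const_zero]⟩) ⟨?_, ?_⟩
    · intro j
      obtain ⟨⟨i, i'⟩, _, h1, h2, h3⟩ := p
      change (Pi.single i 1 : Fin n → ℕ) j + (Pi.single i' 1 : Fin n → ℕ) j + 0 ≤ a j
      rw [add_zero]
      change i = i' → 2 ≤ a i at h3
      change 1 ≤ a i at h1
      change 1 ≤ a i' at h2
      by_cases hj : j = i
      · by_cases hj' : j = i'
        · subst hj
          have := h3 hj'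
          rw [← hj', Pi.single_eq_same]
          exact this
        · rw [Pi.single_eq_of_ne hj', hj, Pi.single_eq_same]
          exact h1
      · by_cases hj' : j = i'
        · rw [Pi.single_eq_of_ne hj, hj', Pi.single_eq_same]
          simpa using h2
        · rw [Pi.single_eq_of_ne hj, Pi.single_eq_of_ne hj']
          exact Nat.zero_le _
    · change ∑ i, ((Pi.single p.1.1 1 : Fin n → ℕ) i + (Pi.single p.1.2 1 : Fin n → ℕ) i) = 2
      rw [sum_add_distrib, sum_single_one, sum_single_one]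
    · rintro ⟨⟨i, j⟩, hij, _⟩ ⟨⟨i', j'⟩, hij', _⟩ h
      have h1 := congrArg (fun p => p.1.1) h
      change (Pi.single i 1 : Fin n → ℕ) + Pi.single j 1 = Pi.single i' 1 + Pi.single j' 1 at h1
      change i ≤ j at hij
      change i' ≤ j' at hij'
      have h6 : i = i' := by
        rcases lt_trichotomy i i' with h | h | h
        · exfalso
          have h2 := congrFun h1 i
          rw [Pi.add_apply, Pi.add_apply, Pi.single_eq_same, Pi.single_eq_of_ne h.ne,
            Pi.single_eq_of_ne (h.trans_le hij').ne] at h2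
          omega
        · exact h
        · exfalso
          have h2 := congrFun h1 i'
          rw [Pi.add_apply, Pi.add_apply, Pi.single_eq_same, Pi.single_eq_of_ne h.ne,
            Pi.single_eq_of_ne (h.trans_le hij).ne] at h2
          omega
      subst h6
      have h7 := add_left_cancel h1
      have h8 : j = j' := by
        by_contra hne
        have h2 := congrFun h7 j
        rw [Pi.single_eq_same, Pi.single_eq_of_ne hne] at h2
        exact one_ne_zero h2
      subst h8
      rfl
    · rintro ⟨⟨c, c'⟩, h1, h2, h3⟩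
      obtain ⟨i, j, hij, hc⟩ := exists_of_sum_two h2
      change c = _ at hc
      have h4 : c' = 0 := by
        funext j
        change ∑ i, c' i = 0 at h3
        rw [sum_eq_zero_iff] at h3
        exact h3 j (mem_univ j)
      change ∀ i, c i + c' i ≤ a i at h1
      subst hc h4
      have h5 : ∀ k, (Pi.single i 1 : Fin n → ℕ) k + (Pi.single j 1 : Fin n → ℕ) k ≤ a k := fun k => h1 k
      refine ⟨⟨(i, j), hij, ?_, ?_, ?_⟩, rfl⟩
      · have := h5 i
        rw [Pi.single_eq_same] at this
        change 1 ≤ a i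
        omega
      · have := h5 j
        rw [Pi.single_eq_same] at this
        change 1 ≤ a j
        omega
      · intro h
        change i = j at h
        have := h5 i
        rw [← h, Pi.single_eq_same] at this
        exact this
  rw [← Nat.card_congr e, Nat.card_eq_fintype_card, Fintype.card_subtype, card_filter, Fintype.sum_prod_type]

theorem comp_apply (l : List ℕ) (k : ℕ) (hk : k < n) : comp n l ⟨k, hk⟩ = l.getD k 0 := rfl

theorem comp_big' {l : List ℕ} (hl : l.length ≤ 4) {j : Fin n} (hj : 4 ≤ j.val) : comp n l j = 0 := by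
  rw [comp, List.getD_eq_getElem?_getD, List.getElem?_eq_none (by omega)]
  rfl

/-- number of nonzero entries of a list of length at most four. -/
def S1 (l : List ℕ) : ℕ := ∑ i ∈ range 4, if 1 ≤ l.getD i 0 then 1 else 0

theorem card_one (hn : 4 ≤ n) (l : List ℕ) (hl : l.length ≤ 4) :
    Nat.card (Cols (comp n l) 1 0) = S1 l := by
  rw [card_cols_one, sum_four hn]
  · simp only [comp_apply, S1, sum_range_succ, sum_range_zero, zero_add]
    rfl
  · intro j hj
    rw [comp_big' hl hj, if_neg (by omega)]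

def S11 (l : List ℕ) : ℕ := ∑ i ∈ range 4, ∑ j ∈ range 4,
  if 1 ≤ l.getD i 0 ∧ 1 ≤ l.getD j 0 ∧ (i = j → 2 ≤ l.getD i 0) then 1 else 0

def S2 (l : List ℕ) : ℕ := ∑ i ∈ range 4, ∑ j ∈ range 4,
  if i ≤ j ∧ 1 ≤ l.getD i 0 ∧ 1 ≤ l.getD j 0 ∧ (i = j → 2 ≤ l.getD i 0) then 1 else 0

theorem card_one_one (hn : 4 ≤ n) (l : List ℕ) (hl : l.length ≤ 4) :
    Nat.card (Cols (comp n l) 1 1) = S11 l := by
  rw [card_cols_one_one, sum_four hn]
  · rw [sum_four hn, sum_four hn, sum_four hn, sum_four hn]
    · simp only [comp_apply, S11, sum_range_succ, sum_range_zero, zero_add, Fin.mk.injEq]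
    all_goals
      intro j hj
      rw [comp_big' hl hj, if_neg (by omega)]
  · intro j hj
    apply sum_eq_zero
    intro i _
    rw [comp_big' hl hj, if_neg (by omega)]

theorem card_two (hn : 4 ≤ n) (l : List ℕ) (hl : l.length ≤ 4) :
    Nat.card (Cols (comp n l) 2 0) = S2 l := by
  rw [card_cols_two, sum_four hn]
  · rw [sum_four hn, sum_four hn, sum_four hn, sum_four hn]
    · simp only [comp_apply, S2, sum_range_succ, sum_range_zero, zero_add, Fin.mk.injEq, Fin.mk_le_mk]
    all_goals
      intro j hj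
      rw [comp_big' hl hj, if_neg (by omega)]
  · intro j hj
    apply sum_eq_zero
    intro i _
    rw [comp_big' hl hj, if_neg (by omega)]

theorem sum_comp (hn : 4 ≤ n) (l : List ℕ) (hl : l.length ≤ 4) : ∑ i, comp n l i = l.sum := by
  rw [sum_four hn]
  · simp only [comp_apply]
    match l, hl with
    | [], _ => rfl
    | [a], _ => simp
    | [a, b], _ => simp
    | [a, b, c], _ => simp [add_assoc]
    | [a, b, c, d], _ => simp [add_assoc]
  · intro j hj
    exact comp_big' hl hj

theorem marg_one (hn : 4 ≤ n) (l : List ℕ) (hl : l.length ≤ 4) (hs : l.sum = n) :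
    Nat.card (Marg (comp n l) (comp n [1, 0, n - 1])) = S1 l := by
  rw [Nat.card_congr (margEquiv (by omega) (comp n l) 1 0 (n - 1) (by rw [sum_comp hn l hl]; omega)),
    card_one hn l hl]

theorem marg_one_one (hn : 4 ≤ n) (l : List ℕ) (hl : l.length ≤ 4) (hs : l.sum = n) :
    Nat.card (Marg (comp n l) (comp n [1, 1, n - 2])) = S11 l := by
  rw [Nat.card_congr (margEquiv (by omega) (comp n l) 1 1 (n - 2) (by rw [sum_comp hn l hl]; omega)),
    card_one_one hn l hl]

theorem marg_two (hn : 4 ≤ n) (l : List ℕ) (hl : l.length ≤ 4) (hs : l.sum = n) :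
    Nat.card (Marg (comp n l) (comp n [2, 0, n - 2])) = S2 l := by
  rw [Nat.card_congr (margEquiv (by omega) (comp n l) 2 0 (n - 2) (by rw [sum_comp hn l hl]; omega)),
    card_two hn l hl]

theorem S1_1 (k : ℕ) : S1 [1, 0, k + 1] = 2 := by
  simp only [S1, sum_range_succ, sum_range_zero, List.getD_cons_zero, List.getD_cons_succ]
  simp
theorem S1_2 (k : ℕ) : S1 [2, 0, k + 1] = 2 := by
  simp only [S1, sum_range_succ, sum_range_zero, List.getD_cons_zero, List.getD_cons_succ]
  simp only [_root_.Nat.one_le_ofNat, ↓ _root_.reduceIte, _root_.zero_add, _root_.nonpos_iff_eq_zero, _root_.one_ne_zero, _root_.add_zero, _root_.le_add_iff_nonneg_left, _root_.zero_le, _root_.Nat.reduceAdd, _root_.List.getD_eq_getElem?_getD, _root_.List.length_nil, _root_.lt_self_iff_false, _root_.not_false_eq_true, _root_.getElem?_neg, _root_.Option.getD_none]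
theorem S1_12 (k : ℕ) : S1 [1, 1, k + 1] = 3 := by
  simp only [S1, sum_range_succ, sum_range_zero, List.getD_cons_zero, List.getD_cons_succ]
  simp
theorem S1_13 (k : ℕ) : S1 [1, 2, k + 1] = 3 := by
  simp only [S1, sum_range_succ, sum_range_zero, List.getD_cons_zero, List.getD_cons_succ]
  simp
theorem S1_24 (k : ℕ) : S1 [2, 2, k + 1] = 3 := by
  simp only [S1, sum_range_succ, sum_range_zero, List.getD_cons_zero, List.getD_cons_succ]
  simp only [_root_.Nat.one_le_ofNat, ↓ _root_.reduceIte, _root_.zero_add, _root_.Nat.reduceAdd, _root_.le_add_iff_nonneg_left, _root_.zero_le, _root_.List.getD_eq_getElem?_getD, _root_.List.length_nil, _root_.lt_self_iff_false, _root_.not_false_eq_true, _root_.getElem?_neg, _root_.Option.getD_none, _root_.nonpos_iff_eq_zero, _root_.one_ne_zero, _root_.add_zero]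
theorem S1_123 (k : ℕ) : S1 [1, 1, 1, k + 1] = 4 := by
  simp only [S1, sum_range_succ, sum_range_zero, List.getD_cons_zero, List.getD_cons_succ]
  simp
theorem S2_2 (k : ℕ) : S2 [2, 0, k + 2] = 3 := by
  simp only [S2, sum_range_succ, sum_range_zero, List.getD_cons_zero, List.getD_cons_succ]
  simp only [_root_.Std.le_refl, _root_.Nat.one_le_ofNat, _root_.imp_self, _root_.and_self, ↓ _root_.reduceIte, _root_.zero_add, _root_.zero_le, _root_.nonpos_iff_eq_zero, _root_.one_ne_zero, _root_.zero_ne_one, _root_.implies_true, _root_.and_true, _root_.and_false, _root_.add_zero, _root_.le_add_iff_nonneg_left, _root_.OfNat.zero_ne_ofNat, _root_.Nat.reduceAdd, _root_.List.getD_eq_getElem?_getD, _root_.List.length_nil, _root_.lt_self_iff_false, _root_.not_false_eq_true, _root_.getElem?_neg, _root_.Option.getD_none, _root_.OfNat.ofNat_ne_zero, _root_.imp_false, _root_.not_true_eq_false, _root_.OfNat.one_ne_ofNat, _root_.Nat.not_ofNat_le_one, _root_.OfNat.ofNat_ne_one, _root_.Nat.reduceLeDiff,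 _root_.Nat.reduceEqDiff, _root_.Nat.succ_ne_self]
theorem S2_12 (k : ℕ) : S2 [1, 1, k + 2] = 4 := by
  simp only [S2, sum_range_succ, sum_range_zero, List.getD_cons_zero, List.getD_cons_succ]
  simp only [_root_.Std.le_refl, _root_.Nat.not_ofNat_le_one, _root_.imp_false, _root_.not_true_eq_false, _root_.and_false, ↓ _root_.reduceIte, _root_.add_zero, _root_.zero_le, _root_.zero_ne_one, _root_.imp_self, _root_.and_self, _root_.zero_add, _root_.le_add_iff_nonneg_left, _root_.OfNat.zero_ne_ofNat, _root_.Nat.reduceAdd, _root_.List.getD_eq_getElem?_getD, _root_.List.length_nil, _root_.lt_self_iff_false, _root_.not_false_eq_true, _root_.getElem?_neg, _root_.Option.getD_none, _root_.nonpos_iff_eq_zero, _root_.one_ne_zero, _root_.and_true, _root_.Nat.one_le_ofNat, _root_.OfNat.one_ne_ofNat, _root_.OfNat.ofNat_ne_zero, _root_.implies_true, _root_.OfNat.ofNat_ne_one, _root_.Nat.reduceLeDiff, _root_.Nat.reduceEqDiff, _root_.Nat.succ_ne_self]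
theorem S2_13 (k : ℕ) : S2 [1, 2, k + 2] = 5 := by
  simp only [S2, sum_range_succ, sum_range_zero, List.getD_cons_zero, List.getD_cons_succ]
  simp only [_root_.Std.le_refl, _root_.Nat.not_ofNat_le_one, _root_.imp_false, _root_.not_true_eq_false, _root_.and_false, ↓ _root_.reduceIte, _root_.add_zero, _root_.zero_le, _root_.Nat.one_le_ofNat, _root_.zero_ne_one, _root_.imp_self, _root_.and_self, _root_.zero_add, _root_.le_add_iff_nonneg_left, _root_.OfNat.zero_ne_ofNat, _root_.Nat.reduceAdd, _root_.List.getD_eq_getElem?_getD, _root_.List.length_nil, _root_.lt_self_iff_false, _root_.not_false_eq_true, _root_.getElem?_neg, _root_.Option.getD_none, _root_.nonpos_iff_eq_zero, _root_.one_ne_zero, _root_.and_true, _root_.implies_true, _root_.OfNat.one_ne_ofNat, _root_.OfNat.ofNat_ne_zero, _root_.OfNat.ofNat_ne_one, _root_.Nat.reduceLeDiff, _root_.Nat.reduceEqDiff, _root_.Nat.succ_ne_self]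
theorem S2_24 (k : ℕ) : S2 [2, 2, k + 2] = 6 := by
  simp only [S2, sum_range_succ, sum_range_zero, List.getD_cons_zero, List.getD_cons_succ]
  simp only [_root_.Std.le_refl, _root_.Nat.one_le_ofNat, _root_.imp_self, _root_.and_self, ↓ _root_.reduceIte, _root_.zero_add, _root_.zero_le, _root_.zero_ne_one, _root_.implies_true, _root_.Nat.reduceAdd, _root_.le_add_iff_nonneg_left, _root_.OfNat.zero_ne_ofNat, _root_.List.getD_eq_getElem?_getD, _root_.List.length_nil, _root_.lt_self_iff_false, _root_.not_false_eq_true, _root_.getElem?_neg, _root_.Option.getD_none, _root_.nonpos_iff_eq_zero, _root_.one_ne_zero, _root_.and_true, _root_.and_false, _root_.add_zero, _root_.OfNat.one_ne_ofNat, _root_.OfNat.ofNat_ne_zero, _root_.Nat.not_ofNat_le_one, _root_.OfNat.ofNat_ne_one, _root_.Nat.reduceLeDiff, _root_.Nat.reduceEqDiff, _root_.Nat.succ_ne_self, _root_.imp_false, _root_.not_true_eq_false]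
theorem S2_123 (k : ℕ) : S2 [1, 1, 1, k + 2] = 7 := by
  simp only [S2, sum_range_succ, sum_range_zero, List.getD_cons_zero, List.getD_cons_succ]
  simp
theorem S11_12 (k : ℕ) : S11 [1, 1, k + 2] = 7 := by
  simp only [S11, sum_range_succ, sum_range_zero, List.getD_cons_zero, List.getD_cons_succ]
  simp only [_root_.Std.le_refl, _root_.Nat.not_ofNat_le_one, _root_.imp_false, _root_.not_true_eq_false, _root_.and_false, ↓ _root_.reduceIte, _root_.add_zero, _root_.zero_ne_one, _root_.imp_self, _root_.and_self, _root_.zero_add, _root_.le_add_iff_nonneg_left, _root_.zero_le, _root_.OfNat.zero_ne_ofNat, _root_.Nat.reduceAdd, _root_.List.getD_eq_getElem?_getD, _root_.List.length_nil, _root_.lt_self_iff_false, _root_.not_false_eq_true, _root_.getElem?_neg, _root_.Option.getD_none, _root_.nonpos_iff_eq_zero, _root_.one_ne_zero, _root_.and_true, _root_.OfNat.one_ne_ofNat, _root_.OfNat.ofNat_ne_zero, _root_.implies_true, _root_.OfNat.ofNat_ne_one, _root_.Nat.reduceEqDiff, _root_.Nat.succ_ne_self]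

end Cfsg.Agent.H87.MargCount
end

-- part: H87/Types
section
/-!
# The flag types used for `SL_n(q)`

`m1`, `m2`, `m12`, `m13`, `m123`, `m24` : compositions and dimensions of flags; the table of inner products.
-/

set_option autoImplicit false
set_option linter.unusedSectionVars false

namespace Cfsg.Agent.H87.Types

open scoped MatrixGroups
open Finset MulAction Matrix Module Cfsg.Agent.H87.Orb Cfsg.Agent.H87.SLInner Cfsg.Agent.H87.Flags
open Cfsg.Agent.H139.BlockCount Cfsg.Agent.H87.FlagsGL Cfsg.Agent.H87.MargCount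

variable {F : Type*} [Field F] {n : ℕ}

theorem sum_take_succ' (l : List ℕ) (k : ℕ) : (l.take (k + 1)).sum = (l.take k).sum + l.getD k 0 := by
  rw [List.take_add_one, List.sum_append, List.getD_eq_getElem?_getD]
  congr 1
  cases l[k]? <;> simp

theorem psum_comp (l : List ℕ) {k : ℕ} (hk : k ≤ n) : psum (_root_.Cfsg.Agent.H87.MargCount.comp n l) k = (l.take k).sum := by
  induction k with
  | zero => simp [psum_zero]
  | succ k ih =>
    have h1 := psum_succ (_root_.Cfsg.Agent.H87.MargCount.comp n l) ⟨k, by omega⟩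
    change psum (_root_.Cfsg.Agent.H87.MargCount.comp n l) (k + 1) = psum (_root_.Cfsg.Agent.H87.MargCount.comp n l) k + l.getD k 0 at h1
    rw [h1, ih (by omega), sum_take_succ']

theorem matches_of (hn : 4 ≤ n) (l : List ℕ) (hl : l.length ≤ 4) (hs : l.sum = n) {k : ℕ} {d : Fin k → ℕ}
    (hd : Monotone d) (hle : ∀ i, d i ≤ n)
    (hleft : ∀ j ≤ 4, (l.take j).sum = 0 ∨ (l.take j).sum = n ∨ ∃ i, d i = (l.take j).sum)
    (hright : ∀ i, ∃ j ≤ 4, (l.take j).sum = d i) : Matches (_root_.Cfsg.Agent.H87.MargCount.comp n l) d where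
  sum := by rw [_root_.Cfsg.Agent.H87.MargCount.sum_comp hn l hl, hs]
  mono := hd
  le := hle
  left := by
    intro j hj
    rw [psum_comp l hj]
    rcases Nat.lt_or_ge j 5 with h | h
    · exact hleft j (by omega)
    · right; left
      rw [List.take_of_length_le (by omega), hs]
  right := by
    intro i
    obtain ⟨j, hj, e⟩ := hright i
    exact ⟨j, hj.trans hn, by rw [psum_comp l (hj.trans hn), e]⟩

theorem m1 (hn : 4 ≤ n) : Matches (_root_.Cfsg.Agent.H87.MargCount.comp n [1, 0, n - 1]) ![1] := by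
  apply matches_of hn _ (by simp) (by simp only [_root_.List.sum_cons, _root_.List.sum_nil, _root_.add_zero, _root_.zero_add]; omega)
  · intro i j _; fin_cases i; fin_cases j; rfl
  · intro i; fin_cases i; simp; omega
  · intro j hj; interval_cases j <;> simp only [_root_.List.take_zero, _root_.List.sum_nil, _root_.Nat.succ_eq_add_one, _root_.Nat.reduceAdd, _root_.Matrix.cons_val_fin_one, _root_.one_ne_zero, _root_.exists_const, _root_.or_false, _root_.true_or, _root_.List.take_succ_cons, _root_.List.sum_cons, _root_.add_zero, _root_.or_true, _root_.List.take_nil, _root_.zero_add, _root_.Nat.add_eq_zero_iff, _root_.false_and, _root_.Nat.left_eq_add, _root_.false_or] <;> omega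
  · intro i; fin_cases i; exact ⟨1, by omega, by simp⟩

theorem m2 (hn : 4 ≤ n) : Matches (_root_.Cfsg.Agent.H87.MargCount.comp n [2, 0, n - 2]) ![2] := by
  apply matches_of hn _ (by simp) (by simp only [_root_.List.sum_cons, _root_.List.sum_nil, _root_.add_zero, _root_.zero_add]; omega)
  · intro i j _; fin_cases i; fin_cases j; rfl
  · intro i; fin_cases i; simp; omega
  · intro j hj; interval_cases j <;> simp only [_root_.List.take_zero, _root_.List.sum_nil, _root_.Nat.succ_eq_add_one, _root_.Nat.reduceAdd, _root_.Matrix.cons_val_fin_one, _root_.OfNat.ofNat_ne_zero, _root_.exists_const, _root_.or_false, _root_.true_or, _root_.List.take_succ_cons, _root_.List.sum_cons, _root_.add_zero, _root_.or_true, _root_.List.take_nil, _root_.zero_add, _root_.Nat.add_eq_zero_iff, _root_.false_and, _root_.Nat.left_eq_add, _root_.false_or] <;> omega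
  · intro i; fin_cases i; exact ⟨1, by omega, by simp⟩

theorem m12 (hn : 4 ≤ n) : Matches (_root_.Cfsg.Agent.H87.MargCount.comp n [1, 1, n - 2]) ![1, 2] := by
  apply matches_of hn _ (by simp) (by simp; omega)
  · intro i j h; fin_cases i <;> fin_cases j <;> simp_all only [_root_.Nat.succ_eq_add_one, _root_.Nat.reduceAdd, _root_.Fin.zero_eta, _root_.Fin.isValue, _root_.Std.le_refl, _root_.Matrix.cons_val_zero, _root_.Fin.mk_one, _root_.zero_le, _root_.Matrix.cons_val_one, _root_.Matrix.cons_val_fin_one, _root_.Nat.one_le_ofNat, _root_.nonpos_iff_eq_zero, _root_.one_ne_zero]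
  · intro i; fin_cases i <;> simp <;> omega
  · intro j hj; interval_cases j <;> simp only [Fin.exists_fin_two, _root_.List.take_zero, _root_.List.sum_nil, _root_.Nat.succ_eq_add_one, _root_.Nat.reduceAdd, _root_.Fin.isValue, _root_.Matrix.cons_val_zero, _root_.one_ne_zero, _root_.Matrix.cons_val_one, _root_.Matrix.cons_val_fin_one, _root_.OfNat.ofNat_ne_zero, _root_.or_self, _root_.or_false, _root_.true_or, _root_.List.take_succ_cons, _root_.List.sum_cons, _root_.add_zero, _root_.OfNat.ofNat_ne_one, _root_.or_true, _root_.OfNat.one_ne_ofNat, _root_.List.take_nil, _root_.Nat.add_eq_zero_iff, _root_.false_and, _root_.and_self, _root_.Nat.left_eq_add, _root_.false_or] <;> omega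
  · intro i; fin_cases i
    · exact ⟨1, by omega, by simp⟩
    · exact ⟨2, by omega, by simp⟩

theorem m13 (hn : 4 ≤ n) : Matches (_root_.Cfsg.Agent.H87.MargCount.comp n [1, 2, n - 3]) ![1, 3] := by
  apply matches_of hn _ (by simp) (by simp; omega)
  · intro i j h; fin_cases i <;> fin_cases j <;> simp_all only [_root_.Nat.succ_eq_add_one, _root_.Nat.reduceAdd, _root_.Fin.zero_eta, _root_.Fin.isValue, _root_.Std.le_refl, _root_.Matrix.cons_val_zero, _root_.Fin.mk_one, _root_.zero_le, _root_.Matrix.cons_val_one, _root_.Matrix.cons_val_fin_one, _root_.Nat.one_le_ofNat, _root_.nonpos_iff_eq_zero, _root_.one_ne_zero]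
  · intro i; fin_cases i <;> simp <;> omega
  · intro j hj; interval_cases j <;> simp only [Fin.exists_fin_two, _root_.List.take_zero, _root_.List.sum_nil, _root_.Nat.succ_eq_add_one, _root_.Nat.reduceAdd, _root_.Fin.isValue, _root_.Matrix.cons_val_zero, _root_.one_ne_zero, _root_.Matrix.cons_val_one, _root_.Matrix.cons_val_fin_one, _root_.OfNat.ofNat_ne_zero, _root_.or_self, _root_.or_false, _root_.true_or, _root_.List.take_succ_cons, _root_.List.sum_cons, _root_.add_zero, _root_.OfNat.ofNat_ne_one, _root_.or_true, _root_.OfNat.one_ne_ofNat, _root_.List.take_nil, _root_.Nat.add_eq_zero_iff, _root_.false_and, _root_.and_self, _root_.Nat.left_eq_add, _root_.false_or] <;> omega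
  · intro i; fin_cases i
    · exact ⟨1, by omega, by simp⟩
    · exact ⟨2, by omega, by simp⟩

theorem m24 (hn : 4 ≤ n) : Matches (_root_.Cfsg.Agent.H87.MargCount.comp n [2, 2, n - 4]) ![2, 4] := by
  apply matches_of hn _ (by simp) (by simp; omega)
  · intro i j h; fin_cases i <;> fin_cases j <;> simp_all only [_root_.Nat.succ_eq_add_one, _root_.Nat.reduceAdd, _root_.Fin.zero_eta, _root_.Fin.isValue, _root_.Std.le_refl, _root_.Matrix.cons_val_zero, _root_.Fin.mk_one, _root_.zero_le, _root_.Matrix.cons_val_one, _root_.Matrix.cons_val_fin_one, _root_.Nat.reduceLeDiff, _root_.nonpos_iff_eq_zero, _root_.one_ne_zero]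
  · intro i; fin_cases i <;> simp <;> omega
  · intro j hj; interval_cases j <;> simp only [Fin.exists_fin_two, _root_.List.take_zero, _root_.List.sum_nil, _root_.Nat.succ_eq_add_one, _root_.Nat.reduceAdd, _root_.Fin.isValue, _root_.Matrix.cons_val_zero, _root_.OfNat.ofNat_ne_zero, _root_.Matrix.cons_val_one, _root_.Matrix.cons_val_fin_one, _root_.or_self, _root_.or_false, _root_.true_or, _root_.List.take_succ_cons, _root_.List.sum_cons, _root_.add_zero, _root_.Nat.reduceEqDiff, _root_.or_true, _root_.List.take_nil, _root_.Nat.add_eq_zero_iff, _root_.false_and, _root_.and_self, _root_.Nat.left_eq_add, _root_.false_or] <;> omega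
  · intro i; fin_cases i
    · exact ⟨1, by omega, by simp⟩
    · exact ⟨2, by omega, by simp⟩

theorem m123 (hn : 4 ≤ n) : Matches (_root_.Cfsg.Agent.H87.MargCount.comp n [1, 1, 1, n - 3]) ![1, 2, 3] := by
  apply matches_of hn _ (by simp) (by simp; omega)
  · intro i j h; fin_cases i <;> fin_cases j <;> simp_all only [_root_.Nat.succ_eq_add_one, _root_.Nat.reduceAdd, _root_.Fin.zero_eta, _root_.Fin.isValue, _root_.Std.le_refl, _root_.Matrix.cons_val_zero, _root_.Fin.mk_one, _root_.zero_le, _root_.Matrix.cons_val_one, _root_.Nat.one_le_ofNat, _root_.Fin.reduceFinMk, _root_.Matrix.cons_val, _root_.nonpos_iff_eq_zero, _root_.one_ne_zero, _root_.Fin.reduceLE, _root_.Nat.reduceLeDiff, _root_.Fin.reduceEq]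
  · intro i; (revert i; simp only [_root_.Fin.forall_fin_succ, _root_.Nat.succ_eq_add_one, Nat.reduceAdd, Fin.isValue, _root_.Matrix.cons_val_zero, _root_.Matrix.cons_val_succ, _root_.Matrix.cons_val_fin_one, _root_.forall_const]) <;> (repeat' with_reducible apply And.intro) <;> omega
  · intro j hj; interval_cases j <;> simp only [Fin.exists_fin_succ, _root_.List.take_zero, _root_.List.sum_nil, _root_.Nat.succ_eq_add_one, _root_.Nat.reduceAdd, _root_.Fin.isValue, _root_.Matrix.cons_val_zero, _root_.one_ne_zero, _root_.Matrix.cons_val_succ, _root_.OfNat.ofNat_ne_zero, _root_.Matrix.cons_val_fin_one, _root_.exists_const, _root_.or_self, _root_.or_false, _root_.true_or, _root_.List.take_succ_cons, _root_.List.sum_cons, _root_.add_zero, _root_.OfNat.ofNat_ne_one, _root_.or_true, _root_.OfNat.one_ne_ofNat, _root_.Nat.succ_ne_self, _root_.Nat.reduceEqDiff, _root_.List.take_nil, _root_.Nat.add_eq_zero_iff, _root_.false_and, _root_.and_self, _root_.Nat.left_eq_add, _root_.false_or] <;> omega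
  · intro i; fin_cases i
    · exact ⟨1, by omega, by simp⟩
    · exact ⟨2, by omega, by simp⟩
    · exact ⟨3, by omega, by simp⟩

variable (F n) in
/-- characters of points, lines and flags. -/
noncomputable def t1 : _root_.Matrix.SpecialLinearGroup (Fin n) F → ℝ := theta F (_root_.Cfsg.Agent.H87.MargCount.comp n [1, 0, n - 1])
variable (F n) in
noncomputable def t2 : _root_.Matrix.SpecialLinearGroup (Fin n) F → ℝ := theta F (_root_.Cfsg.Agent.H87.MargCount.comp n [2, 0, n - 2])
variable (F n) in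
noncomputable def t12 : _root_.Matrix.SpecialLinearGroup (Fin n) F → ℝ := theta F (_root_.Cfsg.Agent.H87.MargCount.comp n [1, 1, n - 2])
variable (F n) in
noncomputable def t13 : _root_.Matrix.SpecialLinearGroup (Fin n) F → ℝ := theta F (_root_.Cfsg.Agent.H87.MargCount.comp n [1, 2, n - 3])
variable (F n) in
noncomputable def t24 : _root_.Matrix.SpecialLinearGroup (Fin n) F → ℝ := theta F (_root_.Cfsg.Agent.H87.MargCount.comp n [2, 2, n - 4])
variable (F n) in
noncomputable def t123 : _root_.Matrix.SpecialLinearGroup (Fin n) F → ℝ := theta F (_root_.Cfsg.Agent.H87.MargCount.comp n [1, 1, 1, n - 3])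

variable [Fintype F] [Fintype (_root_.Matrix.SpecialLinearGroup (Fin n) F)]

theorem ip_t1 (hn : 5 ≤ n) (l : List ℕ) (hl : l.length ≤ 4) (hs : l.sum = n) :
    ip (theta F (_root_.Cfsg.Agent.H87.MargCount.comp n l)) (t1 F n) = S1 l := by
  rw [t1, ip_theta (by omega) _ _ (by rw [_root_.Cfsg.Agent.H87.MargCount.sum_comp (by omega) l hl, hs]) (m1 (by omega)).sum, marg_one (by omega) l hl hs]

theorem ip_t2 (hn : 5 ≤ n) (l : List ℕ) (hl : l.length ≤ 4) (hs : l.sum = n) :
    ip (theta F (_root_.Cfsg.Agent.H87.MargCount.comp n l)) (t2 F n) = S2 l := by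
  rw [t2, ip_theta (by omega) _ _ (by rw [_root_.Cfsg.Agent.H87.MargCount.sum_comp (by omega) l hl, hs]) (m2 (by omega)).sum, marg_two (by omega) l hl hs]

theorem ip_t12 (hn : 5 ≤ n) (l : List ℕ) (hl : l.length ≤ 4) (hs : l.sum = n) :
    ip (theta F (_root_.Cfsg.Agent.H87.MargCount.comp n l)) (t12 F n) = S11 l := by
  rw [t12, ip_theta (by omega) _ _ (by rw [_root_.Cfsg.Agent.H87.MargCount.sum_comp (by omega) l hl, hs]) (m12 (by omega)).sum,
    marg_one_one (by omega) l hl hs]

/-- the table of inner products. -/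
structure Table : Prop where
  e1_1 : ip (t1 F n) (t1 F n) = 2
  e2_1 : ip (t2 F n) (t1 F n) = 2
  e2_2 : ip (t2 F n) (t2 F n) = 3
  e12_1 : ip (t12 F n) (t1 F n) = 3
  e12_2 : ip (t12 F n) (t2 F n) = 4
  e12_12 : ip (t12 F n) (t12 F n) = 7
  e13_1 : ip (t13 F n) (t1 F n) = 3
  e13_2 : ip (t13 F n) (t2 F n) = 5
  e123_1 : ip (t123 F n) (t1 F n) = 4
  e123_2 : ip (t123 F n) (t2 F n) = 7
  e24_1 : ip (t24 F n) (t1 F n) = 3
  e24_2 : 6 ≤ n → ip (t24 F n) (t2 F n) = 6

theorem table (hn : 5 ≤ n) : Table (F := F) (n := n) := by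
  obtain ⟨k, rfl⟩ : ∃ k, n = k + 5 := ⟨n - 5, by omega⟩
  constructor
  · have h := ip_t1 (F := F) hn [1, 0, k + 5 - 1] (by simp) (by simp only [_root_.Nat.add_one_sub_one, _root_.List.sum_cons, _root_.List.sum_nil, _root_.add_zero, _root_.zero_add]; omega)
    refine Eq.trans h ?_
    exact_mod_cast S1_1 (k + 3)
  · rw [t2, ip_t1 hn _ (by simp) (by simp only [_root_.Nat.reduceSubDiff, _root_.List.sum_cons, _root_.List.sum_nil, _root_.add_zero, _root_.zero_add]; omega)]
    exact_mod_cast S1_2 (k + 2)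
  · have h := ip_t2 (F := F) hn [2, 0, k + 5 - 2] (by simp) (by simp only [_root_.Nat.reduceSubDiff, _root_.List.sum_cons, _root_.List.sum_nil, _root_.add_zero, _root_.zero_add]; omega)
    refine Eq.trans h ?_
    exact_mod_cast S2_2 (k + 1)
  · rw [t12, ip_t1 hn _ (by simp) (by simp only [_root_.Nat.reduceSubDiff, _root_.List.sum_cons, _root_.List.sum_nil, _root_.add_zero]; omega)]
    exact_mod_cast S1_12 (k + 2)
  · rw [t12, ip_t2 hn _ (by simp) (by simp only [_root_.Nat.reduceSubDiff, _root_.List.sum_cons, _root_.List.sum_nil, _root_.add_zero]; omega)]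
    exact_mod_cast S2_12 (k + 1)
  · have h := ip_t12 (F := F) hn [1, 1, k + 5 - 2] (by simp) (by simp only [_root_.Nat.reduceSubDiff, _root_.List.sum_cons, _root_.List.sum_nil, _root_.add_zero]; omega)
    refine Eq.trans h ?_
    exact_mod_cast S11_12 (k + 1)
  · rw [t13, ip_t1 hn _ (by simp) (by simp only [_root_.Nat.reduceSubDiff, _root_.List.sum_cons, _root_.List.sum_nil, _root_.add_zero]; omega)]
    exact_mod_cast S1_13 (k + 1)
  · rw [t13, ip_t2 hn _ (by simp) (by simp only [_root_.Nat.reduceSubDiff, _root_.List.sum_cons, _root_.List.sum_nil, _root_.add_zero]; omega)]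
    exact_mod_cast S2_13 k
  · rw [t123, ip_t1 hn _ (by simp) (by simp only [_root_.Nat.reduceSubDiff, _root_.List.sum_cons, _root_.List.sum_nil, _root_.add_zero]; omega)]
    exact_mod_cast S1_123 (k + 1)
  · rw [t123, ip_t2 hn _ (by simp) (by simp only [_root_.Nat.reduceSubDiff, _root_.List.sum_cons, _root_.List.sum_nil, _root_.add_zero]; omega)]
    exact_mod_cast S2_123 k
  · rw [t24, ip_t1 hn _ (by simp) (by simp only [_root_.Nat.reduceSubDiff, _root_.List.sum_cons, _root_.List.sum_nil, _root_.add_zero]; omega)]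
    exact_mod_cast S1_24 k
  · intro h6
    obtain ⟨j, rfl⟩ : ∃ j, k = j + 1 := ⟨k - 1, by omega⟩
    rw [t24, ip_t2 hn _ (by simp) (by simp only [_root_.Nat.reduceSubDiff, _root_.List.sum_cons, _root_.List.sum_nil, _root_.add_zero]; omega)]
    exact_mod_cast S2_24 j

end Cfsg.Agent.H87.Types
end

-- part: H87/Uni
section
/-!
# Constituents of flag characters of `SL_n(q)` have degree divisible by `q`'s prime

`dvd_degree` : a function of norm one on `SL_n(q)` having integral inner products with all flag characters, orthogonal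
to the principal character but not to all flag characters, has value at `1` an integral multiple of `q`.
-/

set_option autoImplicit false
set_option linter.unusedSectionVars false

namespace Cfsg.Agent.H87.Uni

open scoped MatrixGroups
open Finset MulAction Matrix Cfsg.Agent.H87.Orb Cfsg.Agent.H87.SLInner
open Cfsg.Agent.H139.Young Cfsg.Agent.H139

variable {F : Type*} [Field F] [Fintype F] {n : ℕ} [Fintype (_root_.Matrix.SpecialLinearGroup (Fin n) F)]

/-- a permutation is valid for `ν`. -/
def Valid (ν : Fin n → ℕ) (κ : Equiv.Perm (Fin n)) : Prop := ∀ i : Fin n, (κ i).val ≤ ν i + i.val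

instance (ν : Fin n → ℕ) : DecidablePred (Valid ν) := fun κ => by unfold Valid; infer_instance

/-- the composition `λ - κ`. -/
def lk (ν : Fin n → ℕ) (κ : Equiv.Perm (Fin n)) : Fin n → ℕ := fun i => ν i + i.val - (κ i).val

variable (F) in
/-- the unipotent characters of `SL_n(q)`. -/
noncomputable def chi (ν : Fin n → ℕ) : _root_.Matrix.SpecialLinearGroup (Fin n) F → ℝ :=
  ∑ κ : Equiv.Perm (Fin n), if Valid ν κ then ((Equiv.Perm.sign κ : ℤ) : ℝ) • theta F (lk ν κ) else 0

theorem sum_lk {ν : Fin n → ℕ} (hsum : ∑ i, ν i = n) {κ : Equiv.Perm (Fin n)} (hκ : Valid ν κ) :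
    ∑ i, lk ν κ i = n := Degree.sum_sub_eq ν hsum κ hκ

theorem ip_chi (hn : 0 < n) {ν : Fin n → ℕ} (hsum : ∑ i, ν i = n) :
    ip (chi F ν) (chi F ν) = ∑ κ : Equiv.Perm (Fin n), ∑ κ' : Equiv.Perm (Fin n),
      if Valid ν κ ∧ Valid ν κ' then ((Equiv.Perm.sign κ : ℤ) : ℝ) * ((Equiv.Perm.sign κ' : ℤ) : ℝ) *
        (Nat.card (Marg (lk ν κ) (lk ν κ')) : ℝ) else 0 := by
  rw [chi, ip_sum_left]
  apply sum_congr rfl
  intro κ _
  rw [ip_sum_right]
  apply sum_congr rfl
  intro κ' _
  by_cases h : Valid ν κ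
  · by_cases h' : Valid ν κ'
    · rw [if_pos h, if_pos h', if_pos ⟨h, h'⟩, ip_smul_left, ip_smul_right,
        ip_theta hn _ _ (sum_lk hsum h) (sum_lk hsum h')]
      ring
    · rw [if_neg h', ip_zero_right, if_neg (fun hh => h' hh.2)]
  · rw [if_neg h, ip_zero_left, if_neg (fun hh => h hh.1)]

/-- the unipotent characters have norm one. -/
theorem norm_chi (hn : 0 < n) {ν : Fin n → ℕ} (hmono : Monotone ν) (hsum : ∑ i, ν i = n) :
    ip (chi F ν) (chi F ν) = 1 := by
  classical
  have : Fintype (GL (Fin n) F) := Fintype.ofFinite _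
  have h1 := Unipotent.inner_eq (F := F) ν ν hsum hsum
  rw [H614.pair_self_of_strictMono (Unipotent.strictMono_add hmono), Int.cast_one] at h1
  have e1 : ∀ (ν : Fin n → ℕ) (g : GL (Fin n) F), Cfsg.unipotentCharacterGL n F ν g =
      ∑ κ : Equiv.Perm (Fin n), if (Valid ν κ) then
      ((Equiv.Perm.sign κ : ℤ) : ℂ) *
        Cfsg.fixedPointCharacter (Cfsg.parabolicGL n F (lk ν κ)) g else 0 := by
    intro ν g
    rw [Cfsg.unipotentCharacterGL]
    apply sum_congr rfl
    intro κ _
    by_cases h : Valid ν κ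
    · rw [if_pos h]
      exact if_pos h
    · rw [if_neg h]
      exact if_neg h
  simp only [e1] at h1
  rw [Unipotent.expand] at h1
  have h2 : ((ip (chi F ν) (chi F ν) : ℝ) : ℂ) = 1 := by
    rw [ip_chi hn hsum, ← h1]
    push_cast
    apply sum_congr rfl
    intro κ _
    apply sum_congr rfl
    intro κ' _
    by_cases h : Valid ν κ ∧ Valid ν κ'
    · rw [if_pos h, if_pos h, FlagInner.inner_flag _ _ (sum_lk hsum h.1) (sum_lk hsum h.2)]
      push_cast
      rfl
    · rw [if_neg h, if_neg h, Complex.ofReal_zero]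
  exact_mod_cast h2

/-- permuting the rows. -/
def margComp {a b : Fin n → ℕ} (π : Equiv.Perm (Fin n)) : Marg (a ∘ π) b ≃ Marg a b where
  toFun M := ⟨fun i j => M.1 (π⁻¹ i) j, by
    intro i
    have := M.2.1 (π⁻¹ i)
    rw [this]
    simp, by
    intro j
    rw [← M.2.2 j]
    exact Equiv.sum_comp (π⁻¹) (fun i => M.1 i j)⟩
  invFun M := ⟨fun i j => M.1 (π i) j, fun i => M.2.1 (π i), by
    intro j
    rw [← M.2.2 j]
    exact Equiv.sum_comp π (fun i => M.1 i j)⟩
  left_inv M := by
    apply Subtype.ext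
    funext i j
    change M.1 (π⁻¹ (π i)) j = M.1 i j
    rw [perm_inv_apply]
  right_inv M := by
    apply Subtype.ext
    funext i j
    change M.1 (π (π⁻¹ i)) j = M.1 i j
    rw [perm_apply_inv]

/-- the flag characters do not depend on the order of the parts. -/
theorem theta_comp (hn : 0 < n) {a : Fin n → ℕ} (ha : ∑ i, a i = n) (π : Equiv.Perm (Fin n)) :
    theta F (a ∘ π) = theta F a := by
  have ha' : ∑ i, (a ∘ π) i = n := (Equiv.sum_comp π a).trans ha
  have h1 : ∀ b : Fin n → ℕ, ∑ i, b i = n → ip (theta F (a ∘ π)) (theta F b) = ip (theta F a) (theta F b) := by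
    intro b hb
    rw [ip_theta hn _ _ ha' hb, ip_theta hn _ _ ha hb, Nat.card_congr (margComp π)]
  have h2 : ip (theta F (a ∘ π) - theta F a) (theta F (a ∘ π) - theta F a) = 0 := by
    rw [ip_sub_left, ip_sub_right, ip_sub_right, h1 _ ha', h1 _ ha]
    ring
  have := ip_self_eq_zero h2
  exact sub_eq_zero.1 this

/-- the sum of the squares increases. -/
theorem sq_lt {ν : Fin n → ℕ} (hmono : Monotone ν) {κ : Equiv.Perm (Fin n)} (hκ : Valid ν κ) (hne : κ ≠ 1) :
    ∑ i, ν i ^ 2 < ∑ i, lk ν κ i ^ 2 := by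
  set l : Fin n → ℤ := fun i => (ν i : ℤ) + (i.val : ℤ) with hl
  have hlm : StrictMono l := by
    intro i j hij
    have h1 := hmono hij.le
    have h2 : i.val < j.val := hij
    simp only [hl]
    omega
  set v : Fin n → ℤ := fun i => (i.val : ℤ) with hv
  have hvm : StrictMono v := by
    intro i j hij
    have h2 : i.val < j.val := hij
    simp only [hv]
    omega
  -- rearrangement
  have h1 : ∑ i, l i * v (κ i) < ∑ i, l i * v i := by
    have h2 : Monovary l v := hlm.monotone.monovary hvm.monotone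
    have h3 := h2.sum_mul_comp_perm_lt_sum_mul_iff (σ := κ)
    rw [h3]
    intro h4
    apply hne
    -- `v ∘ κ` monovary with strictly monotone `l`
    have h5 : Monotone (κ : Fin n → Fin n) := by
      intro i j hij
      rcases eq_or_lt_of_le hij with rfl | hij
      · exact le_rfl
      · by_contra hcon
        rw [not_le] at hcon
        have h6 : (v ∘ κ) j < (v ∘ κ) i := hvm hcon
        have h7 := h4 h6
        exact absurd (hlm hij) (not_lt.2 h7)
    ext i
    have h8 : StrictMono (κ : Fin n → Fin n) := h5.strictMono_of_injective κ.injective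
    have h9 : ∀ i : Fin n, i ≤ κ i := fun i => h8.id_le i
    have h10 : ∑ i : Fin n, (κ i).val = ∑ i : Fin n, i.val := Equiv.sum_comp κ (fun i => i.val)
    have h11 := (sum_eq_sum_iff_of_le (s := univ) (f := fun i : Fin n => i.val) (g := fun i => (κ i).val)
      (fun i _ => h9 i)).1 h10.symm i (mem_univ i)
    exact h11.symm
  have h2 : ∑ i, (lk ν κ i : ℤ) ^ 2 = ∑ i, (l i) ^ 2 - 2 * ∑ i, l i * v (κ i) + ∑ i, v i ^ 2 := by
    have h3 : ∑ i, v (κ i) ^ 2 = ∑ i, v i ^ 2 := Equiv.sum_comp κ (fun i => v i ^ 2)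
    rw [← h3, mul_sum, ← sum_sub_distrib, ← sum_add_distrib]
    apply sum_congr rfl
    intro i _
    have h4 : (lk ν κ i : ℤ) = l i - v (κ i) := by
      have h5 := hκ i
      simp only [lk, hl, hv]
      push_cast [h5]
      ring
    rw [h4]
    ring
  have h3 : ∑ i, (ν i : ℤ) ^ 2 = ∑ i, (l i) ^ 2 - 2 * ∑ i, l i * v i + ∑ i, v i ^ 2 := by
    rw [mul_sum, ← sum_sub_distrib, ← sum_add_distrib]
    apply sum_congr rfl
    intro i _
    simp only [hl, hv]
    ring
  have h4 : ∑ i, (ν i : ℤ) ^ 2 < ∑ i, (lk ν κ i : ℤ) ^ 2 := by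
    rw [h2, h3]
    linarith
  exact_mod_cast h4

theorem sum_sq_le {a : Fin n → ℕ} (ha : ∑ i, a i = n) : ∑ i, a i ^ 2 ≤ n ^ 2 := by
  have h1 : ∑ i, a i ^ 2 ≤ ∑ i, a i * n := by
    apply sum_le_sum
    intro i _
    rw [pow_two]
    apply Nat.mul_le_mul_left
    rw [← ha]
    exact single_le_sum (fun j _ => Nat.zero_le _) (mem_univ i)
  rw [← sum_mul, ha] at h1
  rw [pow_two]
  exact h1

theorem lk_one (ν : Fin n → ℕ) : lk ν 1 = ν := by
  funext i
  simp only [lk, _root_.Equiv.Perm.coe_one, _root_.id_eq, _root_.add_tsub_cancel_right]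

theorem valid_one (ν : Fin n → ℕ) : Valid ν 1 := by
  intro i
  simp only [_root_.Equiv.Perm.coe_one, _root_.id_eq, _root_.le_add_iff_nonneg_left, _root_.zero_le]

/-- the flag characters are in the span of the unipotent characters. -/
theorem ip_theta_eq_zero (hn : 0 < n) (y : _root_.Matrix.SpecialLinearGroup (Fin n) F → ℝ)
    (hy : ∀ ν : Fin n → ℕ, Monotone ν → ∑ i, ν i = n → ip y (chi F ν) = 0) (a : Fin n → ℕ) (ha : ∑ i, a i = n) :
    ip y (theta F a) = 0 := by
  classical
  induction hk : n ^ 2 - ∑ i, a i ^ 2 using Nat.strong_induction_on generalizing a with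
  | _ k ih =>
    subst hk
    set π := Tuple.sort a with hπ
    have hmono : Monotone (a ∘ π) := Tuple.monotone_sort a
    have hsum : ∑ i, (a ∘ π) i = n := (Equiv.sum_comp π a).trans ha
    have hsq : ∑ i, (a ∘ π) i ^ 2 = ∑ i, a i ^ 2 := Equiv.sum_comp π (fun i => a i ^ 2)
    rw [← theta_comp hn ha π]
    have h1 := hy _ hmono hsum
    rw [chi, ip_sum_right, ← add_sum_erase univ _ (mem_univ (1 : Equiv.Perm (Fin n))), if_pos (valid_one _),
      lk_one] at h1
    have h2 : ∑ κ ∈ univ.erase (1 : Equiv.Perm (Fin n)), ip y (if Valid (a ∘ π) κ then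
        ((Equiv.Perm.sign κ : ℤ) : ℝ) • theta F (lk (a ∘ π) κ) else 0) = 0 := by
      apply sum_eq_zero
      intro κ hκ
      by_cases h : Valid (a ∘ π) κ
      · rw [if_pos h, ip_smul_right]
        have h3 := sq_lt hmono h (ne_of_mem_erase hκ)
        have h4 := sum_sq_le (sum_lk hsum h)
        rw [ih (n ^ 2 - ∑ i, lk (a ∘ π) κ i ^ 2) (by omega) (lk (a ∘ π) κ) (sum_lk hsum h) rfl, mul_zero]
      · rw [if_neg h, ip_zero_right]
    rw [h2, add_zero] at h1
    simpa using h1

theorem qint_modEq (q j : ℕ) : ∑ l ∈ range (j + 1), q ^ l ≡ 1 [MOD q] := by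
  rw [sum_range_succ', pow_zero]
  have h1 : ∑ k ∈ range j, q ^ (k + 1) ≡ 0 [MOD q] := by
    rw [Nat.modEq_zero_iff_dvd]
    apply dvd_sum
    intro k _
    exact dvd_pow_self q (by omega)
  exact h1.add_right 1

theorem prod_modEq_one {ι : Type*} (s : Finset ι) (f : ι → ℕ) (q : ℕ) (h : ∀ i ∈ s, f i ≡ 1 [MOD q]) :
    ∏ i ∈ s, f i ≡ 1 [MOD q] := by
  classical
  induction s using Finset.induction_on with
  | empty => rw [prod_empty]
  | insert a s ha ih =>
    rw [prod_insert ha]
    have h1 := (h a (mem_insert_self a s)).mul (ih fun i hi => h i (mem_insert_of_mem hi))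
    rwa [one_mul] at h1

theorem card_Co_modEq {a : Fin n → ℕ} (ha : ∑ i, a i = n) : Nat.card (Co F a) ≡ 1 [MOD Fintype.card F] := by
  have h1 := BlockCount.index_parabolicGL (F := F) rfl a ha
  have h2 : ∏ i : Fin n, ∏ j ∈ range (a i), ∑ l ∈ range (j + 1), Fintype.card F ^ l ≡ 1 [MOD Fintype.card F] :=
    prod_modEq_one _ _ _ fun i _ => prod_modEq_one _ _ _ fun j _ => qint_modEq _ j
  have h3 : ∏ j ∈ range n, ∑ l ∈ range (j + 1), Fintype.card F ^ l ≡ 1 [MOD Fintype.card F] :=
    prod_modEq_one _ _ _ fun j _ => qint_modEq _ j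
  have h4 : Nat.card (Co F a) * 1 ≡ 1 [MOD Fintype.card F] := by
    refine (Nat.ModEq.mul_left (Nat.card (Co F a)) h2.symm).trans ?_
    change Nat.card (GL (Fin n) F ⧸ Cfsg.parabolicGL n F a) * _ ≡ 1 [MOD Fintype.card F]
    rw [h1]
    exact h3
  rwa [mul_one] at h4

theorem theta_one (a : Fin n → ℕ) : theta F a 1 = Nat.card (Co F a) := pc_one _

/-- the alternating sum of the signs of the valid permutations vanishes. -/
theorem sum_sign (hn : 2 ≤ n) {ν : Fin n → ℕ} (hν : 1 ≤ ν ⟨n - 2, by omega⟩) :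
    ∑ κ : Equiv.Perm (Fin n), (if Valid ν κ then (Equiv.Perm.sign κ : ℤ) else 0) = 0 := by
  set s : Equiv.Perm (Fin n) := Equiv.swap ⟨n - 2, by omega⟩ ⟨n - 1, by omega⟩ with hs
  have h1 : ∀ κ : Equiv.Perm (Fin n), Valid ν (κ * s) ↔ Valid ν κ := by
    have key : ∀ κ : Equiv.Perm (Fin n), Valid ν κ → Valid ν (κ * s) := by
      intro κ h i
      rw [Equiv.Perm.mul_apply]
      by_cases hi1 : i.val = n - 1
      · have := (κ (s i)).isLt
        omega
      · by_cases hi2 : i.val = n - 2
        · have h2 := (κ (s i)).isLt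
          have h3 : i = ⟨n - 2, by omega⟩ := Fin.ext hi2
          rw [← h3] at hν
          omega
        · have h2 : s i = i := by
            rw [hs]
            apply Equiv.swap_apply_of_ne_of_ne
            · intro h4
              exact hi2 (congrArg Fin.val h4)
            · intro h4
              exact hi1 (congrArg Fin.val h4)
          rw [h2]
          exact h i
    intro κ
    refine ⟨fun h => ?_, key κ⟩
    have h2 := key _ h
    rwa [mul_assoc, hs, Equiv.swap_mul_self, mul_one] at h2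
  have hsign : Equiv.Perm.sign s = -1 := by
    rw [hs]
    apply Equiv.Perm.sign_swap
    intro h
    have := congrArg Fin.val h
    simp only at this
    omega
  have h2 : ∑ κ : Equiv.Perm (Fin n), (if Valid ν κ then (Equiv.Perm.sign κ : ℤ) else 0) =
      ∑ κ : Equiv.Perm (Fin n), (if Valid ν (κ * s) then (Equiv.Perm.sign (κ * s) : ℤ) else 0) :=
    (Equiv.sum_comp (Equiv.mulRight s) (fun κ => if Valid ν κ then (Equiv.Perm.sign κ : ℤ) else 0)).symm
  have h3 : ∑ κ : Equiv.Perm (Fin n), (if Valid ν (κ * s) then (Equiv.Perm.sign (κ * s) : ℤ) else 0) =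
      - ∑ κ : Equiv.Perm (Fin n), (if Valid ν κ then (Equiv.Perm.sign κ : ℤ) else 0) := by
    rw [← sum_neg_distrib]
    apply sum_congr rfl
    intro κ _
    by_cases h : Valid ν κ
    · rw [if_pos h, if_pos ((h1 κ).2 h), map_mul, hsign]
      push_cast
      ring
    · rw [if_neg h, if_neg (fun hh => h ((h1 κ).1 hh)), neg_zero]
  omega

/-- the degree of a nontrivial unipotent character is divisible by `q`. -/
theorem chi_one (hn : 2 ≤ n) {ν : Fin n → ℕ} (hsum : ∑ i, ν i = n) (hν : 1 ≤ ν ⟨n - 2, by omega⟩) :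
    ∃ z : ℤ, chi F ν 1 = (Fintype.card F : ℝ) * z := by
  have h1 : chi F ν 1 = ((∑ κ : Equiv.Perm (Fin n),
      (if Valid ν κ then (Equiv.Perm.sign κ : ℤ) * (Nat.card (Co F (lk ν κ)) : ℤ) else 0) : ℤ) : ℝ) := by
    rw [chi, Finset.sum_apply, Int.cast_sum]
    apply sum_congr rfl
    intro κ _
    by_cases h : Valid ν κ
    · rw [if_pos h, if_pos h, Pi.smul_apply, theta_one, smul_eq_mul]
      push_cast
      rfl
    · rw [if_neg h, if_neg h, Pi.zero_apply, Int.cast_zero]
  have h2 : (Fintype.card F : ℤ) ∣ ∑ κ : Equiv.Perm (Fin n),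
      (if Valid ν κ then (Equiv.Perm.sign κ : ℤ) * (Nat.card (Co F (lk ν κ)) : ℤ) else 0) := by
    have h3 : ∑ κ : Equiv.Perm (Fin n),
      (if Valid ν κ then (Equiv.Perm.sign κ : ℤ) * (Nat.card (Co F (lk ν κ)) : ℤ) else 0) =
      ∑ κ : Equiv.Perm (Fin n),
      (if Valid ν κ then (Equiv.Perm.sign κ : ℤ) * ((Nat.card (Co F (lk ν κ)) : ℤ) - 1) else 0) := by
      rw [← add_zero (∑ κ : Equiv.Perm (Fin n),
        (if Valid ν κ then (Equiv.Perm.sign κ : ℤ) * ((Nat.card (Co F (lk ν κ)) : ℤ) - 1) else 0)),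
        ← sum_sign hn hν, ← sum_add_distrib]
      apply sum_congr rfl
      intro κ _
      by_cases h : Valid ν κ
      · rw [if_pos h, if_pos h, if_pos h]
        ring
      · rw [if_neg h, if_neg h, if_neg h, add_zero]
    rw [h3]
    apply dvd_sum
    intro κ _
    by_cases h : Valid ν κ
    · rw [if_pos h]
      apply dvd_mul_of_dvd_right
      have h4 := (card_Co_modEq (F := F) (sum_lk hsum h)).symm
      rw [Nat.modEq_iff_dvd] at h4
      push_cast at h4
      exact h4
    · rw [if_neg h]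
      exact dvd_zero _
  obtain ⟨z, hz⟩ := h2
  refine ⟨z, ?_⟩
  rw [h1, hz]
  push_cast
  rfl

theorem eq_top_of_zero (hn : 2 ≤ n) {ν : Fin n → ℕ} (hmono : Monotone ν) (hsum : ∑ i, ν i = n)
    (hν : ν ⟨n - 2, by omega⟩ = 0) : chi F ν = fun _ => 1 := by
  have h0 : ∀ i : Fin n, i.val ≤ n - 2 → ν i = 0 := by
    intro i hi
    have h1 := hmono (show i ≤ ⟨n - 2, by omega⟩ from hi)
    omega
  have h1 : ∀ κ : Equiv.Perm (Fin n), Valid ν κ → κ = 1 := by
    intro κ hκ
    have h2 : ∀ i : Fin n, κ i ≤ i := by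
      intro i
      rw [Fin.le_def]
      by_cases hi : i.val ≤ n - 2
      · have := hκ i
        rw [h0 i hi] at this
        omega
      · have := (κ i).isLt
        omega
    have h10 : ∑ i : Fin n, (κ i).val = ∑ i : Fin n, i.val := Equiv.sum_comp κ (fun i => i.val)
    ext i
    exact (sum_eq_sum_iff_of_le (s := univ) (f := fun i : Fin n => (κ i).val) (g := fun i => i.val)
      (fun i _ => h2 i)).1 h10 i (mem_univ i)
  have h2 : chi F ν = theta F ν := by
    rw [chi, ← add_sum_erase univ _ (mem_univ (1 : Equiv.Perm (Fin n))), if_pos (valid_one _), lk_one]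
    rw [sum_eq_zero, add_zero]
    · simp
    · intro κ hκ
      rw [if_neg]
      intro h
      exact (ne_of_mem_erase hκ) (h1 κ h)
  rw [h2]
  -- the parabolic subgroup is everything
  have h3 : parabolicGL n F ν = ⊤ := by
    rw [eq_top_iff]
    intro g _
    change (g : Matrix (Fin n) (Fin n) F).BlockTriangular (compLabel ν)
    have h4 : ∀ i : Fin n, compLabel ν i = n - 1 := by
      intro i
      have h5 := BlockCount.compLabel_lt ν hsum i
      have h6 : BlockCount.psum ν n = n := by rw [BlockCount.psum_last, hsum]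
      have h7 := BlockCount.compLabel_lt_iff ν i (k := n - 1) (by omega) h6
      have h8 : BlockCount.psum ν (n - 1) = 0 := by
        rw [BlockCount.psum]
        apply sum_eq_zero
        intro j hj
        apply h0
        rw [mem_filter] at hj
        omega
      rw [h8] at h7
      omega
    intro i j hij
    rw [h4, h4] at hij
    exact absurd hij (lt_irrefl _)
  have h4 : Subsingleton (Co F ν) := by
    unfold Co
    rw [h3]
    exact QuotientGroup.subsingleton_quotient_top
  funext g
  rw [theta, pc]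
  have h5 : Nat.card (fixedBy (Co F ν) g) = 1 := by
    rw [Nat.card_eq_one_iff_unique]
    refine ⟨?_, ?_⟩
    · exact ⟨fun a b => Subtype.ext (Subsingleton.elim _ _)⟩
    · exact ⟨⟨Classical.arbitrary _, by rw [mem_fixedBy]; exact Subsingleton.elim _ _⟩⟩
  rw [h5, Nat.cast_one]

/-- **Degrees of constituents of flag characters.** -/
theorem dvd_degree (hn : 2 ≤ n) (y : _root_.Matrix.SpecialLinearGroup (Fin n) F → ℝ) (hy1 : ip y y = 1)
    (hint : ∀ a : Fin n → ℕ, ∑ i, a i = n → ∃ z : ℤ, ip y (theta F a) = z)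
    (h1 : ip y (fun _ => 1) = 0) (a : Fin n → ℕ) (ha : ∑ i, a i = n) (hne : ip y (theta F a) ≠ 0) :
    ∃ z : ℤ, y 1 = (Fintype.card F : ℝ) * z := by
  obtain ⟨ν, hmono, hsum, hν⟩ : ∃ ν : Fin n → ℕ, Monotone ν ∧ ∑ i, ν i = n ∧ ip y (chi F ν) ≠ 0 := by
    by_contra hcon
    push Not at hcon
    exact hne (ip_theta_eq_zero (by omega) y hcon a ha)
  have h2 : 1 ≤ ν ⟨n - 2, by omega⟩ := by
    by_contra h3
    apply hν
    rw [eq_top_of_zero hn hmono hsum (by omega)]
    exact h1
  obtain ⟨z, hz⟩ := chi_one (F := F) hn hsum h2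
  obtain ⟨w, hw⟩ : ∃ w : ℤ, ip y (chi F ν) = w := by
    have h3 : ∀ κ : Equiv.Perm (Fin n), ∃ w : ℤ, ip y (if Valid ν κ then
        ((Equiv.Perm.sign κ : ℤ) : ℝ) • theta F (lk ν κ) else 0) = w := by
      intro κ
      by_cases h : Valid ν κ
      · obtain ⟨w, hw⟩ := hint _ (sum_lk hsum h)
        refine ⟨(Equiv.Perm.sign κ : ℤ) * w, ?_⟩
        rw [if_pos h, ip_smul_right, hw]
        push_cast
        rfl
      · exact ⟨0, by rw [if_neg h, ip_zero_right, Int.cast_zero]⟩
    choose f hf using h3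
    refine ⟨∑ κ, f κ, ?_⟩
    rw [chi, ip_sum_right, Int.cast_sum]
    exact sum_congr rfl fun κ _ => hf κ
  have h3 := ip_sq_le hy1 (norm_chi (by omega) hmono hsum)
  rw [hw] at h3 hν
  have h4 : |w| ≤ 1 := by exact_mod_cast h3
  have h5 : w ≠ 0 := by exact_mod_cast hν
  rw [abs_le] at h4
  have h6 : w = 1 ∨ w = -1 := by omega
  rcases h6 with h6 | h6
  · rw [h6, Int.cast_one] at hw
    have h7 := eq_of_norm_one hy1 (norm_chi (by omega) hmono hsum) hw
    exact ⟨z, by rw [h7, hz]⟩
  · rw [h6] at hw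
    have h7 : y = - chi F ν := by
      apply eq_of_norm_one hy1
      · rw [ip_neg_left, ip_neg_right, norm_chi (by omega) hmono hsum]
        ring
      · rw [ip_neg_right, hw]
        push_cast
        ring
    refine ⟨-z, ?_⟩
    rw [h7, Pi.neg_apply, hz]
    push_cast
    ring

end Cfsg.Agent.H87.Uni
end

-- part: H87/Spectrum
section
/-!
# The spectrum of a rank 3 permutation character of `SL_n(q)`

`spectrum` : for a transitive action of rank 3 of `SL_n(q)`, `n ≥ 5`, the numbers of orbits of a point stabiliser on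
the flags of small types.
-/

set_option autoImplicit false
set_option linter.unusedSectionVars false

namespace Cfsg.Agent.H87.Spectrum

open scoped MatrixGroups
open Finset MulAction Matrix Module Cfsg.Agent.H87.Orb Cfsg.Agent.H87.SLInner Cfsg.Agent.H87.Flags
open Cfsg.Agent.H139.BlockCount Cfsg.Agent.H87.FlagsGL Cfsg.Agent.H87.MargCount Cfsg.Agent.H87.Types

variable {F : Type*} [Field F] {n : ℕ}

theorem ip_pc_one {G : Type*} [Group G] [Fintype G] (Y : Type*) [MulAction G Y] [Finite Y] :
    ip (pc G Y) (fun _ => 1) = (nOrb G Y : ℝ) := by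
  classical
  have : Fintype Y := Fintype.ofFinite _
  have h2 := sum_card_fixedBy_eq_card_orbits_mul_card_group G Y
  have h1 : ∀ g : G, pc G Y g * 1 = (Fintype.card (fixedBy Y g) : ℝ) := by
    intro g
    rw [pc, mul_one, Nat.card_eq_fintype_card]
  rw [ip, Finset.sum_congr rfl (fun g _ => h1 g), ← Nat.cast_sum, h2, Nat.cast_mul, nOrb, ← Nat.card_eq_fintype_card,
    ← Nat.card_eq_fintype_card, mul_comm, mul_assoc, mul_inv_cancel₀, mul_one]
  rw [Nat.cast_ne_zero]
  exact Nat.card_pos.ne'

/-- `SL_n` is transitive on the cosets. -/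
theorem sl_transitive (hn : 0 < n) (a : Fin n → ℕ) (y y' : Co F a) :
    ∃ g : _root_.Matrix.SpecialLinearGroup (Fin n) F, g • y = y' := by
  obtain ⟨g, hg⟩ := exists_smul_eq (GL (Fin n) F) y y'
  obtain ⟨s, hs1, hs2⟩ := exists_det hn a a (y, y) (g.det)
  have hdet : ((g * s⁻¹ : GL (Fin n) F) : Matrix (Fin n) (Fin n) F).det = 1 := by
    have h1 : (g * s⁻¹).det = 1 := by
      rw [map_mul, map_inv, hs1, mul_inv_cancel]
    have h2 := congrArg Units.val h1
    rwa [GeneralLinearGroup.val_det_apply] at h2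
  refine ⟨⟨((g * s⁻¹ : GL (Fin n) F) : Matrix (Fin n) (Fin n) F), hdet⟩, ?_⟩
  have h3 : (SpecialLinearGroup.toGL ⟨((g * s⁻¹ : GL (Fin n) F) : Matrix (Fin n) (Fin n) F), hdet⟩ :
      GL (Fin n) F) = g * s⁻¹ := by
    apply Units.ext
    rfl
  change (SpecialLinearGroup.toGL ⟨((g * s⁻¹ : GL (Fin n) F) : Matrix (Fin n) (Fin n) F), hdet⟩ :
      GL (Fin n) F) • y = y'
  rw [h3, mul_smul]
  have h4 : s⁻¹ • y = y := by
    rw [inv_smul_eq_iff]
    exact (congrArg Prod.fst hs2).symm
  rw [h4]
  exact hg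

/-- `q`-integers. -/
def qi (q m : ℕ) : ℕ := ∑ l ∈ range m, q ^ l

/-- `q`-factorials. -/
def fac (q m : ℕ) : ℕ := ∏ j ∈ range m, qi q (j + 1)

theorem qi_mul (q m : ℕ) (hq : 1 ≤ q) : qi q m * (q - 1) + 1 = q ^ m := by
  induction m with
  | zero => simp [qi]
  | succ m ih =>
    rw [qi, sum_range_succ, add_mul]
    change qi q m * (q - 1) + q ^ m * (q - 1) + 1 = q ^ (m + 1)
    obtain ⟨k, rfl⟩ : ∃ k, q = k + 1 := ⟨q - 1, by omega⟩
    simp only [Nat.add_sub_cancel] at ih ⊢
    rw [pow_succ]
    linarith only [ih]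

theorem qi_mul' (q m : ℕ) (hq : 1 ≤ q) : qi q m * (q - 1) = q ^ m - 1 := by
  have := qi_mul q m hq
  omega

theorem fac_pos (q m : ℕ) (hq : 1 ≤ q) : 0 < fac q m :=
  Finset.prod_pos fun j _ => Finset.sum_pos (fun _ _ => pow_pos (by omega) _) ⟨0, by simp only [_root_.Finset.mem_range, _root_.lt_add_iff_pos_left, _root_.Order.lt_add_one_iff, _root_.zero_le]⟩

theorem card_Co [Fintype F] (hn : 3 ≤ n) (a b c : ℕ) (h : a + b + c = n) :
    Nat.card (Co F (_root_.Cfsg.Agent.H87.MargCount.comp n [a, b, c])) * (fac (Fintype.card F) a * fac (Fintype.card F) b * fac (Fintype.card F) c) =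
      fac (Fintype.card F) n := by
  have hsum : ∑ i, _root_.Cfsg.Agent.H87.MargCount.comp n [a, b, c] i = n := by
    rw [sum_three hn]
    · exact h
    · intro j hj
      exact comp_big _ _ _ hj
  have h1 := index_parabolicGL (F := F) rfl (_root_.Cfsg.Agent.H87.MargCount.comp n [a, b, c]) hsum
  refine Eq.trans ?_ h1
  congr 1
  obtain ⟨k, rfl⟩ : ∃ k, n = k + 3 := ⟨n - 3, by omega⟩
  rw [Fin.prod_univ_succ, Fin.prod_univ_succ, Fin.prod_univ_succ]
  have : ∏ i : Fin k, ∏ j ∈ range (_root_.Cfsg.Agent.H87.MargCount.comp (k + 3) [a, b, c] i.succ.succ.succ), ∑ l ∈ range (j + 1), Fintype.card F ^ l = 1 := by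
    apply prod_eq_one
    intro i _
    rw [comp_big _ _ _ (by simp)]
    simp
  rw [this, mul_one, ← mul_assoc]
  rfl

/-- number of points. -/
theorem card_t1 [Fintype F] (hn : 5 ≤ n) :
    Nat.card (Co F (_root_.Cfsg.Agent.H87.MargCount.comp n [1, 0, n - 1])) * (Fintype.card F - 1) = Fintype.card F ^ n - 1 := by
  have hq1 : 1 < Fintype.card F := Fintype.one_lt_card
  have h1 := card_Co (F := F) (n := n) (by omega) 1 0 (n - 1) (by omega)
  obtain ⟨k, rfl⟩ : ∃ k, n = k + 1 := ⟨n - 1, by omega⟩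
  simp only [Nat.add_sub_cancel] at h1 ⊢
  have e1 : fac (Fintype.card F) 1 = 1 := by simp [fac, qi]
  have e0 : fac (Fintype.card F) 0 = 1 := by simp [fac]
  have e2 : fac (Fintype.card F) (k + 1) = qi (Fintype.card F) (k + 1) * fac (Fintype.card F) k := by
    rw [fac, prod_range_succ, mul_comm]
    rfl
  rw [e1, e0, e2, one_mul, one_mul] at h1
  rw [Nat.eq_of_mul_eq_mul_right (fac_pos _ _ hq1.le) h1, qi_mul' _ _ hq1.le]

/-- number of lines. -/
theorem card_t2 [Fintype F] (hn : 5 ≤ n) :
    Nat.card (Co F (_root_.Cfsg.Agent.H87.MargCount.comp n [2, 0, n - 2])) * ((Fintype.card F ^ 2 - 1) * (Fintype.card F - 1)) =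
      (Fintype.card F ^ n - 1) * (Fintype.card F ^ (n - 1) - 1) := by
  have hq1 : 1 < Fintype.card F := Fintype.one_lt_card
  have h1 := card_Co (F := F) (n := n) (by omega) 2 0 (n - 2) (by omega)
  obtain ⟨k, rfl⟩ : ∃ k, n = k + 2 := ⟨n - 2, by omega⟩
  simp only [Nat.add_sub_cancel] at h1 ⊢
  have e1 : fac (Fintype.card F) 2 = qi (Fintype.card F) 2 := by simp [fac, qi, prod_range_succ, sum_range_succ]
  have e0 : fac (Fintype.card F) 0 = 1 := by simp [fac]
  have e2 : fac (Fintype.card F) (k + 2) =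
      (qi (Fintype.card F) (k + 2) * qi (Fintype.card F) (k + 1)) * fac (Fintype.card F) k := by
    rw [fac, prod_range_succ, prod_range_succ]
    change fac (Fintype.card F) k * qi (Fintype.card F) (k + 1) * qi (Fintype.card F) (k + 2) = _
    ring
  rw [e1, e0, e2, mul_one, ← mul_assoc] at h1
  have h2 := Nat.eq_of_mul_eq_mul_right (fac_pos _ _ hq1.le) h1
  rw [show k + 2 - 1 = k + 1 by omega, ← qi_mul' _ _ hq1.le, ← qi_mul' _ _ hq1.le, ← qi_mul' _ _ hq1.le]
  calc _ = (Nat.card (Co F (_root_.Cfsg.Agent.H87.MargCount.comp (k + 2) [2, 0, k])) * qi (Fintype.card F) 2) *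
        ((Fintype.card F - 1) * (Fintype.card F - 1)) := by ring
    _ = _ := by rw [h2]; ring

theorem two_t1_le [Fintype F] (hn : 5 ≤ n) :
    2 * Nat.card (Co F (_root_.Cfsg.Agent.H87.MargCount.comp n [1, 0, n - 1])) < Nat.card (Co F (_root_.Cfsg.Agent.H87.MargCount.comp n [2, 0, n - 2])) := by
  have hq1 : 1 < Fintype.card F := Fintype.one_lt_card
  have h1 := card_t1 (F := F) hn
  have h2 := card_t2 (F := F) hn
  set q := Fintype.card F with hq
  set A := Nat.card (Co F (_root_.Cfsg.Agent.H87.MargCount.comp n [1, 0, n - 1])) with hA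
  set B := Nat.card (Co F (_root_.Cfsg.Agent.H87.MargCount.comp n [2, 0, n - 2])) with hB
  rw [← h1] at h2
  have h3 : B * (q ^ 2 - 1) = A * (q ^ (n - 1) - 1) := by
    have : (B * (q ^ 2 - 1)) * (q - 1) = (A * (q ^ (n - 1) - 1)) * (q - 1) := by
      linarith only [h2]
    exact Nat.eq_of_mul_eq_mul_right (by omega) this
  have hA0 : 0 < A := Nat.card_pos
  have h4 : q ^ 4 ≤ q ^ (n - 1) := Nat.pow_le_pow_right (by omega) (by omega)
  have h5 : q ^ 4 = q ^ 2 * q ^ 2 := by ring
  have h6 : 2 * 2 ≤ q ^ 2 := by nlinarith only [hq1]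
  have h7 : 2 * (q ^ 2 - 1) < q ^ (n - 1) - 1 := by
    have : 4 * q ^ 2 ≤ q ^ 4 := by rw [h5]; exact Nat.mul_le_mul_right _ (by omega)
    omega
  by_contra hcon
  rw [not_lt] at hcon
  have h8 : B * (q ^ 2 - 1) ≤ (2 * A) * (q ^ 2 - 1) := Nat.mul_le_mul_right _ hcon
  have h9 : (2 * A) * (q ^ 2 - 1) < A * (q ^ (n - 1) - 1) := by
    calc (2 * A) * (q ^ 2 - 1) = A * (2 * (q ^ 2 - 1)) := by ring
      _ < A * (q ^ (n - 1) - 1) := Nat.mul_lt_mul_of_pos_left h7 hA0
  omega

variable [Fintype F] [Fintype (_root_.Matrix.SpecialLinearGroup (Fin n) F)]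

/-- the principal character. -/
noncomputable def o (F : Type*) [Field F] (n : ℕ) : _root_.Matrix.SpecialLinearGroup (Fin n) F → ℝ := fun _ => 1

theorem ip_oo : ip (o F n) (o F n) = 1 := by
  unfold ip o
  rw [sum_congr rfl (fun x _ => mul_one (1 : ℝ)), sum_const, card_univ, nsmul_eq_mul, mul_one]
  apply inv_mul_cancel₀
  rw [Nat.cast_ne_zero]
  exact Fintype.card_ne_zero

theorem ip_theta_o (hn : 0 < n) (a : Fin n → ℕ) : ip (theta F a) (o F n) = 1 := by
  have h1 := ip_pc_one (G := _root_.Matrix.SpecialLinearGroup (Fin n) F) (Co F a)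
  have : IsPretransitive (_root_.Matrix.SpecialLinearGroup (Fin n) F) (Co F a) := ⟨sl_transitive hn a⟩
  rw [nOrb_eq_one, Nat.cast_one] at h1
  exact h1

section main

variable {X : Type*} [MulAction (_root_.Matrix.SpecialLinearGroup (Fin n) F) X] [Finite X]
  [IsPretransitive (_root_.Matrix.SpecialLinearGroup (Fin n) F) X]

/-- inner products with flag characters count orbits on flags. -/
theorem ip_x (x : X) {a : Fin n → ℕ} {k : ℕ} {d : Fin k → ℕ} (M : Matches a d) :
    ip (pc (_root_.Matrix.SpecialLinearGroup (Fin n) F) X) (theta F a) =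
      (nOrb (stabilizer (_root_.Matrix.SpecialLinearGroup (Fin n) F) x) (Fl F (Vec F n) d) : ℝ) := by
  rw [theta_eq M, ip_pc, card_orbits_prod x]

theorem ip_x_int (a : Fin n → ℕ) :
    ∃ z : ℤ, ip (pc (_root_.Matrix.SpecialLinearGroup (Fin n) F) X) (theta F a) = z := by
  rw [theta, ip_pc]
  exact ⟨(nOrb (_root_.Matrix.SpecialLinearGroup (Fin n) F) (X × Co F a) : ℤ), by push_cast; rfl⟩

theorem card_modEq_of {C : ℤ} {N A B : ℕ} {q : ℕ} (hA : A ≡ 1 [MOD q]) (hB : B ≡ 1 [MOD q])
    (h : (N : ℤ) = q * C + 1 + (B - A)) : N ≡ 1 [MOD q] := by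
  rw [← Int.natCast_modEq_iff] at hA hB ⊢
  have h1 : ((B : ℤ) - A) ≡ 0 [ZMOD q] := by
    have := hB.sub hA
    simpa using this
  rw [h]
  have h2 : (q : ℤ) * C + 1 + ((B : ℤ) - A) ≡ 0 + 1 + 0 [ZMOD q] := by
    refine Int.ModEq.add (Int.ModEq.add ?_ (Int.ModEq.refl 1)) h1
    exact (Int.modEq_zero_iff_dvd.2 (dvd_mul_right _ _))
  simpa using h2

/-- **The spectrum of a rank 3 permutation character.** -/
theorem spectrum (hn : 5 ≤ n) (x : X) (h3 : nOrb (stabilizer (_root_.Matrix.SpecialLinearGroup (Fin n) F) x) X = 3) :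
    Nat.card X = Nat.card (Co F (_root_.Cfsg.Agent.H87.MargCount.comp n [2, 0, n - 2])) ∨
    (nOrb (stabilizer (_root_.Matrix.SpecialLinearGroup (Fin n) F) x) (Fl F (Vec F n) ![2]) ≤ 2 ∧
      Nat.card X ≡ 1 [MOD Fintype.card F]) ∨
    (nOrb (stabilizer (_root_.Matrix.SpecialLinearGroup (Fin n) F) x) (Fl F (Vec F n) ![1]) = 2 ∧
      nOrb (stabilizer (_root_.Matrix.SpecialLinearGroup (Fin n) F) x) (Fl F (Vec F n) ![2]) = 2 ∧
      nOrb (stabilizer (_root_.Matrix.SpecialLinearGroup (Fin n) F) x) (Fl F (Vec F n) ![1, 2]) ≤ 3) ∨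
    (nOrb (stabilizer (_root_.Matrix.SpecialLinearGroup (Fin n) F) x) (Fl F (Vec F n) ![1]) = 1 ∧
      nOrb (stabilizer (_root_.Matrix.SpecialLinearGroup (Fin n) F) x) (Fl F (Vec F n) ![2]) = 2 ∧
      nOrb (stabilizer (_root_.Matrix.SpecialLinearGroup (Fin n) F) x) (Fl F (Vec F n) ![1, 3]) = 3 ∧
      nOrb (stabilizer (_root_.Matrix.SpecialLinearGroup (Fin n) F) x) (Fl F (Vec F n) ![1, 2, 3]) = 4 ∧
      (6 ≤ n → nOrb (stabilizer (_root_.Matrix.SpecialLinearGroup (Fin n) F) x) (Fl F (Vec F n) ![2, 4]) = 4)) ∨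
    (nOrb (stabilizer (_root_.Matrix.SpecialLinearGroup (Fin n) F) x) (Fl F (Vec F n) ![1]) = 1 ∧
      nOrb (stabilizer (_root_.Matrix.SpecialLinearGroup (Fin n) F) x) (Fl F (Vec F n) ![2]) = 1) := by
  classical
  have T := table (F := F) (n := n) hn
  set xx := pc (_root_.Matrix.SpecialLinearGroup (Fin n) F) X with hxx
  have M1 := m1 (n := n) (by omega)
  have M2 := m2 (n := n) (by omega)
  have M12 := m12 (n := n) (by omega)
  have M13 := m13 (n := n) (by omega)
  have M24 := m24 (n := n) (by omega)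
  have M123 := m123 (n := n) (by omega)
  set N1 := nOrb (stabilizer (_root_.Matrix.SpecialLinearGroup (Fin n) F) x) (Fl F (Vec F n) ![1]) with hN1
  set N2 := nOrb (stabilizer (_root_.Matrix.SpecialLinearGroup (Fin n) F) x) (Fl F (Vec F n) ![2]) with hN2
  set N12 := nOrb (stabilizer (_root_.Matrix.SpecialLinearGroup (Fin n) F) x) (Fl F (Vec F n) ![1, 2]) with hN12
  have x1 : ip xx (t1 F n) = N1 := ip_x x M1
  have x2 : ip xx (t2 F n) = N2 := ip_x x M2
  have x12 : ip xx (t12 F n) = N12 := ip_x x M12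
  have x13 := ip_x (F := F) x M13
  have x24 := ip_x (F := F) x M24
  have x123 := ip_x (F := F) x M123
  have xo : ip xx (o F n) = 1 := by
    have : Nonempty X := ⟨x⟩
    have h1 := ip_pc_one (G := _root_.Matrix.SpecialLinearGroup (Fin n) F) X
    rw [nOrb_eq_one, Nat.cast_one] at h1
    exact h1
  have ox : ip (o F n) xx = 1 := by rw [ip_comm, xo]
  have xxx : ip xx xx = 3 := by
    rw [hxx, ip_pc, card_orbits_prod x, h3]
    norm_num
  have o1 : ip (t1 F n) (o F n) = 1 := ip_theta_o (by omega) _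
  have o2 : ip (t2 F n) (o F n) = 1 := ip_theta_o (by omega) _
  have o12 : ip (t12 F n) (o F n) = 1 := ip_theta_o (by omega) _
  have o1' : ip (o F n) (t1 F n) = 1 := by rw [ip_comm, o1]
  have o2' : ip (o F n) (t2 F n) = 1 := by rw [ip_comm, o2]
  have o12' : ip (o F n) (t12 F n) = 1 := by rw [ip_comm, o12]
  have x1' : ip (t1 F n) xx = N1 := by rw [ip_comm, x1]
  have x2' : ip (t2 F n) xx = N2 := by rw [ip_comm, x2]
  have x12' : ip (t12 F n) xx = N12 := by rw [ip_comm, x12]
  have e1_2 : ip (t1 F n) (t2 F n) = 2 := by rw [ip_comm, T.e2_1]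
  have e1_12 : ip (t1 F n) (t12 F n) = 3 := by rw [ip_comm, T.e12_1]
  have e2_12 : ip (t2 F n) (t12 F n) = 4 := by rw [ip_comm, T.e12_2]
  have oo := ip_oo (F := F) (n := n)
  -- Bessel
  have hN1pos : 1 ≤ N1 := by
    have : Nonempty (Fl F (Vec F n) ![1]) := ⟨std ![1] M1.mono M1.le⟩
    exact nOrb_pos
  have hN2pos : 1 ≤ N2 := by
    have : Nonempty (Fl F (Vec F n) ![2]) := ⟨std ![2] M2.mono M2.le⟩
    exact nOrb_pos
  have bess : ((N1 : ℝ) - 1) ^ 2 + ((N2 : ℝ) - N1) ^ 2 + ((N12 : ℝ) - N1 - N2 + 1) ^ 2 ≤ 2 := by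
    have h1 := ip_self_nonneg (xx - o F n - ((N1 : ℝ) - 1) • (t1 F n - o F n) - ((N2 : ℝ) - N1) • (t2 F n - t1 F n) -
      ((N12 : ℝ) - N1 - N2 + 1) • (t12 F n - t1 F n - t2 F n + o F n))
    have h2 : ip (xx - o F n - ((N1 : ℝ) - 1) • (t1 F n - o F n) - ((N2 : ℝ) - N1) • (t2 F n - t1 F n) -
        ((N12 : ℝ) - N1 - N2 + 1) • (t12 F n - t1 F n - t2 F n + o F n))
        (xx - o F n - ((N1 : ℝ) - 1) • (t1 F n - o F n) - ((N2 : ℝ) - N1) • (t2 F n - t1 F n) -
        ((N12 : ℝ) - N1 - N2 + 1) • (t12 F n - t1 F n - t2 F n + o F n)) =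
        2 - (((N1 : ℝ) - 1) ^ 2 + ((N2 : ℝ) - N1) ^ 2 + ((N12 : ℝ) - N1 - N2 + 1) ^ 2) := by
      simp only [ip_sub_left, ip_sub_right, ip_add_left, ip_add_right, ip_smul_left, ip_smul_right, xxx, xo, ox, x1,
        x1', x2, x2', x12, x12', o1, o2, o12, o1', o2', o12', oo, T.e1_1, T.e2_1, T.e2_2, T.e12_1, T.e12_2, T.e12_12,
        e1_2, e1_12, e2_12]
      ring
    rw [h2] at h1
    linarith only [h1]
  have bessZ : ((N1 : ℤ) - 1) ^ 2 + ((N2 : ℤ) - N1) ^ 2 + ((N12 : ℤ) - N1 - N2 + 1) ^ 2 ≤ 2 := by exact_mod_cast bess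
  -- values at `1`
  set A := Nat.card (Co F (_root_.Cfsg.Agent.H87.MargCount.comp n [1, 0, n - 1])) with hA
  set B := Nat.card (Co F (_root_.Cfsg.Agent.H87.MargCount.comp n [2, 0, n - 2])) with hB
  have v1 : t1 F n 1 = A := Uni.theta_one _
  have v2 : t2 F n 1 = B := Uni.theta_one _
  have v12 : t12 F n 1 = Nat.card (Co F (_root_.Cfsg.Agent.H87.MargCount.comp n [1, 1, n - 2])) := Uni.theta_one _
  have vx : xx 1 = Nat.card X := pc_one X
  have vo : o F n 1 = 1 := rfl
  have hAm : A ≡ 1 [MOD Fintype.card F] := Uni.card_Co_modEq M1.sum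
  have hBm : B ≡ 1 [MOD Fintype.card F] := Uni.card_Co_modEq M2.sum
  have hCm : Nat.card (Co F (_root_.Cfsg.Agent.H87.MargCount.comp n [1, 1, n - 2])) ≡ 1 [MOD Fintype.card F] := Uni.card_Co_modEq M12.sum
  have hr : (N1 : ℤ) = 1 ∨ (N1 : ℤ) = 2 := by
    have h1 : ((N1 : ℤ) - 1) ^ 2 ≤ 2 := by linarith only [bessZ, sq_nonneg ((N2 : ℤ) - N1), sq_nonneg ((N12 : ℤ) - N1 - N2 + 1)]
    have h2 : (N1 : ℤ) < 3 := by nlinarith only [bessZ]
    omega
  have hs : (N2 : ℤ) - N1 = -1 ∨ (N2 : ℤ) - N1 = 0 ∨ (N2 : ℤ) - N1 = 1 := by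
    have h1 : ((N2 : ℤ) - N1) ^ 2 ≤ 2 := by linarith only [bessZ, sq_nonneg ((N1 : ℤ) - 1), sq_nonneg ((N12 : ℤ) - N1 - N2 + 1)]
    have h2 : (N2 : ℤ) - N1 < 2 := by nlinarith only [bessZ]
    have h3 : -2 < (N2 : ℤ) - N1 := by nlinarith only [bessZ]
    omega
  rcases hr with hr | hr
  · rcases hs with hs | hs | hs
    · exfalso
      omega
    · -- point- and line-transitive
      right; right; right; right
      omega
    · -- `ρ` not a constituent, `σ` a constituent
      have hN1' : N1 = 1 := by omega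
      have hN2' : N2 = 2 := by omega
      set y := xx - o F n - (t2 F n - t1 F n) with hy
      have hyy : ip y y = 1 := by
        rw [hy]
        simp only [ip_sub_left, ip_sub_right, xxx, xo, ox, x1, x1', x2, x2', o1, o2, o1', o2', oo, T.e1_1, T.e2_1,
          T.e2_2, e1_2, hN1', hN2']
        norm_num
      have hyo : ip y (fun _ => 1) = 0 := by
        change ip y (o F n) = 0
        rw [hy]
        simp only [ip_sub_left, xo, o1, o2, oo]
        norm_num
      have hval : ∀ a : Fin n → ℕ, ∑ i, a i = n → ip y (theta F a) = ip xx (theta F a) - 1 -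
          (ip (theta F a) (t2 F n) - ip (theta F a) (t1 F n)) := by
        intro a ha
        rw [hy]
        simp only [ip_sub_left]
        rw [ip_comm (o F n), ip_theta_o (by omega), ip_comm (t2 F n), ip_comm (t1 F n)]
      have hint : ∀ a : Fin n → ℕ, ∑ i, a i = n → ∃ z : ℤ, ip y (theta F a) = z := by
        intro a ha
        obtain ⟨z, hz⟩ := ip_x_int (F := F) (X := X) a
        rw [hval a ha, t1, t2, ip_theta (by omega) _ _ ha M2.sum, ip_theta (by omega) _ _ ha M1.sum]
        refine ⟨z - 1 - ((Nat.card (Cfsg.Agent.H139.Young.Marg a (_root_.Cfsg.Agent.H87.MargCount.comp n [2, 0, n - 2])) : ℤ) -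
          (Nat.card (Cfsg.Agent.H139.Young.Marg a (_root_.Cfsg.Agent.H87.MargCount.comp n [1, 0, n - 1])) : ℤ)), ?_⟩
        rw [hxx, hz]
        push_cast
        ring
      by_cases hall : ∀ a : Fin n → ℕ, ∑ i, a i = n → ip y (theta F a) = 0
      · right; right; right; left
        have h13 := hval _ M13.sum
        rw [hall _ M13.sum, hxx, x13] at h13
        have h123 := hval _ M123.sum
        rw [hall _ M123.sum, hxx, x123] at h123
        have h24 := hval _ M24.sum
        rw [hall _ M24.sum, hxx, x24] at h24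
        have k1 : ip (theta F (_root_.Cfsg.Agent.H87.MargCount.comp n [1, 2, n - 3])) (t2 F n) = 5 := T.e13_2
        have k2 : ip (theta F (_root_.Cfsg.Agent.H87.MargCount.comp n [1, 2, n - 3])) (t1 F n) = 3 := T.e13_1
        have k3 : ip (theta F (_root_.Cfsg.Agent.H87.MargCount.comp n [1, 1, 1, n - 3])) (t2 F n) = 7 := T.e123_2
        have k4 : ip (theta F (_root_.Cfsg.Agent.H87.MargCount.comp n [1, 1, 1, n - 3])) (t1 F n) = 4 := T.e123_1
        have k5 : ip (theta F (_root_.Cfsg.Agent.H87.MargCount.comp n [2, 2, n - 4])) (t1 F n) = 3 := T.e24_1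
        rw [k1, k2] at h13
        rw [k3, k4] at h123
        refine ⟨hN1', hN2', ?_, ?_, ?_⟩
        · have : (nOrb (stabilizer (_root_.Matrix.SpecialLinearGroup (Fin n) F) x) (Fl F (Vec F n) ![1, 3]) : ℝ) = 3 := by linarith only [h13]
          exact_mod_cast this
        · have : (nOrb (stabilizer (_root_.Matrix.SpecialLinearGroup (Fin n) F) x) (Fl F (Vec F n) ![1, 2, 3]) : ℝ) = 4 := by
            linarith only [h123]
          exact_mod_cast this
        · intro h6
          have k6 : ip (theta F (_root_.Cfsg.Agent.H87.MargCount.comp n [2, 2, n - 4])) (t2 F n) = 6 := T.e24_2 h6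
          rw [k5, k6] at h24
          have : (nOrb (stabilizer (_root_.Matrix.SpecialLinearGroup (Fin n) F) x) (Fl F (Vec F n) ![2, 4]) : ℝ) = 4 := by
            linarith only [h24]
          exact_mod_cast this
      · right; left
        push Not at hall
        obtain ⟨a, ha, hne⟩ := hall
        obtain ⟨z, hz⟩ := Uni.dvd_degree (by omega) y hyy hint hyo a ha hne
        refine ⟨by omega, card_modEq_of (C := z) hAm hBm ?_⟩
        have h1 : y 1 = Nat.card X - 1 - ((B : ℝ) - A) := by
          rw [hy]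
          simp only [Pi.sub_apply, vx, vo, v1, v2]
        rw [h1] at hz
        have h2 : (Nat.card X : ℝ) = (Fintype.card F : ℝ) * z + 1 + ((B : ℝ) - A) := by linarith only [hz]
        exact_mod_cast h2
  · rcases hs with hs | hs | hs
    · exfalso
      have hN1' : N1 = 2 := by omega
      have hN2' : N2 = 1 := by omega
      have h1 : ip (xx - o F n - (t1 F n - o F n) + (t2 F n - t1 F n))
          (xx - o F n - (t1 F n - o F n) + (t2 F n - t1 F n)) = 0 := by
        simp only [ip_sub_left, ip_sub_right, ip_add_left, ip_add_right, xxx, xo, ox, x1, x1', x2, x2', o1, o2, o1',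
          o2', oo, T.e1_1, T.e2_1, T.e2_2, e1_2, hN1', hN2']
        norm_num
      have h2 := congrFun (ip_self_eq_zero h1) 1
      simp only [Pi.sub_apply, Pi.add_apply, vx, vo, v1, v2, Pi.zero_apply] at h2
      have h3 : (Nat.card X : ℝ) + B = 2 * A := by linarith only [h2]
      have h4 : Nat.card X + B = 2 * A := by exact_mod_cast h3
      have h5 := two_t1_le (F := F) hn
      rw [← hA, ← hB] at h5
      omega
    · have hN1' : N1 = 2 := by omega
      have hN2' : N2 = 2 := by omega
      have ht : (N12 : ℤ) ≤ 4 := by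
        have h1 : ((N12 : ℤ) - 3) ^ 2 ≤ 1 := by
          have e : ((N12 : ℤ) - N1 - N2 + 1) = (N12 : ℤ) - 3 := by omega
          rw [← e]
          have e2 : ((N1 : ℤ) - 1) ^ 2 = 1 := by rw [hr]; norm_num
          have e3 := sq_nonneg ((N2 : ℤ) - N1)
          linarith only [bessZ, e2, e3]
        have h2 := (abs_le.1 (((sq_le_one_iff_abs_le_one _).1 h1 :))).2
        omega
      rcases Nat.lt_or_ge N12 4 with h4 | h4
      · right; right; left
        exact ⟨hN1', hN2', by omega⟩
      · right; left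
        have hN12' : N12 = 4 := by omega
        have h1 : ip (xx - o F n - (t1 F n - o F n) - (t12 F n - t1 F n - t2 F n + o F n))
            (xx - o F n - (t1 F n - o F n) - (t12 F n - t1 F n - t2 F n + o F n)) = 0 := by
          simp only [ip_sub_left, ip_sub_right, ip_add_left, ip_add_right, xxx, xo, ox, x1, x1', x2, x2', x12, x12',
            o1, o2, o12, o1', o2', o12', oo, T.e1_1, T.e2_1, T.e2_2, T.e12_1, T.e12_2, T.e12_12, e1_2, e1_12, e2_12,
            hN1', hN2', hN12']
          norm_num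
        have h2 := congrFun (ip_self_eq_zero h1) 1
        simp only [Pi.sub_apply, Pi.add_apply, vx, vo, v1, v2, v12, Pi.zero_apply] at h2
        refine ⟨by omega, card_modEq_of (C := 0) hBm hCm ?_⟩
        have h3 : (Nat.card X : ℝ) = 1 + ((Nat.card (Co F (_root_.Cfsg.Agent.H87.MargCount.comp n [1, 1, n - 2])) : ℝ) - B) := by linarith only [h2]
        have h4 : (Nat.card X : ℤ) = 1 + ((Nat.card (Co F (_root_.Cfsg.Agent.H87.MargCount.comp n [1, 1, n - 2])) : ℤ) - B) := by exact_mod_cast h3
        rw [h4]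
        ring
    · left
      have hN1' : N1 = 2 := by omega
      have hN2' : N2 = 3 := by omega
      have h1 : ip (xx - o F n - (t1 F n - o F n) - (t2 F n - t1 F n))
          (xx - o F n - (t1 F n - o F n) - (t2 F n - t1 F n)) = 0 := by
        simp only [ip_sub_left, ip_sub_right, xxx, xo, ox, x1, x1', x2, x2', o1, o2, o1', o2', oo, T.e1_1, T.e2_1,
          T.e2_2, e1_2, hN1', hN2']
        norm_num
      have h2 := congrFun (ip_self_eq_zero h1) 1
      simp only [Pi.sub_apply, vx, vo, v1, v2, Pi.zero_apply] at h2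
      have h3 : (Nat.card X : ℝ) = B := by linarith only [h2]
      exact_mod_cast h3

end main

end Cfsg.Agent.H87.Spectrum
end

-- part: H87/SylP
section
/-!
# Subgroups of `SL_n(q)` of index prime to `p`

`reducible` : a point stabiliser in a transitive action of degree prime to `p` is the whole group or leaves a proper
subspace invariant; `eq_top_of_spanning` : a subgroup containing the transvection groups of a spanning set of centres.
-/

set_option autoImplicit false
set_option linter.unusedSectionVars false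

namespace Cfsg.Agent.H87.SylP

open scoped MatrixGroups Pointwise
open Finset MulAction Matrix Module Cfsg.Agent.H87.FlagsGL Cfsg.Agent.H87.Flags

variable {F : Type*} [Field F] {n : ℕ}

theorem sl_ext {g h : _root_.Matrix.SpecialLinearGroup (Fin n) F} (e : ∀ v : Vec F n, g • v = h • v) : g = h := by
  apply Subtype.ext
  refine Matrix.ext_of_mulVec_single fun i => ?_
  have h1 := congrArg co (e (co.symm (Pi.single i 1)))
  rwa [co_smul', co_smul', LinearEquiv.apply_symm_apply] at h1

/-- the transvections with centre `y`. -/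
def Q (y : Vec F n) : Subgroup (_root_.Matrix.SpecialLinearGroup (Fin n) F) where
  carrier := {g | ∃ f : Vec F n →ₗ[F] F, f y = 0 ∧ ∀ v, g • v = v + f v • y}
  one_mem' := ⟨0, rfl, fun v => by simp⟩
  mul_mem' := by
    rintro g h ⟨f, hf, eg⟩ ⟨f', hf', eh⟩
    refine ⟨f + f', by simp [hf, hf'], fun v => ?_⟩
    rw [mul_smul, eh, eg, map_add, map_smul, hf, smul_zero, add_zero, LinearMap.add_apply, add_smul]
    abel
  inv_mem' := by
    rintro g ⟨f, hf, eg⟩
    refine ⟨-f, by simp [hf], fun v => ?_⟩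
    rw [inv_smul_eq_iff, eg, map_add, map_smul, hf, smul_zero, add_zero, LinearMap.neg_apply, neg_smul]
    abel

theorem pow_smul_eq {y : Vec F n} {g : _root_.Matrix.SpecialLinearGroup (Fin n) F} {f : Vec F n →ₗ[F] F} (hf : f y = 0)
    (h : ∀ v, g • v = v + f v • y) (k : ℕ) (v : Vec F n) : g ^ k • v = v + ((k : F) * f v) • y := by
  induction k with
  | zero => simp only [_root_.pow_zero, _root_.one_smul, _root_.Nat.cast_zero, _root_.MulZeroClass.zero_mul, _root_.zero_smul, _root_.add_zero]
  | succ k ih =>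
    rw [pow_succ', mul_smul, ih, h, map_add, map_smul, hf]
    push_cast
    rw [smul_zero, add_zero, add_mul, one_mul, add_smul]
    abel

theorem isPGroup_Q {p : ℕ} [Fact p.Prime] [CharP F p] (y : Vec F n) : IsPGroup p (Q y) := by
  rintro ⟨g, f, hf, hg⟩
  refine ⟨1, Subtype.ext (sl_ext fun v => ?_)⟩
  rw [pow_one]
  change g ^ p • v = (1 : _root_.Matrix.SpecialLinearGroup (Fin n) F) • v
  rw [pow_smul_eq hf hg, CharP.cast_eq_zero, zero_mul, zero_smul, add_zero, one_smul]

theorem conj_mem_Q {y : Vec F n} {g k : _root_.Matrix.SpecialLinearGroup (Fin n) F} (h : g ∈ Q (k • y)) : k⁻¹ * g * k ∈ Q y := by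
  obtain ⟨f, hf, hg⟩ := h
  refine ⟨f ∘ₗ (DistribSMul.toLinearMap F (Vec F n) k), hf, fun v => ?_⟩
  rw [mul_smul, mul_smul, hg, smul_add, inv_smul_smul, smul_comm, inv_smul_smul]
  rfl

/-- a subgroup containing the transvections with a spanning set of centres is everything. -/
theorem eq_top_of_spanning (K : Subgroup (_root_.Matrix.SpecialLinearGroup (Fin n) F))
    (h : Submodule.span F {y : Vec F n | Q y ≤ K} = ⊤) : K = ⊤ := by
  classical
  -- a basis of centres
  let b0 := Basis.ofSpan (K := F) (s := {y : Vec F n | Q y ≤ K}) h.ge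
  have : Fintype (↑((linearIndepOn_empty F (id : Vec F n → Vec F n)).extend (Set.empty_subset {y : Vec F n | Q y ≤ K}))) :=
    FiniteDimensional.fintypeBasisIndex b0
  let e : _ ≃ Fin n := Fintype.equivFinOfCardEq (by
    rw [← finrank_eq_card_basis b0, finrank_vec])
  let b : Basis (Fin n) F (Vec F n) := b0.reindex e
  have hb : ∀ i, Q (b i) ≤ K := by
    intro i
    have h1 : b i ∈ {y : Vec F n | Q y ≤ K} := by
      apply Basis.ofSpan_subset h.ge
      rw [Basis.reindex_apply]
      exact Set.mem_range_self _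
    exact h1
  -- the matrix of the basis
  obtain ⟨P, hP⟩ := exists_gl ((co (F := F) (n := n)) ≪≫ₗ (Basis.equivFun b).symm)
  have hPe : ∀ v : Vec F n, P • v = ∑ i, (co v i) • b i := by
    intro v
    rw [hP]
    change (Basis.equivFun b).symm (co v) = _
    rw [Basis.equivFun_symm_apply]
  -- conjugating
  have hdet : ∀ T : _root_.Matrix.SpecialLinearGroup (Fin n) F,
      ((P * (SpecialLinearGroup.toGL T) * P⁻¹ : GL (Fin n) F) : Matrix (Fin n) (Fin n) F).det = 1 := by
    intro T
    rw [← GeneralLinearGroup.val_det_apply, map_mul, map_mul, map_inv, mul_inv_cancel_comm,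
      GeneralLinearGroup.val_det_apply]
    exact T.2
  have hdet' : ∀ T : _root_.Matrix.SpecialLinearGroup (Fin n) F,
      ((P⁻¹ * (SpecialLinearGroup.toGL T) * P : GL (Fin n) F) : Matrix (Fin n) (Fin n) F).det = 1 := by
    intro T
    have h1 : GeneralLinearGroup.det (P⁻¹ * (SpecialLinearGroup.toGL T) * P) =
        GeneralLinearGroup.det (SpecialLinearGroup.toGL T) := by
      rw [map_mul, map_mul, map_inv, mul_comm (GeneralLinearGroup.det P)⁻¹, inv_mul_cancel_right]
    rw [← GeneralLinearGroup.val_det_apply, h1, GeneralLinearGroup.val_det_apply]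
    exact T.2
  let cj : _root_.Matrix.SpecialLinearGroup (Fin n) F →* _root_.Matrix.SpecialLinearGroup (Fin n) F :=
    { toFun := fun T => ⟨((P * (SpecialLinearGroup.toGL T) * P⁻¹ : GL (Fin n) F) : Matrix (Fin n) (Fin n) F), hdet T⟩
      map_one' := by
        apply Subtype.ext
        change ((P * (SpecialLinearGroup.toGL 1) * P⁻¹ : GL (Fin n) F) : Matrix (Fin n) (Fin n) F) = 1
        rw [map_one, mul_one, mul_inv_cancel, Units.val_one]
      map_mul' := by
        intro S T
        apply Subtype.ext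
        change ((P * (SpecialLinearGroup.toGL (S * T)) * P⁻¹ : GL (Fin n) F) : Matrix (Fin n) (Fin n) F) =
          ((P * (SpecialLinearGroup.toGL S) * P⁻¹ : GL (Fin n) F) : Matrix (Fin n) (Fin n) F) *
          ((P * (SpecialLinearGroup.toGL T) * P⁻¹ : GL (Fin n) F) : Matrix (Fin n) (Fin n) F)
        rw [← Units.val_mul, map_mul]
        congr 1
        group }
  have hcjGL : ∀ T, (SpecialLinearGroup.toGL (cj T) : GL (Fin n) F) = P * (SpecialLinearGroup.toGL T) * P⁻¹ := by
    intro T
    apply Units.ext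
    rfl
  have h1 : K.comap cj = ⊤ := by
    rw [eq_top_iff, ← LieClassical.SLGen.closure_transvections, Subgroup.closure_le]
    rintro _ ⟨i, j, hij, c, rfl⟩
    change cj _ ∈ K
    apply hb i
    refine ⟨c • (b.coord j), ?_, fun v => ?_⟩
    · rw [LinearMap.smul_apply, Basis.coord_apply, Basis.repr_self, Finsupp.single_eq_of_ne (Ne.symm hij), smul_zero]
    · rw [sl_smul_eq, hcjGL, mul_smul, mul_smul]
      have h2 : ∀ w : Vec F n, (SpecialLinearGroup.toGL (SpecialLinearGroup.transvection hij c) : GL (Fin n) F) • w =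
          w + (c * co w j) • (co.symm (Pi.single i 1) : Vec F n) := by
        intro w
        apply co_injective
        rw [co_smul, map_add, map_smul, LinearEquiv.apply_symm_apply]
        have h3 := LieClassical.SLGen.transvection_smul hij c (co w)
        exact h3
      rw [h2, smul_add, smul_inv_smul, smul_comm]
      congr 1
      have h3 : P • (co.symm (Pi.single i 1) : Vec F n) = b i := by
        rw [hPe, LinearEquiv.apply_symm_apply, sum_eq_single i]
        · rw [Pi.single_eq_same, one_smul]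
        · intro k _ hk
          rw [Pi.single_eq_of_ne hk, zero_smul]
        · intro hk
          exact absurd (mem_univ i) hk
      rw [h3]
      congr 1
      rw [LinearMap.smul_apply, Basis.coord_apply, smul_eq_mul]
      congr 1
      have h4 : v = ∑ k, (co (P⁻¹ • v) k) • b k := by
        rw [← hPe, smul_inv_smul]
      conv_rhs => rw [h4]
      rw [Basis.repr_sum_self]
  rw [eq_top_iff]
  intro g _
  let g' : _root_.Matrix.SpecialLinearGroup (Fin n) F :=
    ⟨((P⁻¹ * (SpecialLinearGroup.toGL g) * P : GL (Fin n) F) : Matrix (Fin n) (Fin n) F), hdet' g⟩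
  have h2 : g' ∈ K.comap cj := by
    rw [h1]
    exact Subgroup.mem_top _
  have h3 : cj g' = g := by
    apply Subtype.ext
    have h4 : (SpecialLinearGroup.toGL g' : GL (Fin n) F) = P⁻¹ * (SpecialLinearGroup.toGL g) * P := Units.ext rfl
    change ((P * (SpecialLinearGroup.toGL g') * P⁻¹ : GL (Fin n) F) : Matrix (Fin n) (Fin n) F) = _
    rw [h4]
    have h5 : P * (P⁻¹ * (SpecialLinearGroup.toGL g) * P) * P⁻¹ = (SpecialLinearGroup.toGL g : GL (Fin n) F) := by
      group
    rw [h5]
    rfl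
  rw [← h3]
  exact h2

/-- **Point stabilisers in transitive actions of degree `1` modulo `q`.** -/
theorem reducible [Fintype F] (hn : 2 ≤ n) {X : Type*} [MulAction (_root_.Matrix.SpecialLinearGroup (Fin n) F) X] [Finite X]
    [IsPretransitive (_root_.Matrix.SpecialLinearGroup (Fin n) F) X] (x : X) (hX : Nat.card X ≡ 1 [MOD Fintype.card F]) :
    stabilizer (_root_.Matrix.SpecialLinearGroup (Fin n) F) x = ⊤ ∨
      ∃ U : Submodule F (Vec F n), U ≠ ⊥ ∧ U ≠ ⊤ ∧
        ∀ h ∈ stabilizer (_root_.Matrix.SpecialLinearGroup (Fin n) F) x, h • U = U := by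
  classical
  set K := stabilizer (_root_.Matrix.SpecialLinearGroup (Fin n) F) x with hK
  obtain ⟨p, hp⟩ := CharP.exists F
  have hpp : p.Prime := CharP.char_is_prime F p
  have : Fact p.Prime := ⟨hpp⟩
  have hpX : ¬ p ∣ Nat.card X := by
    intro h
    have h1 : p ∣ Fintype.card F := by
      obtain ⟨k, _, hk⟩ := FiniteField.card F p
      rw [hk]
      exact dvd_pow_self p k.2.ne'
    have h2 : Nat.card X ≡ 1 [MOD p] := hX.of_dvd h1
    have h3 := (h2.symm.trans ((Nat.modEq_zero_iff_dvd).2 h))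
    have h4 := (Nat.modEq_zero_iff_dvd).1 h3
    exact hpp.one_lt.ne' (Nat.dvd_one.1 h4)
  have hne : ∃ y : Vec F n, y ≠ 0 := by
    have : Nontrivial (Vec F n) := by
      apply nontrivial_of_finrank_pos (R := F)
      rw [finrank_vec]
      omega
    exact exists_ne 0
  obtain ⟨y, hy⟩ := hne
  obtain ⟨x', hx'⟩ := (isPGroup_Q (F := F) (n := n) (p := p) y).nonempty_fixed_point_of_prime_not_dvd_card X hpX
  obtain ⟨g, hg⟩ := exists_smul_eq (_root_.Matrix.SpecialLinearGroup (Fin n) F) x x'
  have hQ : Q (g⁻¹ • y) ≤ K := by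
    intro h hh
    have h1 : g * h * g⁻¹ ∈ Q y := by
      have := conj_mem_Q (k := g⁻¹) hh
      rwa [inv_inv] at this
    have h2 := hx' ⟨_, h1⟩
    change (g * h * g⁻¹) • x' = x' at h2
    rw [← hg, mul_smul, mul_smul, inv_smul_smul, smul_left_cancel_iff] at h2
    exact h2
  set W := Submodule.span F {y : Vec F n | Q y ≤ K} with hW
  by_cases hWtop : W = ⊤
  · left
    exact eq_top_of_spanning K hWtop
  · right
    refine ⟨W, ?_, hWtop, ?_⟩
    · intro h
      have h1 : g⁻¹ • y ∈ W := Submodule.subset_span hQ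
      rw [h, Submodule.mem_bot, smul_eq_zero_iff_eq] at h1
      exact hy h1
    · have key : ∀ h ∈ K, W ≤ h • W := by
        intro h hh
        rw [hW, Submodule.span_le]
        intro z hz
        change z ∈ h • W
        rw [mem_smul_iff]
        apply Submodule.subset_span
        intro k hk
        have h1 : h * k * h⁻¹ ∈ Q z := by
          have := conj_mem_Q (k := h⁻¹) hk
          rwa [inv_inv] at this
        have h2 := hz h1
        have h3 := K.mul_mem (K.mul_mem (K.inv_mem hh) h2) hh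
        rwa [show h⁻¹ * (h * k * h⁻¹) * h = k by group] at h3
      intro h hh
      exact (Submodule.eq_of_le_of_finrank_eq (key h hh) (Flags.finrank_smul h W).symm).symm

end Cfsg.Agent.H87.SylP
end

-- part: H87/Red
section
/-!
# Rank 3 actions of `SL_n(q)` with a reducible point stabiliser

`red` : if the point stabiliser is maximal and leaves a proper subspace invariant, the degree is the number of lines.
-/

set_option autoImplicit false
set_option linter.unusedSectionVars false

namespace Cfsg.Agent.H87.Red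

open scoped MatrixGroups Pointwise
open Finset MulAction Matrix Module Cfsg.Agent.H87.Orb Cfsg.Agent.H87.SLInner Cfsg.Agent.H87.Flags
open Cfsg.Agent.H139.BlockCount Cfsg.Agent.H87.FlagsGL Cfsg.Agent.H87.MargCount Cfsg.Agent.H87.Types
open Cfsg.Agent.H87.Spectrum Cfsg.Agent.H87.Cov

theorem pc_eq_of_stabilizer {G X Y : Type*} [Group G] [MulAction G X] [MulAction G Y] [IsPretransitive G X]
    [IsPretransitive G Y] (x : X) (y : Y) (h : stabilizer G x = stabilizer G y) : pc G X = pc G Y := by
  classical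
  have h1 : ∀ x' : X, ∃ g : G, g • x = x' := fun x' => exists_smul_eq G x x'
  choose f hf using h1
  have h2 : ∀ g g' : G, g • x = g' • x ↔ g • y = g' • y := by
    intro g g'
    have e1 : g • x = g' • x ↔ g'⁻¹ * g ∈ stabilizer G x := by
      rw [mem_stabilizer_iff, mul_smul, inv_smul_eq_iff]
    have e2 : g • y = g' • y ↔ g'⁻¹ * g ∈ stabilizer G y := by
      rw [mem_stabilizer_iff, mul_smul, inv_smul_eq_iff]
    rw [e1, e2, h]
  have h3 : ∀ g : G, f (g • x) • y = g • y := fun g => (h2 _ _).1 (hf (g • x))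
  refine pc_congr (Equiv.ofBijective (fun x' => f x' • y) ⟨?_, ?_⟩) ?_
  · intro a b hab
    rw [← hf a, ← hf b]
    exact (h2 _ _).2 hab
  · intro y'
    obtain ⟨g, rfl⟩ := exists_smul_eq G y y'
    exact ⟨g • x, h3 g⟩
  · intro g x'
    change f (g • x') • y = g • f x' • y
    rw [← mul_smul]
    apply (h2 _ _).1
    rw [hf, mul_smul, hf]

variable {F : Type*} [Field F] {n : ℕ} [Fintype F] [Fintype (_root_.Matrix.SpecialLinearGroup (Fin n) F)]

theorem mm (hn : 4 ≤ n) {m : ℕ} (hm : m ≤ n) : Matches (_root_.Cfsg.Agent.H87.MargCount.comp n [m, 0, n - m]) ![m] := by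
  apply matches_of hn _ (by simp) (by simp only [_root_.List.sum_cons, _root_.List.sum_nil, _root_.add_zero, _root_.zero_add]; omega)
  · intro i j _; fin_cases i; fin_cases j; rfl
  · intro i; fin_cases i; simpa using hm
  · intro j hj; interval_cases j <;> simp only [_root_.List.take_zero, _root_.List.sum_nil, _root_.Nat.succ_eq_add_one, _root_.Nat.reduceAdd, _root_.Matrix.cons_val_fin_one, _root_.exists_const, _root_.true_or, _root_.List.take_succ_cons, _root_.List.sum_cons, _root_.add_zero, _root_.or_true, _root_.List.take_nil, _root_.zero_add, _root_.Nat.add_eq_zero_iff, _root_.Nat.left_eq_add] <;> omega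
  · intro i; fin_cases i; exact ⟨1, by omega, by simp⟩

theorem sl_fl_transitive (hn : 4 ≤ n) {k : ℕ} {d : Fin k → ℕ} {a : Fin n → ℕ} (M : Matches a d) (W W' : Fl F (Vec F n) d) :
    ∃ g : _root_.Matrix.SpecialLinearGroup (Fin n) F, g • W = W' := by
  obtain ⟨y, hy⟩ := (coMap_bijective (F := F) M).2 W
  obtain ⟨y', hy'⟩ := (coMap_bijective (F := F) M).2 W'
  obtain ⟨g, hg⟩ := sl_transitive (by omega) a y y'
  refine ⟨g, ?_⟩
  rw [← hy, ← hy', ← hg]
  exact (coMap_smul M _ y).symm

theorem theta_swap (hn : 4 ≤ n) : theta F (_root_.Cfsg.Agent.H87.MargCount.comp n [n - 1, 0, 1]) = t1 F n := by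
  have h1 := Uni.theta_comp (F := F) (n := n) (by omega) (m1 (by omega)).sum (Equiv.swap ⟨0, by omega⟩ ⟨2, by omega⟩)
  rw [t1, ← h1]
  congr 1
  funext i
  rw [Function.comp_apply]
  by_cases h0 : i = ⟨0, by omega⟩
  · rw [h0, Equiv.swap_apply_left]
    rfl
  · by_cases h2 : i = ⟨2, by omega⟩
    · rw [h2, Equiv.swap_apply_right]
      rfl
    · rw [Equiv.swap_apply_of_ne_of_ne h0 h2]
      have h0' : i.val ≠ 0 := fun h => h0 (Fin.ext h)
      have h2' : i.val ≠ 2 := fun h => h2 (Fin.ext h)
      by_cases h3 : 3 ≤ i.val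
      · rw [comp_big _ _ _ h3, comp_big _ _ _ h3]
      · have h4 : i = ⟨1, by omega⟩ := Fin.ext (by
          change i.val = 1
          omega)
        rw [h4]
        rfl

variable {X : Type*} [MulAction (_root_.Matrix.SpecialLinearGroup (Fin n) F) X] [Finite X]
  [IsPretransitive (_root_.Matrix.SpecialLinearGroup (Fin n) F) X]

theorem red (hn : 5 ≤ n) (x : X) (h3 : nOrb (stabilizer (_root_.Matrix.SpecialLinearGroup (Fin n) F) x) X = 3)
    (hmax : IsCoatom (stabilizer (_root_.Matrix.SpecialLinearGroup (Fin n) F) x)) {U : Submodule F (Vec F n)} (hU0 : U ≠ ⊥)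
    (hU1 : U ≠ ⊤) (hU : ∀ h ∈ stabilizer (_root_.Matrix.SpecialLinearGroup (Fin n) F) x, h • U = U) :
    Nat.card X = Nat.card (Co F (_root_.Cfsg.Agent.H87.MargCount.comp n [2, 0, n - 2])) := by
  classical
  have hmpos : 0 < finrank F U := by
    rw [Nat.pos_iff_ne_zero]
    intro h
    exact hU0 (Submodule.finrank_eq_zero.1 h)
  have hmlt : finrank F U < n := by
    have := Submodule.finrank_lt hU1
    rwa [finrank_vec] at this
  have hV : finrank F (Vec F n) = n := finrank_vec
  by_cases hm : 2 ≤ finrank F U ∧ finrank F U + 2 ≤ n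
  · -- three orbits on lines
    have hN2 : 3 ≤ nOrb (stabilizer (_root_.Matrix.SpecialLinearGroup (Fin n) F) x) (Fl F (Vec F n) ![2]) := by
      have h4 := card_le_nOrb (G := stabilizer (_root_.Matrix.SpecialLinearGroup (Fin n) F) x) (Y := Fl F (Vec F n) ![2])
        (fun W => finrank F ↥(W.1 0 ⊓ U)) (by
          rintro ⟨g, hg⟩ W
          have e1 : ((⟨g, hg⟩ : stabilizer (_root_.Matrix.SpecialLinearGroup (Fin n) F) x) • W).1 0 = g • W.1 0 := rfl
          change finrank F ↥(((⟨g, hg⟩ : stabilizer (_root_.Matrix.SpecialLinearGroup (Fin n) F) x) • W).1 0 ⊓ U) = _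
          rw [e1]
          conv_lhs => rw [← hU g hg, ← act_inf, Flags.finrank_smul]) {0, 1, 2} ?_
      · exact h4
      · intro t ht
        -- a line meeting `U` in dimension `t`
        obtain ⟨A, hA1, hA3, hA2⟩ := exists_finrank_between (bot_le : ⊥ ≤ U) t (by
          rw [finrank_bot]
          simp only [mem_insert, mem_singleton] at ht
          omega)
        rw [finrank_bot, zero_add] at hA2
        -- `B ≥ U` of dimension `m + 2 - t`, then a complement
        have ht2 : t ≤ 2 := by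
          simp only [mem_insert, mem_singleton] at ht
          omega
        obtain ⟨C, hC⟩ := Submodule.exists_isCompl U
        have hCf : finrank F C = n - finrank F U := by
          have := Submodule.finrank_add_eq_of_isCompl hC
          omega
        obtain ⟨B, hB1, hB3, hB2⟩ := exists_finrank_between (bot_le : ⊥ ≤ C) (2 - t) (by
          rw [finrank_bot]
          omega)
        rw [finrank_bot, zero_add] at hB2
        have hAB : A ⊓ B = ⊥ := by
          rw [eq_bot_iff, ← hC.inf_eq_bot]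
          exact inf_le_inf hA3 hB3
        have hf := Submodule.finrank_sup_add_finrank_inf_eq A B
        rw [hAB, finrank_bot, hA2, hB2] at hf
        refine ⟨Geo3.ln (A ⊔ B) (by omega), ?_⟩
        change finrank F ↥((A ⊔ B) ⊓ U) = t
        have h5 : (A ⊔ B) ⊓ U = A := by
          rw [sup_inf_assoc_of_le B hA3]
          have : B ⊓ U = ⊥ := by
            rw [eq_bot_iff, ← hC.inf_eq_bot, inf_comm]
            exact inf_le_inf_left _ hB3
          rw [this, sup_bot_eq]
        rw [h5, hA2]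
    rcases _root_.Cfsg.Agent.H87.Spectrum.spectrum hn x h3 with h | ⟨h, _⟩ | ⟨_, h, _⟩ | ⟨_, h, _⟩ | ⟨_, h⟩
    · exact h
    all_goals omega
  · exfalso
    -- the stabiliser of `U`
    set m := finrank F U with hmdef
    let W0 : Fl F (Vec F n) ![m] := ⟨fun _ => U, fun _ _ _ => le_rfl, fun i => by fin_cases i; rfl⟩
    have M := mm (n := n) (by omega) hmlt.le
    have : IsPretransitive (_root_.Matrix.SpecialLinearGroup (Fin n) F) (Fl F (Vec F n) ![m]) :=
      ⟨sl_fl_transitive (by omega) M⟩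
    have hle : stabilizer (_root_.Matrix.SpecialLinearGroup (Fin n) F) x ≤ stabilizer (_root_.Matrix.SpecialLinearGroup (Fin n) F) W0 := by
      intro g hg
      rw [mem_stabilizer_iff]
      apply Subtype.ext
      funext i
      exact hU g hg
    have hne : stabilizer (_root_.Matrix.SpecialLinearGroup (Fin n) F) W0 ≠ ⊤ := by
      intro htop
      -- another subspace of the same dimension
      obtain ⟨v, hv⟩ : ∃ v, v ∉ U := by
        by_contra hcon
        push Not at hcon
        exact hU1 (eq_top_iff.2 fun v _ => hcon v)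
      obtain ⟨B, hB1, hB2⟩ := exists_finrank (Submodule.span F {v}) (m - 1) (by
        rw [finrank_span_singleton (fun h => hv (by rw [h]; exact zero_mem _)), hV]
        omega)
      rw [finrank_span_singleton (fun h => hv (by rw [h]; exact zero_mem _))] at hB2
      let W1 : Fl F (Vec F n) ![m] := ⟨fun _ => B, fun _ _ _ => le_rfl, fun i => by
        fin_cases i
        change finrank F B = m
        omega⟩
      obtain ⟨g, hg⟩ := sl_fl_transitive (by omega) M W0 W1
      have h5 : g • W0 = W0 := by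
        rw [← mem_stabilizer_iff, htop]
        exact Subgroup.mem_top _
      rw [h5] at hg
      have h6 : U = B := congrArg (fun W => W.1 0) hg
      apply hv
      rw [h6]
      exact hB1 (Submodule.mem_span_singleton_self v)
    have heq : stabilizer (_root_.Matrix.SpecialLinearGroup (Fin n) F) x = stabilizer (_root_.Matrix.SpecialLinearGroup (Fin n) F) W0 := by
      by_contra hcon
      exact hne (hmax.2 _ (lt_of_le_of_ne hle hcon))
    have hpc := pc_eq_of_stabilizer x W0 heq
    rw [← theta_eq M] at hpc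
    have hpc' : pc (_root_.Matrix.SpecialLinearGroup (Fin n) F) X = t1 F n := by
      have hm' : m = 1 ∨ m = n - 1 := by omega
      rcases hm' with h | h
      · rw [hpc, h]
        rfl
      · rw [hpc, h, show n - (n - 1) = 1 by omega, theta_swap (by omega)]
    have h5 : ip (pc (_root_.Matrix.SpecialLinearGroup (Fin n) F) X) (pc (_root_.Matrix.SpecialLinearGroup (Fin n) F) X) = 3 := by
      rw [ip_pc, card_orbits_prod x, h3]
      norm_num
    rw [hpc', (table hn).e1_1] at h5
    norm_num at h5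

end Cfsg.Agent.H87.Red
end

private theorem dce_de61ca1a9dea : _root_.True := by
  try have : _root_.True := by simp only [_root_.Cfsg.Agent.H87.MargCount.S2.eq_1]
  try have : _root_.True := by simp only [_root_.Cfsg.Agent.H87.Uni.lk.eq_1]
  try have : _root_.True := by simp only [_root_.Cfsg.Agent.H87.Types.t13.eq_1]
  try have : _root_.True := by simp only [_root_.Cfsg.Agent.H87.MargCount.S11.eq_1]
  try have : _root_.True := by simp only [_root_.Cfsg.Agent.H87.Types.t1.eq_1]
  try have : _root_.True := by simp only [_root_.Cfsg.Agent.H87.Types.t123.eq_1]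
  try have : _root_.True := by simp only [_root_.Cfsg.Agent.H87.Uni.chi.eq_1]
  try have : _root_.True := by simp only [_root_.Cfsg.Agent.H87.Spectrum.fac.eq_1]
  try have : _root_.True := by simp only [_root_.Cfsg.Agent.H87.MargCount.comp.eq_1]
  try have : _root_.True := by simp only [_root_.Cfsg.Agent.H87.Types.t2.eq_1]
  try have : _root_.True := by simp only [_root_.Cfsg.Agent.H87.MargCount.S1.eq_1]
  try have : _root_.True := by simp only [_root_.Cfsg.Agent.H87.Spectrum.qi.eq_1]
  try have : _root_.True := by simp only [_root_.Cfsg.Agent.H87.MargCount.fill.eq_1]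
  try have : _root_.True := by simp only [_root_.Cfsg.Agent.H87.Types.t12.eq_1]
  try have : _root_.True := by simp only [_root_.Cfsg.Agent.H87.Types.t24.eq_1]
  exact _root_.True.intro
end

-- part: H87/Geo5e
section
prune_inst 0x12050100122000000040090430002c4550001900000800021e40f460800c200c00208000ca00408002a9080080400481000002000000000000004000000010008a81204b01c0c00000006000004000000000000000000000000000000000004000000000
set_option linter.all false
open scoped Cfsg.Agent.FastGrp

-- part: H87/Geo5a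
section
/-!
# Point-transitive linear groups with two orbits on lines: the subspaces `U x`

`step3` : if there are three orbits on incident point-plane pairs and at most four orbits on point-line-plane flags,
then for one of the two classes of lines, the union of the lines of the class through a point is a subspace.
-/

set_option autoImplicit false
set_option linter.unusedSectionVars false

namespace Cfsg.Agent.H87.Geo5

open Finset Submodule Module MulAction
open Cfsg.Agent.H87.Cov Cfsg.Agent.H87.LemS Cfsg.Agent.H87.Flags Cfsg.Agent.H87.Orb Cfsg.Agent.H87.Geo3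
open scoped Pointwise

variable {F V : Type*} [Field F] [Fintype F] [AddCommGroup V] [Module F V] [Fintype V]
variable {H : Type*} [Group H] [DistribMulAction H V] [SMulCommClass H F V]

variable (H) in
/-- an invariant proper class of lines. -/
structure LL (L : Submodule F V → Prop) : Prop where
  fr : ∀ B : Submodule F V, L B → finrank F B = 2
  inv : ∀ (h : H) (B : Submodule F V), L B → L (h • B)
  ex : ∃ B : Submodule F V, L B
  ex' : ∃ B : Submodule F V, finrank F B = 2 ∧ ¬ L B

/-- the complementary class. -/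
def Lc (L : Submodule F V → Prop) : Submodule F V → Prop := fun B => finrank F B = 2 ∧ ¬ L B

theorem LL.inv_iff {L : Submodule F V → Prop} (hL : LL H L) (h : H) (B : Submodule F V) : L (h • B) ↔ L B := by
  refine ⟨fun hh => ?_, hL.inv h B⟩
  have := hL.inv h⁻¹ _ hh
  rwa [inv_smul_smul] at this

theorem LL.compl {L : Submodule F V → Prop} (hL : LL H L) : LL H (Lc L) where
  fr := fun _ h => h.1
  inv := by
    rintro h B ⟨h1, h2⟩
    exact ⟨by rw [Flags.finrank_smul, h1], fun h3 => h2 ((hL.inv_iff h B).1 h3)⟩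
  ex := hL.ex'
  ex' := by
    obtain ⟨B, hB⟩ := hL.ex
    exact ⟨B, hL.fr B hB, fun h => h.2 hB⟩

open Classical in
/-- the number of lines of the class between `P` and `B`. -/
noncomputable def nl (L : Submodule F V → Prop) (P B : Submodule F V) : ℕ := ((cov P B).filter fun C => L C).card

/-- the set of points. -/
def DL (L : Submodule F V → Prop) (P : Submodule F V) (v : V) : Prop := L (P ⊔ span F {v})

theorem inv_DL (L : Submodule F V → Prop) (P : Submodule F V) : _root_.Cfsg.Agent.H87.LemS.Inv P (DL L P) := by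
  intro v w _ _ e h
  unfold DL at h ⊢
  rwa [← e]

theorem cn_DL (L : Submodule F V → Prop) {P B : Submodule F V} (hPB : P ≤ B) :
    cn (DL L P) P B = nl L P B * u P := by
  classical
  rw [cn_eq_sum _ hPB, nl, card_filter, sum_mul]
  apply sum_congr rfl
  intro C hC
  obtain ⟨v, _, hv, rfl⟩ := mem_cov.1 hC
  by_cases hD : L (P ⊔ span F {v})
  · rw [cn_point (inv_DL L P) hv hD, if_pos hD, one_mul]
  · rw [cn_point' (inv_DL L P) hv hD, if_neg hD, zero_mul]

theorem cov_smul (h : H) (A B : Submodule F V) (C : Submodule F V) : h • C ∈ cov (h • A) (h • B) ↔ C ∈ cov A B := by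
  rw [mem_cov, mem_cov]
  constructor
  · rintro ⟨v, hv1, hv2, e⟩
    refine ⟨h⁻¹ • v, mem_smul_iff.1 hv1, fun hh => hv2 (mem_smul_iff.2 hh), ?_⟩
    have h1 : h • (A ⊔ span F {h⁻¹ • v}) = h • C := by
      rw [act_sup, act_span, smul_inv_smul, e]
    exact smul_left_cancel h h1
  · rintro ⟨v, hv1, hv2, rfl⟩
    refine ⟨h • v, smul_mem_smul.2 hv1, fun hh => hv2 (smul_mem_smul.1 hh), ?_⟩
    rw [act_sup, act_span]

theorem nl_smul {L : Submodule F V → Prop} (hL : LL H L) (h : H) (P B : Submodule F V) :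
    nl L (h • P) (h • B) = nl L P B := by
  classical
  symm
  refine card_bij (fun C _ => h • C) ?_ ?_ ?_
  · intro C hC
    rw [mem_filter] at hC ⊢
    exact ⟨(cov_smul h P B C).2 hC.1, hL.inv h C hC.2⟩
  · intro C _ C' _ e
    exact smul_left_cancel h e
  · intro C hC
    rw [mem_filter] at hC
    refine ⟨h⁻¹ • C, ?_, smul_inv_smul h C⟩
    rw [mem_filter]
    constructor
    · rw [← cov_smul h, smul_inv_smul]
      exact hC.1
    · exact hL.inv h⁻¹ C hC.2

/-- a flag of type `(1, 3)`. -/
def fl13 (A B : Submodule F V) (hA : finrank F A = 1) (hB : finrank F B = 3) (h : A ≤ B) : Fl F V ![1, 3] :=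
  ⟨![A, B], by
    intro i j hij
    fin_cases i <;> fin_cases j
    · exact le_rfl
    · exact h
    · exact absurd hij (by decide)
    · exact le_rfl, fun i => by
    fin_cases i
    · exact hA
    · exact hB⟩

/-- a flag of type `(1, 2, 3)`. -/
def fl123 (A B C : Submodule F V) (hA : finrank F A = 1) (hB : finrank F B = 2) (hC : finrank F C = 3) (h : A ≤ B)
    (h' : B ≤ C) : Fl F V ![1, 2, 3] :=
  ⟨![A, B, C], by
    intro i j hij
    fin_cases i <;> fin_cases j
    · exact le_rfl
    · exact h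
    · exact h.trans h'
    · exact absurd hij (by decide)
    · exact le_rfl
    · exact h'
    · exact absurd hij (by decide)
    · exact absurd hij (by decide)
    · exact le_rfl, fun i => by
    fin_cases i
    · exact hA
    · exact hB
    · exact hC⟩

/-- forgetting the line. -/
def p13 (W : Fl F V ![1, 2, 3]) : Fl F V ![1, 3] :=
  fl13 (W.1 0) (W.1 2) (W.2.2 0) (W.2.2 2) (W.2.1 (by decide))

theorem ext13 {W W' : Fl F V ![1, 3]} (h0 : W.1 0 = W'.1 0) (h1 : W.1 1 = W'.1 1) : W = W' := by
  apply Subtype.ext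
  funext i
  fin_cases i
  · exact h0
  · exact h1

theorem smul_p13 (h : H) (W : Fl F V ![1, 2, 3]) : h • p13 W = p13 (h • W) := ext13 rfl rfl

theorem p13_fl123 (A B C : Submodule F V) (hA : finrank F A = 1) (hB : finrank F B = 2) (hC : finrank F C = 3)
    (h : A ≤ B) (h' : B ≤ C) : p13 (fl123 A B C hA hB hC h h') = fl13 A C hA hC (h.trans h') := ext13 rfl rfl

theorem third : ∀ t t' : Fin 3, ¬ t = t' → ∃ t'' : Fin 3, t'' ≠ t ∧ t'' ≠ t' := by decide

/-- **At most one intersection number besides `0` and `q + 1`.** -/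
theorem exists_m {L : Submodule F V → Prop} (hL : LL H L) (h13 : nOrb H (Fl F V ![1, 3]) = 3)
    (h123 : nOrb H (Fl F V ![1, 2, 3]) ≤ 4) :
    ∃ m, 1 ≤ m ∧ m ≤ Fintype.card F ∧ ∀ P B : Submodule F V, finrank F P = 1 → finrank F B = 3 → P ≤ B →
      nl L P B = 0 ∨ nl L P B = m ∨ nl L P B = Fintype.card F + 1 := by
  classical
  obtain ⟨c, hs, hc⟩ := exists_class h13
  -- the invariant
  let f : Fl F V ![1, 2, 3] → Fin 3 × ℕ := fun W => (c (p13 W), if L (W.1 1) then 1 else 0)
  have hf : ∀ (g : H) W, f (g • W) = f W := by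
    intro g W
    apply Prod.ext
    · change c (p13 (g • W)) = c (p13 W)
      exact (hc _ _).2 ⟨g, smul_p13 g W⟩
    · exact if_congr (hL.inv_iff g (W.1 1)) rfl rfl
  have hval : ∀ (A B C : Submodule F V) (hA : finrank F A = 1) (hB : finrank F B = 2) (hC : finrank F C = 3)
      (h : A ≤ B) (h' : B ≤ C), f (fl123 A B C hA hB hC h h') =
        (c (fl13 A C hA hC (h.trans h')), if L B then 1 else 0) := by
    intro A B C hA hB hC h h'
    apply Prod.ext
    · change c (p13 (fl123 A B C hA hB hC h h')) = _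
      rw [p13_fl123]
    · rfl
  -- flags that are neither empty nor full
  have hmix : ∀ P B : Submodule F V, ∀ (hP : finrank F P = 1) (hB : finrank F B = 3) (hPB : P ≤ B),
      nl L P B ≠ 0 → nl L P B ≠ Fintype.card F + 1 →
      (∃ W, f W = (c (fl13 P B hP hB hPB), 1)) ∧ ∃ W, f W = (c (fl13 P B hP hB hPB), 0) := by
    intro P B hP hB hPB h0 h1
    constructor
    · obtain ⟨C, hC⟩ := card_pos.1 (Nat.pos_of_ne_zero h0)
      rw [mem_filter] at hC
      have hC2 : finrank F C = 2 := by rw [finrank_of_mem_cov hC.1, hP]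
      refine ⟨fl123 P C B hP hC2 hB (le_of_mem_cov hC.1) (le_of_mem_cov' hPB hC.1), ?_⟩
      rw [hval, if_pos hC.2]
    · obtain ⟨C, hC, hC'⟩ : ∃ C ∈ cov P B, ¬ L C := by
        by_contra hcon
        push Not at hcon
        apply h1
        rw [nl, filter_true_of_mem hcon, card_cov_two hPB (by rw [hB, hP])]
      have hC2 : finrank F C = 2 := by rw [finrank_of_mem_cov hC, hP]
      refine ⟨fl123 P C B hP hC2 hB (le_of_mem_cov hC) (le_of_mem_cov' hPB hC), ?_⟩
      rw [hval, if_neg hC']
  -- every class is attained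
  have hatt : ∀ t : Fin 3, ∃ e : ℕ, ∃ W, f W = (t, e) := by
    intro t
    obtain ⟨W, hW⟩ := hs t
    have h1 : finrank F ↥(W.1 0) = 1 := W.2.2 0
    have h3 : finrank F ↥(W.1 1) = 3 := W.2.2 1
    have hle : W.1 0 ≤ W.1 1 := W.2.1 (by decide)
    obtain ⟨C, hC1, hC2, hC3⟩ := exists_finrank_between hle 1 (by omega)
    have hC2' : finrank F C = 2 := by omega
    refine ⟨if L C then 1 else 0, fl123 (W.1 0) C (W.1 1) h1 hC2' h3 hC1 hC2, ?_⟩
    rw [hval, ← hW]
    congr 2
    exact ext13 rfl rfl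
  -- two mixed classes coincide
  have huniq : ∀ t t' : Fin 3, (∃ W, f W = (t, 1)) → (∃ W, f W = (t, 0)) → (∃ W, f W = (t', 1)) →
      (∃ W, f W = (t', 0)) → t = t' := by
    intro t t' a1 a2 a3 a4
    by_contra hne
    obtain ⟨t'', ht1, ht2⟩ := third t t' hne
    obtain ⟨e, a5⟩ := hatt t''
    have h5 := card_le_nOrb (G := H) f hf {(t, 1), (t, 0), (t', 1), (t', 0), (t'', e)} (by
      intro z hz
      simp only [mem_insert, mem_singleton] at hz
      rcases hz with rfl | rfl | rfl | rfl | rfl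
      · exact a1
      · exact a2
      · exact a3
      · exact a4
      · exact a5)
    rw [card_insert_of_notMem, card_insert_of_notMem, card_insert_of_notMem, card_insert_of_notMem,
      card_singleton] at h5
    · omega
    · simp only [mem_singleton, Prod.mk.injEq, not_and]
      intro h
      exact absurd h.symm ht2
    · simp only [mem_insert, mem_singleton, Prod.mk.injEq, not_or, not_and]
      exact ⟨fun _ => by omega, fun h => absurd h.symm ht2⟩
    · simp only [mem_insert, mem_singleton, Prod.mk.injEq, not_or, not_and]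
      exact ⟨fun h => absurd h hne, fun h => absurd h hne, fun h => absurd h.symm ht1⟩
    · simp only [mem_insert, mem_singleton, Prod.mk.injEq, not_or, not_and]
      exact ⟨fun _ => by omega, fun h => absurd h hne, fun h => absurd h hne, fun h => absurd h.symm ht1⟩
  by_cases hex : ∃ P B : Submodule F V, finrank F P = 1 ∧ finrank F B = 3 ∧ P ≤ B ∧ nl L P B ≠ 0 ∧
      nl L P B ≠ Fintype.card F + 1
  · obtain ⟨P, B, hP, hB, hPB, h0, h1⟩ := hex
    have hle : nl L P B ≤ Fintype.card F + 1 := by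
      rw [← card_cov_two hPB (by rw [hB, hP])]
      exact card_filter_le _ _
    refine ⟨nl L P B, by omega, by omega, ?_⟩
    intro P' B' hP' hB' hPB'
    by_cases h0' : nl L P' B' = 0
    · exact Or.inl h0'
    · by_cases h1' : nl L P' B' = Fintype.card F + 1
      · exact Or.inr (Or.inr h1')
      · right; left
        obtain ⟨a1, a2⟩ := hmix P B hP hB hPB h0 h1
        obtain ⟨a3, a4⟩ := hmix P' B' hP' hB' hPB' h0' h1'
        have h2 := huniq _ _ a3 a4 a1 a2
        obtain ⟨g, hg⟩ := (hc _ _).1 h2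
        have e0 : g • P = P' := congrArg (fun W => W.1 0) hg
        have e1 : g • B = B' := congrArg (fun W => W.1 1) hg
        rw [← e0, ← e1, nl_smul hL]
  · push Not at hex
    refine ⟨1, le_rfl, one_lt_q.le, ?_⟩
    intro P B hP hB hPB
    by_cases h0 : nl L P B = 0
    · exact Or.inl h0
    · exact Or.inr (Or.inr (hex P B hP hB hPB h0))

/-- there are lines of the class through every point. -/
theorem exists_line {L : Submodule F V → Prop} (hL : LL H L) (h1 : nOrb H (Fl F V ![1]) = 1) {x : V} (hx : x ≠ 0) :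
    ∃ v, v ∉ span F {x} ∧ L (span F {x} ⊔ span F {v}) := by
  obtain ⟨B, hB⟩ := hL.ex
  have hB2 := hL.fr B hB
  obtain ⟨y, hyB, hy⟩ : ∃ y ∈ B, y ≠ 0 := by
    have hne : B ≠ ⊥ := by
      rintro rfl
      rw [finrank_bot] at hB2
      omega
    obtain ⟨y, hy, hy'⟩ := exists_mem_ne_zero_of_ne_bot hne
    exact ⟨y, hy, hy'⟩
  obtain ⟨g, hg⟩ := pretransitive_of_nOrb h1 (pt (F := F) y hy) (pt x hx)
  have e : g • span F {y} = span F {x} := congrArg (fun W => W.1 0) hg
  have hle : span F {x} ≤ g • B := by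
    rw [← e, Flags.smul_le_smul, span_singleton_le_iff_mem]
    exact hyB
  have hgB := hL.inv g B hB
  have hgB2 : finrank F ↥(g • B) = 2 := hL.fr _ hgB
  obtain ⟨v, hv, hv'⟩ : ∃ v ∈ g • B, v ∉ span F {x} := by
    by_contra hcon
    push Not at hcon
    have h3 : g • B ≤ span F {x} := hcon
    have := finrank_mono h3
    rw [finrank_span_singleton hx] at this
    omega
  refine ⟨v, hv', ?_⟩
  have h3 : span F {x} ⊔ span F {v} = g • B := by
    apply eq_of_le_of_finrank_eq
    · exact sup_le hle ((span_singleton_le_iff_mem _ _).2 hv)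
    · rw [finrank_sup_span hv', finrank_span_singleton hx, hgB2]
  rw [h3]
  exact hgB

/-- **The lines of one of the classes through a point form a subspace.** -/
theorem step3 {L : Submodule F V → Prop} (hL : LL H L) (hdim : 5 ≤ finrank F V) (h1 : nOrb H (Fl F V ![1]) = 1)
    (h13 : nOrb H (Fl F V ![1, 3]) = 3) (h123 : nOrb H (Fl F V ![1, 2, 3]) ≤ 4) :
    ∃ L' : Submodule F V → Prop, LL H L' ∧ ∀ x : V, x ≠ 0 → ∃ U : Submodule F V,
      ∀ v, v ∈ U ↔ v ∈ span F {x} ∨ L' (span F {x} ⊔ span F {v}) := by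
  classical
  obtain ⟨m, hm1, hm2, hm⟩ := exists_m hL h13 h123
  -- lemma S
  have key : ∀ x : V, x ≠ 0 → (∃ U : Submodule F V, ∀ v, v ∈ U ↔ v ∈ span F {x} ∨ L (span F {x} ⊔ span F {v})) ∨
      (∃ U : Submodule F V, ∀ v, v ∈ U ↔ v ∈ span F {x} ∨ Lc L (span F {x} ⊔ span F {v})) := by
    intro x hx
    have hP := finrank_span_singleton (K := F) hx
    have hlines : Lines (span F {x}) (DL L (span F {x})) m := by
      intro B hPB hB
      rw [cn_DL L hPB]
      rcases hm (span F {x}) B hP (by rw [hB, hP]) hPB with h | h | h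
      · left; rw [h, zero_mul]
      · right; left; rw [h]
      · right; right; rw [h]
    obtain ⟨p, hp, hDp⟩ := exists_line hL h1 hx
    obtain ⟨r, hr, hDr⟩ := exists_line hL.compl h1 hx
    rcases lemS (inv_DL L (span F {x})) hm1 hm2 hlines (by rw [hP]; omega) ⟨p, hp, hDp⟩ ⟨r, hr, hDr.2⟩ with
      ⟨U, hU⟩ | ⟨U, hU⟩
    · left
      refine ⟨U, fun v => ?_⟩
      rw [hU]
      constructor
      · rintro (h | h)
        · exact Or.inl h
        · exact Or.inr h.1
      · rintro (h | h)
        · exact Or.inl h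
        · by_cases hv : v ∈ span F {x}
          · exact Or.inl hv
          · exact Or.inr ⟨h, hv⟩
    · right
      refine ⟨U, fun v => ?_⟩
      rw [hU]
      constructor
      · rintro (h | h)
        · exact Or.inl h
        · exact Or.inr ⟨by rw [finrank_sup_span h.2, hP], h.1⟩
      · rintro (h | h)
        · exact Or.inl h
        · by_cases hv : v ∈ span F {x}
          · exact Or.inl hv
          · exact Or.inr ⟨h.2, hv⟩
  -- the same alternative for all points
  have move : ∀ (L' : Submodule F V → Prop), LL H L' → (∃ x : V, x ≠ 0 ∧ ∃ U : Submodule F V, ∀ v, v ∈ U ↔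
      v ∈ span F {x} ∨ L' (span F {x} ⊔ span F {v})) → ∀ x : V, x ≠ 0 → ∃ U : Submodule F V,
      ∀ v, v ∈ U ↔ v ∈ span F {x} ∨ L' (span F {x} ⊔ span F {v}) := by
    rintro L' hL' ⟨x, hx, U, hU⟩ y hy
    obtain ⟨g, hg⟩ := pretransitive_of_nOrb h1 (pt (F := F) x hx) (pt y hy)
    have e : g • span F {x} = span F {y} := congrArg (fun W => W.1 0) hg
    refine ⟨g • U, fun v => ?_⟩
    rw [mem_smul_iff, hU, ← e, mem_smul_iff]
    have e2 : g • span F {x} ⊔ span F {v} = g • (span F {x} ⊔ span F {g⁻¹ • v}) := by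
      rw [act_sup, act_span, act_span, smul_inv_smul]
    rw [e2, hL'.inv_iff]
  obtain ⟨x, hx⟩ : ∃ x : V, x ≠ 0 := by
    have : Nontrivial V := nontrivial_of_finrank_pos (R := F) (by omega)
    exact exists_ne 0
  rcases key x hx with ⟨U, hU⟩ | ⟨U, hU⟩
  · exact ⟨L, hL, move L hL ⟨x, hx, U, hU⟩⟩
  · exact ⟨Lc L, hL.compl, move (Lc L) hL.compl ⟨x, hx, U, hU⟩⟩

end Cfsg.Agent.H87.Geo5
end

-- part: H87/Geo5b
section
/-!
# The subspaces `U x` : first properties
-/

set_option autoImplicit false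
set_option linter.unusedSectionVars false

namespace Cfsg.Agent.H87.Geo5

open Finset Submodule Module MulAction
open Cfsg.Agent.H87.Cov Cfsg.Agent.H87.LemS Cfsg.Agent.H87.Flags Cfsg.Agent.H87.Orb Cfsg.Agent.H87.Geo3
open scoped Pointwise

variable {F V : Type*} [Field F] [Fintype F] [AddCommGroup V] [Module F V] [Fintype V]
variable {H : Type*} [Group H] [DistribMulAction H V] [SMulCommClass H F V]

/-- the union of the lines of the class through a point. -/
def Up (L : Submodule F V → Prop) (P : Submodule F V) : Submodule F V := sSup {B | L B ∧ P ≤ B}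

/-- the union of the lines of the class through the point of a vector. -/
def U (L : Submodule F V → Prop) (x : V) : Submodule F V := Up L (span F {x})

theorem act_Up {L : Submodule F V → Prop} (hL : LL H L) (h : H) (P : Submodule F V) :
    h • Up L P = Up L (h • P) := by
  have key : ∀ (h : H) (P : Submodule F V), h • Up L P ≤ Up L (h • P) := by
    intro h P
    have h1 : Up L P ≤ h⁻¹ • Up L (h • P) := by
      apply sSup_le
      rintro B ⟨hB, hPB⟩
      have h2 : h • B ≤ Up L (h • P) := le_sSup ⟨hL.inv h B hB, Flags.smul_le_smul.2 hPB⟩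
      have h3 : h⁻¹ • (h • B) ≤ h⁻¹ • Up L (h • P) := Flags.smul_le_smul.2 h2
      rwa [inv_smul_smul] at h3
    have h4 := (Flags.smul_le_smul (h := h)).2 h1
    rwa [smul_inv_smul] at h4
  apply le_antisymm (key h P)
  have h1 := (Flags.smul_le_smul (h := h)).2 (key h⁻¹ (h • P))
  rwa [smul_inv_smul, inv_smul_smul] at h1

theorem act_U {L : Submodule F V → Prop} (hL : LL H L) (h : H) (x : V) : h • U L x = U L (h • x) := by
  rw [U, act_Up hL, act_span]
  rfl

variable (H) in
/-- the data. -/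
structure Dat (L : Submodule F V → Prop) (d : ℕ) : Prop where
  hL : LL H L
  tr : nOrb H (Fl F V ![1]) = 1
  mem : ∀ x : V, x ≠ 0 → ∀ v, v ∈ U L x ↔ v ∈ span F {x} ∨ L (span F {x} ⊔ span F {v})
  fr : ∀ x : V, x ≠ 0 → finrank F (U L x) = d

theorem exists_smul (h1 : nOrb H (Fl F V ![1]) = 1) {x y : V} (hx : x ≠ 0) (hy : y ≠ 0) :
    ∃ h : H, h • span F {x} = span F {y} := by
  obtain ⟨g, hg⟩ := pretransitive_of_nOrb h1 (pt (F := F) x hx) (pt y hy)
  exact ⟨g, congrArg (fun W => W.1 0) hg⟩

theorem exists_dat {L : Submodule F V → Prop} (hL : LL H L) (h1 : nOrb H (Fl F V ![1]) = 1)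
    (hU : ∀ x : V, x ≠ 0 → ∃ U : Submodule F V, ∀ v, v ∈ U ↔ v ∈ span F {x} ∨ L (span F {x} ⊔ span F {v})) :
    ∃ d, Dat H L d ∧ 2 ≤ d ∧ d + 1 ≤ finrank F V := by
  have hmem : ∀ x : V, x ≠ 0 → ∀ v, v ∈ U L x ↔ v ∈ span F {x} ∨ L (span F {x} ⊔ span F {v}) := by
    intro x hx v
    obtain ⟨W, hW⟩ := hU x hx
    have e : U L x = W := by
      apply le_antisymm
      · apply sSup_le
        rintro B ⟨hB, hPB⟩ v hv
        rw [hW]
        by_cases hvx : v ∈ span F {x}
        · exact Or.inl hvx
        · right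
          have h2 : span F {x} ⊔ span F {v} = B := by
            apply eq_of_le_of_finrank_eq
            · exact sup_le hPB ((span_singleton_le_iff_mem _ _).2 hv)
            · rw [finrank_sup_span hvx, finrank_span_singleton hx, hL.fr B hB]
          rw [h2]
          exact hB
      · intro v hv
        rw [hW] at hv
        rcases hv with hv | hv
        · obtain ⟨p, _, hp⟩ := exists_line hL h1 hx
          have h2 : span F {x} ⊔ span F {p} ≤ U L x := le_sSup ⟨hp, le_sup_left⟩
          exact h2 (mem_sup_left hv)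
        · have h2 : span F {x} ⊔ span F {v} ≤ U L x := le_sSup ⟨hv, le_sup_left⟩
          exact h2 (mem_sup_right (mem_span_singleton_self v))
    rw [e, hW]
  obtain ⟨x, hx⟩ : ∃ x : V, x ≠ 0 := by
    obtain ⟨B, hB⟩ := hL.ex
    have hB2 := hL.fr B hB
    have hne : B ≠ ⊥ := by
      rintro rfl
      rw [finrank_bot] at hB2
      omega
    obtain ⟨y, _, hy'⟩ := exists_mem_ne_zero_of_ne_bot hne
    exact ⟨y, hy'⟩
  refine ⟨finrank F (U L x), ⟨hL, h1, hmem, ?_⟩, ?_, ?_⟩
  · intro y hy
    obtain ⟨g, hg⟩ := exists_smul h1 hx hy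
    have e : U L y = g • U L x := by
      rw [U, U, act_Up hL, hg]
    rw [e, Flags.finrank_smul]
  · obtain ⟨p, hp, hp'⟩ := exists_line hL h1 hx
    have h2 : span F {x} ⊔ span F {p} ≤ U L x := le_sSup ⟨hp', le_sup_left⟩
    have h3 := finrank_mono h2
    rwa [finrank_sup_span hp, finrank_span_singleton hx] at h3
  · obtain ⟨p, hp, hp'⟩ := exists_line hL.compl h1 hx
    have h2 : U L x < ⊤ := by
      rw [lt_top_iff_ne_top]
      intro h
      have : p ∈ U L x := by rw [h]; exact mem_top
      rw [hmem x hx] at this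
      rcases this with h | h
      · exact hp h
      · exact hp'.2 h
    have h3 := finrank_lt_finrank_of_lt h2
    rw [finrank_top] at h3
    omega

section
variable {L : Submodule F V → Prop} {d : ℕ} (D : Dat H L d)
include D

theorem Dat.self_mem {x : V} (hx : x ≠ 0) : x ∈ U L x :=
  (D.mem x hx x).2 (Or.inl (mem_span_singleton_self x))

omit D [Fintype F] [Fintype V] in
theorem mem_span_comm {x y : V} (hy : y ≠ 0) (h : y ∈ span F {x}) : x ∈ span F {y} := by
  obtain ⟨c, rfl⟩ := mem_span_singleton.1 h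
  have hc : c ≠ 0 := by
    rintro rfl
    exact hy (zero_smul _ _)
  refine mem_span_singleton.2 ⟨c⁻¹, ?_⟩
  rw [smul_smul, inv_mul_cancel₀ hc, one_smul]

theorem Dat.symm {x y : V} (hx : x ≠ 0) (hy : y ≠ 0) (h : y ∈ U L x) : x ∈ U L y := by
  rw [D.mem x hx] at h
  rw [D.mem y hy]
  rcases h with h | h
  · exact Or.inl (mem_span_comm hy h)
  · right
    rwa [sup_comm]

theorem Dat.line {x v : V} (hx : x ≠ 0) (h : v ∈ U L x) (hv : v ∉ span F {x}) : L (span F {x} ⊔ span F {v}) := by
  rw [D.mem x hx] at h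
  exact h.resolve_left hv

omit D in
theorem le_U {B : Submodule F V} (hB : L B) {x : V} (hx : x ∈ B) : B ≤ U L x :=
  le_sSup ⟨hB, (span_singleton_le_iff_mem _ _).2 hx⟩

omit D in
theorem U_congr {x y : V} (h : span F {x} = span F {y}) : U L x = U L y := by
  rw [U, U, h]

omit D [Fintype F] [Fintype V] in
theorem span_eq_of_mem {x y : V} (hy : y ≠ 0) (h : y ∈ span F {x}) : span F {y} = span F {x} := by
  apply le_antisymm
  · rwa [span_singleton_le_iff_mem]
  · rw [span_singleton_le_iff_mem]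
    obtain ⟨c, rfl⟩ := mem_span_singleton.1 h
    have hc : c ≠ 0 := by
      rintro rfl
      exact hy (zero_smul _ _)
    refine mem_span_singleton.2 ⟨c⁻¹, ?_⟩
    rw [smul_smul, inv_mul_cancel₀ hc, one_smul]

/-- a line is in the class if and only if it is in `U x` for one of its vectors. -/
theorem Dat.line_iff {B : Submodule F V} (hB : finrank F B = 2) {x : V} (hx : x ≠ 0) (hxB : x ∈ B) : L B ↔ B ≤ U L x := by
  refine ⟨fun h => le_U h hxB, fun h => ?_⟩
  obtain ⟨v, hv, hv'⟩ : ∃ v ∈ B, v ∉ span F {x} := by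
    by_contra hcon
    push Not at hcon
    have h3 : B ≤ span F {x} := hcon
    have := finrank_mono h3
    rw [finrank_span_singleton hx] at this
    omega
  have h2 : span F {x} ⊔ span F {v} = B := by
    apply eq_of_le_of_finrank_eq
    · exact sup_le ((span_singleton_le_iff_mem _ _).2 hxB) ((span_singleton_le_iff_mem _ _).2 hv)
    · rw [finrank_sup_span hv', finrank_span_singleton hx, hB]
  rw [← h2]
  exact D.line hx (h hv) hv'

end

/-- two subspaces with too large dimensions meet. -/
theorem exists_inf {A B C : Submodule F V} (hA : A ≤ C) (hB : B ≤ C) (h : finrank F C < finrank F A + finrank F B) :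
    ∃ z, z ≠ 0 ∧ z ∈ A ∧ z ∈ B := by
  have h1 := finrank_sup_add_finrank_inf_eq A B
  have h2 := finrank_mono (sup_le hA hB)
  have h3 : A ⊓ B ≠ ⊥ := by
    intro h3
    rw [h3, finrank_bot] at h1
    omega
  obtain ⟨z, hz, hz'⟩ := exists_mem_ne_zero_of_ne_bot h3
  exact ⟨z, hz', hz.1, hz.2⟩

/-- a double count. -/
theorem dc {α β : Type*} (s : Finset α) (t : Finset β) (r : α → β → Prop) [∀ a b, Decidable (r a b)] (c : ℕ)
    (h1 : ∀ a ∈ s, ∃! b, b ∈ t ∧ r a b) (h2 : ∀ b ∈ t, (s.filter fun a => r a b).card = c) : s.card = t.card * c := by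
  have h3 : #s * 1 = #t * c := by
    apply card_mul_eq_card_mul r
    · intro a ha
      obtain ⟨b, hb, hb'⟩ := h1 a ha
      rw [card_eq_one]
      refine ⟨b, ?_⟩
      ext b'
      rw [mem_bipartiteAbove, mem_singleton]
      constructor
      · exact fun h => hb' b' h
      · rintro rfl
        exact hb
    · intro b hb
      exact h2 b hb
  rwa [mul_one] at h3

/-- the points of a line. -/
theorem mem_points {B P : Submodule F V} : P ∈ cov ⊥ B ↔ ∃ x ∈ B, x ≠ 0 ∧ span F {x} = P := by
  rw [mem_cov]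
  simp only [mem_bot, bot_sup_eq]

theorem card_points {B : Submodule F V} (hB : finrank F B = 2) : (cov (⊥ : Submodule F V) B).card = Fintype.card F + 1 := by
  apply card_cov_two bot_le
  rw [hB, finrank_bot]

end Cfsg.Agent.H87.Geo5
end

-- part: H87/Geo5c
section
/-!
# The subspaces `U x` have dimension 2 or `n - 1`
-/

set_option autoImplicit false
set_option linter.unusedSectionVars false

namespace Cfsg.Agent.H87.Geo5

open Finset Submodule Module MulAction
open Cfsg.Agent.H87.Cov Cfsg.Agent.H87.LemS Cfsg.Agent.H87.Flags Cfsg.Agent.H87.Orb Cfsg.Agent.H87.Geo3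
open scoped Pointwise

variable {F V : Type*} [Field F] [Fintype F] [AddCommGroup V] [Module F V] [Fintype V]
variable {H : Type*} [Group H] [DistribMulAction H V] [SMulCommClass H F V]

/-- `E` has a point of type `t`. -/
def has (L : Submodule F V → Prop) (E : Submodule F V) (t : ℕ) : Prop := ∃ y ∈ E, y ≠ 0 ∧ finrank F ↥(E ⊓ U L y) = t

section
variable {L : Submodule F V → Prop} {d : ℕ} (D : Dat H L d)
include D

theorem Dat.has_smul {E : Submodule F V} {t : ℕ} (h : has L E t) (g : H) : has L (g • E) t := by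
  obtain ⟨y, hy, hy0, ht⟩ := h
  refine ⟨g • y, Flags.smul_mem_smul.2 hy, ?_, ?_⟩
  · rwa [Ne, smul_eq_zero_iff_eq]
  · rw [← act_U D.hL, ← act_inf, Flags.finrank_smul, ht]

theorem Dat.types (h1 : 3 ≤ d) (h2 : d + 2 ≤ finrank F V) {x : V} (hx : x ≠ 0) (t : ℕ) (ht1 : 1 ≤ t) (ht3 : t ≤ 3) :
    ∃ E : Submodule F V, finrank F E = 3 ∧ x ∈ E ∧ finrank F ↥(E ⊓ U L x) = t := by
  have hxU := D.self_mem hx
  have hfr := D.fr x hx
  have hxs : span F {x} ≤ U L x := (span_singleton_le_iff_mem _ _).2 hxU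
  -- a subspace of `U x` of dimension `t`, and a complement
  obtain ⟨A, hA1, hA2, hA3⟩ := exists_finrank_between hxs (t - 1) (by rw [finrank_span_singleton hx]; omega)
  rw [finrank_span_singleton hx] at hA3
  have hA : finrank F A = t := by omega
  -- adding vectors outside
  have key : ∀ j, d + j ≤ finrank F V → ∃ E : Submodule F V, finrank F E = t + j ∧ A ≤ E ∧
      finrank F ↥(E ⊔ U L x) = d + j := by
    intro j
    induction j with
    | zero =>
      intro _
      refine ⟨A, by rw [hA]; rfl, le_rfl, ?_⟩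
      rw [sup_eq_right.2 hA2, hfr]; rfl
    | succ j ih =>
      intro hj
      obtain ⟨E, hE1, hE2, hE3⟩ := ih (by omega)
      obtain ⟨v, hv⟩ : ∃ v, v ∉ E ⊔ U L x := by
        by_contra hcon
        push Not at hcon
        have : E ⊔ U L x = ⊤ := by
          rw [eq_top_iff]
          intro v _
          exact hcon v
        rw [this, finrank_top] at hE3
        omega
      refine ⟨E ⊔ span F {v}, ?_, hE2.trans le_sup_left, ?_⟩
      · rw [finrank_sup_span (fun h => hv (mem_sup_left h)), hE1]; ring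
      · rw [sup_right_comm, finrank_sup_span hv, hE3]; ring
  obtain ⟨E, hE1, hE2, hE3⟩ := key (3 - t) (by omega)
  refine ⟨E, by omega, hE2 (hA1 (mem_span_singleton_self x)), ?_⟩
  have h4 := finrank_sup_add_finrank_inf_eq E (U L x)
  rw [hE3, hfr, hE1] at h4
  omega

/-- the type of a point in a plane. -/
theorem Dat.type_le {E : Submodule F V} (hE : finrank F E = 3) {y : V} (hy : y ≠ 0) (hyE : y ∈ E) :
    1 ≤ finrank F ↥(E ⊓ U L y) ∧ finrank F ↥(E ⊓ U L y) ≤ 3 := by
  constructor
  · have : span F {y} ≤ E ⊓ U L y := by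
      rw [span_singleton_le_iff_mem]
      exact ⟨hyE, D.self_mem hy⟩
    have h := finrank_mono this
    rwa [finrank_span_singleton hy] at h
  · rw [← hE]
    exact finrank_mono inf_le_left

theorem Dat.trans13 (h13 : nOrb H (Fl F V ![1, 3]) = 3) (h1 : 3 ≤ d) (h2 : d + 2 ≤ finrank F V) {E E' : Submodule F V}
    (hE : finrank F E = 3) (hE' : finrank F E' = 3) {t t' : ℕ} (h : has L E t) (h' : has L E' t) (ht' : has L E t') :
    has L E' t' := by
  classical
  obtain ⟨x, hxE, hx, hxt⟩ := h
  obtain ⟨x', hxE', hx', hxt'⟩ := h'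
  let f : Fl F V ![1, 3] → ℕ := fun W => finrank F ↥(W.1 1 ⊓ Up L (W.1 0))
  have hf : ∀ (g : H) W, f (g • W) = f W := by
    intro g W
    change finrank F ↥(g • W.1 1 ⊓ Up L (g • W.1 0)) = _
    rw [← act_Up D.hL, ← act_inf, Flags.finrank_smul]
  have hval : ∀ (E : Submodule F V) (hE : finrank F E = 3) (x : V) (hx : x ≠ 0) (hxE : x ∈ E),
      f (fl13 (span F {x}) E (finrank_span_singleton hx) hE ((span_singleton_le_iff_mem _ _).2 hxE)) =
        finrank F ↥(E ⊓ U L x) := fun _ _ _ _ _ => rfl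
  obtain ⟨g, hg⟩ := orbit_of_invariant (G := H) f hf {1, 2, 3} (by
      intro t ht
      have ht1 : 1 ≤ t ∧ t ≤ 3 := by
        simp only [mem_insert, mem_singleton] at ht
        omega
      obtain ⟨E, hE1, hE2, hE3⟩ := D.types h1 h2 hx t ht1.1 ht1.2
      exact ⟨fl13 (span F {x}) E (finrank_span_singleton hx) hE1 ((span_singleton_le_iff_mem _ _).2 hE2), hE3⟩)
    (by rw [h13]; rfl)
    (y := fl13 (span F {x}) E (finrank_span_singleton hx) hE ((span_singleton_le_iff_mem _ _).2 hxE))
    (y' := fl13 (span F {x'}) E' (finrank_span_singleton hx') hE' ((span_singleton_le_iff_mem _ _).2 hxE'))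
    (((hval E hE x hx hxE).trans (hxt.trans hxt'.symm)).trans (hval E' hE' x' hx' hxE').symm)
  have e : g • E = E' := congrArg (fun W => W.1 1) hg
  rw [← e]
  exact D.has_smul ht' g

/-- types 1 and 3 do not coexist. -/
theorem Dat.no13 {E : Submodule F V} (hE : finrank F E = 3) (h1 : has L E 1) (h3 : has L E 3) : False := by
  obtain ⟨x, hxE, hx, hxt⟩ := h1
  obtain ⟨y, hyE, hy, hyt⟩ := h3
  have h2 : E ≤ U L y := by
    have : E ⊓ U L y = E := eq_of_le_of_finrank_eq inf_le_left (by rw [hyt, hE])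
    rw [← this]
    exact inf_le_right
  have h4 := D.symm hy hx (h2 hxE)
  by_cases h5 : y ∈ span F {x}
  · rw [← U_congr (L := L) (span_eq_of_mem hy h5)] at hxt
    omega
  · have h6 : span F {x} ⊔ span F {y} ≤ E ⊓ U L x := by
      refine sup_le ?_ ?_
      · rw [span_singleton_le_iff_mem]
        exact ⟨hxE, D.self_mem hx⟩
      · rw [span_singleton_le_iff_mem]
        exact ⟨hyE, h4⟩
    have h7 := finrank_mono h6
    rw [finrank_sup_span h5, finrank_span_singleton hx, hxt] at h7
    omega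

theorem Dat.exists_not2 {E : Submodule F V} (hE : finrank F E = 3) : has L E 1 ∨ has L E 3 := by
  by_contra hcon
  rw [not_or] at hcon
  have h2 : ∀ y ∈ E, y ≠ 0 → finrank F ↥(E ⊓ U L y) = 2 := by
    intro y hy hy0
    have h3 := D.type_le hE hy0 hy
    have h4 : finrank F ↥(E ⊓ U L y) ≠ 1 := fun h => hcon.1 ⟨y, hy, hy0, h⟩
    have h5 : finrank F ↥(E ⊓ U L y) ≠ 3 := fun h => hcon.2 ⟨y, hy, hy0, h⟩
    omega
  have hne : E ≠ ⊥ := by
    rintro rfl
    rw [finrank_bot] at hE
    omega
  obtain ⟨y, hyE, hy⟩ := exists_mem_ne_zero_of_ne_bot hne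
  have hy2 := h2 y hyE hy
  obtain ⟨z, hzE, hz⟩ : ∃ z ∈ E, z ∉ E ⊓ U L y := by
    by_contra hcon
    push Not at hcon
    have h3 : E ≤ E ⊓ U L y := hcon
    have := finrank_mono h3
    omega
  have hz0 : z ≠ 0 := by
    rintro rfl
    exact hz (zero_mem _)
  have hz2 := h2 z hzE hz0
  obtain ⟨w, hw0, hwy, hwz⟩ := exists_inf (A := E ⊓ U L y) (B := E ⊓ U L z) inf_le_left inf_le_left (by omega)
  have hwE : w ∈ E := hwy.1
  have h3 : y ∈ U L w := D.symm hy hw0 hwy.2
  have h4 : z ∈ U L w := D.symm hz0 hw0 hwz.2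
  have h5 : w ∉ span F {y} := by
    intro h
    apply hz
    refine ⟨hzE, ?_⟩
    rw [← U_congr (L := L) (span_eq_of_mem hw0 h)]
    exact h4
  have h6 : span F {y} ⊔ span F {w} = E ⊓ U L y := by
    apply eq_of_le_of_finrank_eq
    · refine sup_le ?_ ?_
      · rw [span_singleton_le_iff_mem]
        exact ⟨hyE, D.self_mem hy⟩
      · rw [span_singleton_le_iff_mem]
        exact hwy
    · rw [finrank_sup_span h5, finrank_span_singleton hy, hy2]
  have h7 : span F {y} ⊔ span F {w} ⊔ span F {z} ≤ E ⊓ U L w := by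
    refine sup_le (sup_le ?_ ?_) ?_
    · rw [span_singleton_le_iff_mem]
      exact ⟨hyE, h3⟩
    · rw [span_singleton_le_iff_mem]
      exact ⟨hwE, D.self_mem hw0⟩
    · rw [span_singleton_le_iff_mem]
      exact ⟨hzE, h4⟩
  have h8 := finrank_mono h7
  rw [finrank_sup_span (by rw [h6]; exact hz), h6, hy2, h2 w hwE hw0] at h8
  omega

omit D in
theorem arith1 {q n d : ℕ} (hq : 2 ≤ q) (hn : 5 ≤ n) (hd : 3 ≤ d) (s c : ℕ) (hs : s + q ^ 2 = q ^ n)
    (hc : c + q ^ 2 = q ^ (d + 1)) (h : s = (q + 1) * c) : False := by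
  obtain ⟨k, rfl⟩ : ∃ k, n = k + 5 := ⟨n - 5, by omega⟩
  obtain ⟨l, rfl⟩ : ∃ l, d = l + 3 := ⟨d - 3, by omega⟩
  have h1 : q ^ (k + 5) + q ^ 3 = (q + 1) * q ^ (l + 3 + 1) := by
    rw [← hs, ← hc, h]
    ring
  have h2 : q ^ 3 * (q ^ (k + 2) + 1) = q ^ 3 * ((q + 1) * q ^ (l + 1)) := by
    have e1 : q ^ 3 * (q ^ (k + 2) + 1) = q ^ (k + 5) + q ^ 3 := by ring
    rw [e1, h1]
    ring
  have h3 := Nat.eq_of_mul_eq_mul_left (by positivity) h2
  have h4 : q ∣ 1 := by
    have h5 : q ∣ q ^ (k + 2) := dvd_pow_self q (by omega)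
    have h6 : q ∣ (q + 1) * q ^ (l + 1) := Dvd.dvd.mul_left (dvd_pow_self q (by omega)) _
    rw [← h3] at h6
    exact (Nat.dvd_add_right h5).1 h6
  have := Nat.le_of_dvd one_pos h4
  omega

omit D in
theorem arith2 {q n d : ℕ} (hq : 2 ≤ q) (hn : 5 ≤ n) (hd : 3 ≤ d) (s c : ℕ) (hs : s + q ^ 2 = q ^ n)
    (hc : c + q ^ 2 = q ^ d) (h : s = (q + 1) * c) : False := by
  obtain ⟨k, rfl⟩ : ∃ k, n = k + 5 := ⟨n - 5, by omega⟩
  obtain ⟨l, rfl⟩ : ∃ l, d = l + 3 := ⟨d - 3, by omega⟩
  have h1 : q ^ (k + 5) + q ^ 3 = (q + 1) * q ^ (l + 3) := by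
    rw [← hs, ← hc, h]
    ring
  have h2 : q ^ 3 * (q ^ (k + 2) + 1) = q ^ 3 * ((q + 1) * q ^ l) := by
    have e1 : q ^ 3 * (q ^ (k + 2) + 1) = q ^ (k + 5) + q ^ 3 := by ring
    rw [e1, h1]
    ring
  have h3 := Nat.eq_of_mul_eq_mul_left (by positivity) h2
  rcases Nat.eq_zero_or_pos l with rfl | hl
  · rw [pow_zero, mul_one] at h3
    have h4 : q ^ (k + 2) = q := by omega
    have h5 : q ^ 1 < q ^ (k + 2) := Nat.pow_lt_pow_right (by omega) (by omega)
    rw [pow_one, h4] at h5
    omega
  · have h4 : q ∣ 1 := by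
      have h5 : q ∣ q ^ (k + 2) := dvd_pow_self q (by omega)
      have h6 : q ∣ (q + 1) * q ^ l := Dvd.dvd.mul_left (dvd_pow_self q (by omega)) _
      rw [← h3] at h6
      exact (Nat.dvd_add_right h5).1 h6
    have := Nat.le_of_dvd one_pos h4
    omega

omit D in
theorem card_compl {B C : Submodule F V} (hBC : B ≤ C) (hB : finrank F B = 2) [DecidablePred fun v : V => v ∉ B]
    [DecidablePred fun v : V => v ∈ C] :
    ((univ.filter fun v : V => v ∉ B).filter fun v => v ∈ C).card + Fintype.card F ^ 2 =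
      Fintype.card F ^ finrank F C := by
  classical
  rw [← cn_true hBC, cn, hB]
  congr 2
  ext v
  simp only [mem_filter, mem_univ, true_and, and_true]
  exact and_comm

omit D in
theorem card_compl' {B : Submodule F V} (hB : finrank F B = 2) [DecidablePred fun v : V => v ∉ B] :
    (univ.filter fun v : V => v ∉ B).card + Fintype.card F ^ 2 = Fintype.card F ^ finrank F V := by
  classical
  rw [← finrank_top F V, ← cn_true (le_top : B ≤ ⊤), cn, hB]
  congr 2
  ext v
  simp only [mem_filter, mem_univ, true_and, and_true, mem_top]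

omit D [Fintype F] [Fintype V] in
theorem ne_bot_of {B : Submodule F V} {k : ℕ} (hB : finrank F B = k + 1) : B ≠ ⊥ := by
  rintro rfl
  rw [finrank_bot] at hB
  omega

omit D in
theorem line_eq {B : Submodule F V} (hB : finrank F B = 2) {x x' : V} (hx : x ∈ B) (hx' : x' ∈ B) (hx0 : x ≠ 0)
    (h : x' ∉ span F {x}) : span F {x} ⊔ span F {x'} = B := by
  apply eq_of_le_of_finrank_eq
  · exact sup_le ((span_singleton_le_iff_mem _ _).2 hx) ((span_singleton_le_iff_mem _ _).2 hx')
  · rw [finrank_sup_span h, finrank_span_singleton hx0, hB]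

set_option maxHeartbeats 1000000 in
theorem Dat.opt1 (hn : 5 ≤ finrank F V) (h1 : 3 ≤ d) (h2 : ∀ E : Submodule F V, finrank F E = 3 →
    (has L E 1 ↔ has L E 2)) : False := by
  classical
  obtain ⟨B, hB2, hBL⟩ := D.hL.ex'
  have hBx : ∀ x ∈ B, x ≠ 0 → ¬ B ≤ U L x := fun x hx hx0 h => hBL ((D.line_iff hB2 hx0 hx).2 h)
  -- dimension of B ⊔ U x
  have hdim : ∀ x ∈ B, x ≠ 0 → finrank F ↥(B ⊔ U L x) = d + 1 := by
    intro x hx hx0
    have h4 := finrank_sup_add_finrank_inf_eq B (U L x)
    rw [hB2, D.fr x hx0] at h4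
    have h5 : finrank F ↥(B ⊓ U L x) < 2 := by
      rw [← hB2]
      apply finrank_lt_finrank_of_lt
      refine lt_of_le_of_ne inf_le_left fun h => hBx x hx hx0 ?_
      rw [← h]
      exact inf_le_right
    have h6 : 1 ≤ finrank F ↥(B ⊓ U L x) := by
      have : span F {x} ≤ B ⊓ U L x := by
        rw [span_singleton_le_iff_mem]
        exact ⟨hx, D.self_mem hx0⟩
      have h := finrank_mono this
      rwa [finrank_span_singleton hx0] at h
    omega
  -- types of the points of `B` in a plane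
  have htype : ∀ v, v ∉ B → ∀ x ∈ B, x ≠ 0 → finrank F ↥((B ⊔ span F {v}) ⊓ U L x) = 1 ∨
      finrank F ↥((B ⊔ span F {v}) ⊓ U L x) = 2 := by
    intro v hv x hx hx0
    have hE : finrank F ↥(B ⊔ span F {v}) = 3 := by rw [finrank_sup_span hv, hB2]
    have h4 := D.type_le hE hx0 (mem_sup_left hx)
    have h5 : finrank F ↥((B ⊔ span F {v}) ⊓ U L x) ≠ 3 := by
      intro h
      have h6 : (B ⊔ span F {v}) ⊓ U L x = B ⊔ span F {v} := eq_of_le_of_finrank_eq inf_le_left (by rw [h, hE])
      apply hBx x hx hx0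
      exact (le_sup_left.trans h6.ge).trans inf_le_right
    omega
  have hplane : ∀ v, v ∉ B → finrank F ↥(B ⊔ span F {v}) = 3 ∧ has L (B ⊔ span F {v}) 1 ∧
      has L (B ⊔ span F {v}) 2 := by
    intro v hv
    have hE : finrank F ↥(B ⊔ span F {v}) = 3 := by rw [finrank_sup_span hv, hB2]
    obtain ⟨x, hx, hx0⟩ := exists_mem_ne_zero_of_ne_bot (ne_bot_of hB2)
    refine ⟨hE, ?_⟩
    rcases htype v hv x hx hx0 with h | h
    · have h' : has L (B ⊔ span F {v}) 1 := ⟨x, mem_sup_left hx, hx0, h⟩
      exact ⟨h', (h2 _ hE).1 h'⟩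
    · have h' : has L (B ⊔ span F {v}) 2 := ⟨x, mem_sup_left hx, hx0, h⟩
      exact ⟨(h2 _ hE).2 h', h'⟩
  -- uniqueness
  have huniq : ∀ v, v ∉ B → ∀ x ∈ B, x ≠ 0 → ∀ x' ∈ B, x' ≠ 0 → v ∈ B ⊔ U L x → v ∈ B ⊔ U L x' →
      span F {x'} = span F {x} := by
    intro v hv x hx hx0 x' hx' hx0' hvx hvx'
    obtain ⟨hE, ha, _⟩ := hplane v hv
    have aux : ∀ x ∈ B, x ≠ 0 → v ∈ B ⊔ U L x → finrank F ↥((B ⊔ span F {v}) ⊓ U L x) = 2 := by
      intro x hx hx0 hvx
      obtain ⟨b, hb, w, hw, hbw⟩ := mem_sup.1 hvx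
      have hwE : w ∈ B ⊔ span F {v} := by
        have : w = v - b := by rw [← hbw]; abel
        rw [this]
        exact sub_mem (mem_sup_right (mem_span_singleton_self v)) (mem_sup_left hb)
      have hwB : w ∉ B := fun h => hv (by rw [← hbw]; exact add_mem hb h)
      have hwx : w ∉ span F {x} := fun h => hwB ((span_singleton_le_iff_mem x B).2 hx h)
      have h3 : span F {x} ⊔ span F {w} ≤ (B ⊔ span F {v}) ⊓ U L x := by
        refine sup_le ?_ ?_
        · rw [span_singleton_le_iff_mem]
          exact ⟨mem_sup_left hx, D.self_mem hx0⟩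
        · rw [span_singleton_le_iff_mem]
          exact ⟨hwE, hw⟩
      have h4 := finrank_mono h3
      rw [finrank_sup_span hwx, finrank_span_singleton hx0] at h4
      rcases htype v hv x hx hx0 with h | h
      · omega
      · exact h
    have h3 := aux x hx hx0 hvx
    have h3' := aux x' hx' hx0' hvx'
    have hL1 : L ((B ⊔ span F {v}) ⊓ U L x) := (D.line_iff h3 hx0 ⟨mem_sup_left hx, D.self_mem hx0⟩).2 inf_le_right
    have hL2 : L ((B ⊔ span F {v}) ⊓ U L x') :=
      (D.line_iff h3' hx0' ⟨mem_sup_left hx', D.self_mem hx0'⟩).2 inf_le_right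
    by_cases he : (B ⊔ span F {v}) ⊓ U L x = (B ⊔ span F {v}) ⊓ U L x'
    · by_cases hxx : x' ∈ span F {x}
      · exact span_eq_of_mem hx0' hxx
      · exfalso
        apply hBL
        have e1 := line_eq hB2 hx hx' hx0 hxx
        have e2 : span F {x} ⊔ span F {x'} = (B ⊔ span F {v}) ⊓ U L x := by
          apply line_eq h3 ⟨mem_sup_left hx, D.self_mem hx0⟩ _ hx0 hxx
          rw [he]
          exact ⟨mem_sup_left hx', D.self_mem hx0'⟩
        rw [← e1, e2]
        exact hL1
    · exfalso
      obtain ⟨z, hz0, hz1, hz2⟩ := exists_inf (A := (B ⊔ span F {v}) ⊓ U L x) (B := (B ⊔ span F {v}) ⊓ U L x')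
        inf_le_left inf_le_left (by omega)
      have h4 := le_U hL1 hz1
      have h5 := le_U hL2 hz2
      have h6 : (B ⊔ span F {v}) ⊓ U L x < ((B ⊔ span F {v}) ⊓ U L x) ⊔ ((B ⊔ span F {v}) ⊓ U L x') := by
        refine lt_of_le_of_ne le_sup_left fun h => he ?_
        symm
        apply eq_of_le_of_finrank_eq
        · rw [h]
          exact le_sup_right
        · rw [h3, h3']
      have h7 := finrank_lt_finrank_of_lt h6
      have h8 : ((B ⊔ span F {v}) ⊓ U L x) ⊔ ((B ⊔ span F {v}) ⊓ U L x') ≤ (B ⊔ span F {v}) ⊓ U L z :=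
        sup_le (le_inf inf_le_left h4) (le_inf inf_le_left h5)
      have h9 := finrank_mono h8
      have h10 := D.type_le hE hz0 hz1.1
      exact D.no13 hE ha ⟨z, hz1.1, hz0, by omega⟩
  -- the count
  have h3 := dc (univ.filter fun v : V => v ∉ B) (cov ⊥ B) (fun v P => v ∈ B ⊔ Up L P)
    (Fintype.card F ^ (d + 1) - Fintype.card F ^ 2) (by
      intro v hv
      have hv' : v ∉ B := (mem_filter.1 hv).2
      obtain ⟨hE, ha, y, hyE, hy, hyt⟩ := hplane v hv'
      have hL1 : L ((B ⊔ span F {v}) ⊓ U L y) := (D.line_iff hyt hy ⟨hyE, D.self_mem hy⟩).2 inf_le_right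
      obtain ⟨x, hx0, hxB, hx1⟩ := exists_inf (A := B) (B := (B ⊔ span F {v}) ⊓ U L y) (C := B ⊔ span F {v})
        le_sup_left inf_le_left (by omega)
      have h4 := le_U hL1 hx1
      have h5 : B ⊔ ((B ⊔ span F {v}) ⊓ U L y) = B ⊔ span F {v} := by
        apply eq_of_le_of_finrank_le
        · exact sup_le le_sup_left inf_le_left
        · rw [hE]
          have h6 : B < B ⊔ ((B ⊔ span F {v}) ⊓ U L y) := by
            refine lt_of_le_of_ne le_sup_left fun h => hBL ?_
            have h7 : (B ⊔ span F {v}) ⊓ U L y = B := by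
              apply eq_of_le_of_finrank_eq
              · exact le_sup_right.trans h.ge
              · rw [hyt, hB2]
            rwa [h7] at hL1
          have h8 := finrank_lt_finrank_of_lt h6
          omega
      have h9 : v ∈ B ⊔ U L x := by
        have h10 : v ∈ B ⊔ span F {v} := mem_sup_right (mem_span_singleton_self v)
        rw [← h5] at h10
        have h11 : B ⊔ ((B ⊔ span F {v}) ⊓ U L y) ≤ B ⊔ U L x := sup_le le_sup_left (h4.trans le_sup_right)
        exact h11 h10
      refine ⟨span F {x}, ⟨mem_points.2 ⟨x, hxB, hx0, rfl⟩, h9⟩, ?_⟩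
      rintro P ⟨hP, hvP⟩
      obtain ⟨x', hx', hx0', rfl⟩ := mem_points.1 hP
      exact huniq v hv' x hxB hx0 x' hx' hx0' h9 hvP) (by
      intro P hP
      obtain ⟨x, hx, hx0, rfl⟩ := mem_points.1 hP
      have h4 := card_compl (le_sup_left : B ≤ B ⊔ U L x) hB2
      rw [hdim x hx hx0] at h4
      rw [← h4, Nat.add_sub_cancel]
      rfl)
  rw [card_points hB2] at h3
  have hq := one_lt_q (F := F)
  have h4 := card_compl' hB2
  have h5 : Fintype.card F ^ 2 ≤ Fintype.card F ^ (d + 1) := Nat.pow_le_pow_right (by omega) (by omega)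
  exact arith1 hq hn h1 _ _ h4 (Nat.sub_add_cancel h5) h3

set_option maxHeartbeats 1000000 in
theorem Dat.opt2 (hn : 5 ≤ finrank F V) (h1 : 3 ≤ d) (h2 : ∀ E : Submodule F V, finrank F E = 3 →
    (has L E 2 ↔ has L E 3)) : False := by
  classical
  obtain ⟨B, hBL⟩ := D.hL.ex
  have hB2 := D.hL.fr B hBL
  have hBx : ∀ x ∈ B, B ≤ U L x := fun x hx => le_U hBL hx
  have hplane : ∀ v, v ∉ B → finrank F ↥(B ⊔ span F {v}) = 3 ∧ has L (B ⊔ span F {v}) 2 ∧
      has L (B ⊔ span F {v}) 3 := by
    intro v hv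
    have hE : finrank F ↥(B ⊔ span F {v}) = 3 := by rw [finrank_sup_span hv, hB2]
    obtain ⟨x, hx, hx0⟩ := exists_mem_ne_zero_of_ne_bot (ne_bot_of hB2)
    refine ⟨hE, ?_⟩
    have h4 := D.type_le hE hx0 (mem_sup_left hx)
    have h5 : B ≤ (B ⊔ span F {v}) ⊓ U L x := le_inf le_sup_left (hBx x hx)
    have h6 := finrank_mono h5
    have h7 : finrank F ↥((B ⊔ span F {v}) ⊓ U L x) = 2 ∨ finrank F ↥((B ⊔ span F {v}) ⊓ U L x) = 3 := by omega
    rcases h7 with h | h
    · have h' : has L (B ⊔ span F {v}) 2 := ⟨x, mem_sup_left hx, hx0, h⟩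
      exact ⟨h', (h2 _ hE).1 h'⟩
    · have h' : has L (B ⊔ span F {v}) 3 := ⟨x, mem_sup_left hx, hx0, h⟩
      exact ⟨(h2 _ hE).2 h', h'⟩
  -- a point of type 2 is never the pole of the plane
  have hno : ∀ v, v ∉ B → ∀ w, w ≠ 0 → finrank F ↥((B ⊔ span F {v}) ⊓ U L w) = 2 → B ≤ U L w →
      (∃ u ∈ U L w, u ∈ B ⊔ span F {v} ∧ u ∉ B) → False := by
    rintro v hv w hw hw2 hBw ⟨u, hu1, hu2, hu3⟩
    have h4 : B ⊔ span F {u} ≤ (B ⊔ span F {v}) ⊓ U L w :=
      sup_le (le_inf le_sup_left hBw) ((span_singleton_le_iff_mem _ _).2 ⟨hu2, hu1⟩)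
    have h5 := finrank_mono h4
    rw [finrank_sup_span hu3, hB2] at h5
    omega
  -- uniqueness
  have huniq : ∀ v, v ∉ B → ∀ x ∈ B, x ≠ 0 → ∀ x' ∈ B, x' ≠ 0 → v ∈ U L x → v ∈ U L x' →
      span F {x'} = span F {x} := by
    intro v hv x hx hx0 x' hx' hx0' hvx hvx'
    by_cases hxx : x' ∈ span F {x}
    · exact span_eq_of_mem hx0' hxx
    · exfalso
      have hv0 : v ≠ 0 := fun h => hv (h ▸ zero_mem _)
      have e1 := line_eq hB2 hx hx' hx0 hxx
      obtain ⟨hE, ⟨w, hwE, hw, hwt⟩, _⟩ := hplane v hv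
      have hEx : B ⊔ span F {v} ≤ U L x := sup_le (hBx x hx) ((span_singleton_le_iff_mem _ _).2 hvx)
      have hEx' : B ⊔ span F {v} ≤ U L x' := sup_le (hBx x' hx') ((span_singleton_le_iff_mem _ _).2 hvx')
      have hBw : B ≤ U L w := by
        rw [← e1]
        exact sup_le ((span_singleton_le_iff_mem _ _).2 (D.symm hx0 hw (hEx hwE)))
          ((span_singleton_le_iff_mem _ _).2 (D.symm hx0' hw (hEx' hwE)))
      by_cases hwB : w ∈ B
      · have hBv : B ≤ U L v := by
          rw [← e1]
          exact sup_le ((span_singleton_le_iff_mem _ _).2 (D.symm hx0 hv0 hvx))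
            ((span_singleton_le_iff_mem _ _).2 (D.symm hx0' hv0 hvx'))
        exact hno v hv w hw hwt hBw ⟨v, D.symm hv0 hw (hBv hwB), mem_sup_right (mem_span_singleton_self v), hv⟩
      · exact hno v hv w hw hwt hBw ⟨w, D.self_mem hw, hwE, hwB⟩
  -- the count
  have h3 := dc (univ.filter fun v : V => v ∉ B) (cov ⊥ B) (fun v P => v ∈ Up L P)
    (Fintype.card F ^ d - Fintype.card F ^ 2) (by
      intro v hv
      have hv' : v ∉ B := (mem_filter.1 hv).2
      obtain ⟨hE, ⟨w, hwE, hw, hwt⟩, y, hyE, hy, hyt⟩ := hplane v hv'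
      have hEy : B ⊔ span F {v} ≤ U L y := by
        have h4 : (B ⊔ span F {v}) ⊓ U L y = B ⊔ span F {v} := eq_of_le_of_finrank_eq inf_le_left (by rw [hyt, hE])
        rw [← h4]
        exact inf_le_right
      have hyB : y ∈ B := by
        by_contra hyB
        have h5 : B ⊔ span F {y} = B ⊔ span F {v} := sup_span_eq hyE hyB
        have h6 : ∀ z ∈ B, z ≠ 0 → B ⊔ span F {v} ≤ U L z := by
          intro z hz hz0
          rw [← h5]
          exact sup_le (hBx z hz) ((span_singleton_le_iff_mem _ _).2 (D.symm hy hz0 (hEy (mem_sup_left hz))))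
        by_cases hwB : w ∈ B
        · have h7 : (B ⊔ span F {v}) ⊓ U L w = B ⊔ span F {v} := inf_eq_left.2 (h6 w hwB hw)
          rw [h7, hE] at hwt
          omega
        · refine hno v hv' w hw hwt ?_ ⟨w, D.self_mem hw, hwE, hwB⟩
          intro z hz
          by_cases hz0 : z = 0
          · rw [hz0]
            exact zero_mem _
          · exact D.symm hz0 hw (h6 z hz hz0 hwE)
      have hvy : v ∈ U L y := hEy (mem_sup_right (mem_span_singleton_self v))
      refine ⟨span F {y}, ⟨mem_points.2 ⟨y, hyB, hy, rfl⟩, hvy⟩, ?_⟩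
      rintro P ⟨hP, hvP⟩
      obtain ⟨x', hx', hx0', rfl⟩ := mem_points.1 hP
      exact huniq v hv' y hyB hy x' hx' hx0' hvy hvP) (by
      intro P hP
      obtain ⟨x, hx, hx0, rfl⟩ := mem_points.1 hP
      have h4 := card_compl (hBx x hx) hB2
      rw [D.fr x hx0] at h4
      rw [← h4, Nat.add_sub_cancel]
      rfl)
  rw [card_points hB2] at h3
  have hq := one_lt_q (F := F)
  have h4 := card_compl' hB2
  have h5 : Fintype.card F ^ 2 ≤ Fintype.card F ^ d := Nat.pow_le_pow_right (by omega) (by omega)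
  exact arith2 hq hn h1 _ _ h4 (Nat.sub_add_cancel h5) h3

/-- **The dimension of `U x` is `2` or `n - 1`.** -/
theorem Dat.dim (hn : 5 ≤ finrank F V) (h13 : nOrb H (Fl F V ![1, 3]) = 3) (h1 : 3 ≤ d) (h2 : d + 2 ≤ finrank F V) :
    False := by
  obtain ⟨B, hBL⟩ := D.hL.ex
  obtain ⟨x, _, hx0⟩ := exists_mem_ne_zero_of_ne_bot (ne_bot_of (D.hL.fr B hBL))
  obtain ⟨E, hE, hxE, ht⟩ := D.types h1 h2 hx0 2 (by norm_num) (by norm_num)
  have hE2 : has L E 2 := ⟨x, hxE, hx0, ht⟩
  rcases D.exists_not2 hE with hE1 | hE3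
  · apply D.opt1 hn h1
    intro E' hE'
    exact ⟨fun h => D.trans13 h13 h1 h2 hE hE' hE1 h hE2, fun h => D.trans13 h13 h1 h2 hE hE' hE2 h hE1⟩
  · apply D.opt2 hn h1
    intro E' hE'
    exact ⟨fun h => D.trans13 h13 h1 h2 hE hE' hE2 h hE3, fun h => D.trans13 h13 h1 h2 hE hE' hE3 h hE2⟩

end

end Cfsg.Agent.H87.Geo5
end

-- part: H87/Geo5d
section
/-!
# The subspaces `U x` of dimension 2
-/

set_option autoImplicit false
set_option linter.unusedSectionVars false

namespace Cfsg.Agent.H87.Geo5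

open Finset Submodule Module MulAction
open Cfsg.Agent.H87.Cov Cfsg.Agent.H87.LemS Cfsg.Agent.H87.Flags Cfsg.Agent.H87.Orb Cfsg.Agent.H87.Geo3
open scoped Pointwise

variable {F V : Type*} [Field F] [Fintype F] [AddCommGroup V] [Module F V] [Fintype V]
variable {H : Type*} [Group H] [DistribMulAction H V] [SMulCommClass H F V]

/-- a flag of type `(2, 4)`. -/
def fl24 (A B : Submodule F V) (hA : finrank F A = 2) (hB : finrank F B = 4) (h : A ≤ B) : Fl F V ![2, 4] :=
  ⟨![A, B], by
    intro i j hij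
    fin_cases i <;> fin_cases j
    · exact le_rfl
    · exact h
    · exact absurd hij (by decide)
    · exact le_rfl, fun i => by
    fin_cases i
    · exact hA
    · exact hB⟩

section
variable {L : Submodule F V → Prop} {d : ℕ}

omit [Fintype V] in
theorem arith3 {q N : ℕ} (hq : 2 ≤ q) (h : q ^ 5 = N * (q ^ 2 - 1) + 1) : False := by
  obtain ⟨k, rfl⟩ : ∃ k, q = k + 2 := ⟨q - 2, by omega⟩
  have e : (k + 2) ^ 2 - 1 = (k + 1) * (k + 3) := by
    have : (k + 2) ^ 2 = (k + 1) * (k + 3) + 1 := by ring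
    omega
  rw [e] at h
  have h1 : (k + 1) * (k + 3) ∣ (k + 1) := by
    have h2 : (k + 1) * (k + 3) ∣ (k + 1) * (k + 3) * ((k + 2) ^ 3 + (k + 2)) + (k + 1) := by
      have : (k + 1) * (k + 3) * ((k + 2) ^ 3 + (k + 2)) + (k + 1) = N * ((k + 1) * (k + 3)) := by
        have h3 : (k + 1) * (k + 3) * ((k + 2) ^ 3 + (k + 2)) + (k + 1) + 1 = N * ((k + 1) * (k + 3)) + 1 := by
          rw [← h]
          ring
        omega
      rw [this]
      exact dvd_mul_left _ _
    exact (Nat.dvd_add_right (dvd_mul_right _ _)).1 h2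
  have := Nat.le_of_dvd (by omega) h1
  nlinarith only [this]

theorem Dat.two5 (D : Dat H L 2) (hn : finrank F V = 5) : False := by
  classical
  have : Fintype (Submodule F V) := Fintype.ofFinite _
  have h3 := dc (univ.filter fun v : V => v ≠ 0) (univ.filter fun B : Submodule F V => L B) (fun v B => v ∈ B)
    (Fintype.card F ^ 2 - 1) (by
      intro v hv
      have hv' : v ≠ 0 := (mem_filter.1 hv).2
      refine ⟨U L v, ⟨?_, D.self_mem hv'⟩, ?_⟩
      · rw [mem_filter]
        exact ⟨mem_univ _, (D.line_iff (D.fr v hv') hv' (D.self_mem hv')).2 le_rfl⟩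
      · rintro B ⟨hB, hvB⟩
        rw [mem_filter] at hB
        exact eq_of_le_of_finrank_eq (le_U hB.2 hvB) (by rw [D.hL.fr B hB.2, D.fr v hv'])) (by
      intro B hB
      rw [mem_filter] at hB
      have h4 := cn_true (bot_le : (⊥ : Submodule F V) ≤ B)
      rw [finrank_bot, pow_zero, D.hL.fr B hB.2] at h4
      rw [← h4, Nat.add_sub_cancel, cn]
      congr 1
      ext v
      simp only [mem_filter, mem_univ, true_and, and_true, mem_bot]
      exact and_comm)
  have h4 := cn_true (bot_le : (⊥ : Submodule F V) ≤ ⊤)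
  have h5 : cn (fun _ : V => True) (⊥ : Submodule F V) ⊤ = (univ.filter fun v : V => v ≠ 0).card := by
    rw [cn]
    congr 1
    ext v
    simp only [mem_filter, mem_univ, true_and, and_true, mem_bot, mem_top, ne_eq]
  rw [h5, h3, finrank_bot, pow_zero, finrank_top, hn] at h4
  exact arith3 (one_lt_q (F := F)) h4.symm

/-- the span of the lines in a subspace. -/
def M (L : Submodule F V → Prop) (S : Submodule F V) : Submodule F V := sSup {B | L B ∧ B ≤ S}

theorem act_M (hL : LL H L) (h : H) (S : Submodule F V) : h • M L S = M L (h • S) := by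
  have key : ∀ (h : H) (P : Submodule F V), h • M L P ≤ M L (h • P) := by
    intro h P
    have h1 : M L P ≤ h⁻¹ • M L (h • P) := by
      apply sSup_le
      rintro B ⟨hB, hPB⟩
      have h2 : h • B ≤ M L (h • P) := le_sSup ⟨hL.inv h B hB, Flags.smul_le_smul.2 hPB⟩
      have h3 : h⁻¹ • (h • B) ≤ h⁻¹ • M L (h • P) := Flags.smul_le_smul.2 h2
      rwa [inv_smul_smul] at h3
    have h4 := (Flags.smul_le_smul (h := h)).2 h1
    rwa [smul_inv_smul] at h4
  apply le_antisymm (key h S)
  have h1 := (Flags.smul_le_smul (h := h)).2 (key h⁻¹ (h • S))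
  rwa [smul_inv_smul, inv_smul_smul] at h1

theorem Dat.eq_U (D : Dat H L 2) {B : Submodule F V} (hB : L B) {x : V} (hx : x ≠ 0) (hxB : x ∈ B) : B = U L x :=
  eq_of_le_of_finrank_eq (le_U hB hxB) (by rw [D.hL.fr B hB, D.fr x hx])

theorem Dat.L_U (D : Dat H L 2) {x : V} (hx : x ≠ 0) : L (U L x) :=
  (D.line_iff (D.fr x hx) hx (D.self_mem hx)).2 le_rfl

omit [Fintype V] in
theorem arith4 {q n c : ℕ} (hq : 2 ≤ q) (hn : 6 ≤ n) (h : c * (q ^ 3 * (q - 1)) + q ^ 3 = q ^ n) : q ^ 2 < c := by
  obtain ⟨m, rfl⟩ : ∃ m, n = m + 6 := ⟨n - 6, by omega⟩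
  obtain ⟨k, rfl⟩ : ∃ k, q = k + 2 := ⟨q - 2, by omega⟩
  rw [show k + 2 - 1 = k + 1 by omega] at h
  have h1 : (k + 2) ^ 3 * (c * (k + 1) + 1) = (k + 2) ^ 3 * (k + 2) ^ (m + 3) := by
    rw [← pow_add, show 3 + (m + 3) = m + 6 by ring, ← h]
    ring
  have h2 := Nat.eq_of_mul_eq_mul_left (by positivity) h1
  have h3 : (k + 2) ^ 3 ≤ (k + 2) ^ (m + 3) := Nat.pow_le_pow_right (by omega) (by omega)
  rw [← h2] at h3
  by_contra hcon
  have h4 : c ≤ (k + 2) ^ 2 := by omega
  have h5 : c * (k + 1) ≤ (k + 2) ^ 2 * (k + 1) := Nat.mul_le_mul_right _ h4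
  nlinarith only [h3, h5]

/-- a 4-dimensional subspace with just one line of the class. -/
theorem Dat.exists_one (D : Dat H L 2) (hn : 6 ≤ finrank F V) {x : V} (hx : x ≠ 0) {v : V} (hv : v ∉ U L x) :
    ∃ w, w ∉ U L x ⊔ span F {v} ∧ ∀ B, L B → B ≤ U L x ⊔ span F {v} ⊔ span F {w} → B = U L x := by
  classical
  by_contra hcon
  push Not at hcon
  have hA : finrank F ↥(U L x ⊔ span F {v}) = 3 := by rw [finrank_sup_span hv, D.fr x hx]
  have h1 := card_cov (le_top : U L x ⊔ span F {v} ≤ ⊤)
  rw [hA, finrank_top] at h1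
  have h2 := arith4 (one_lt_q (F := F)) hn h1
  have h3 : cov (U L x ⊔ span F {v}) ⊤ ⊆ (univ.filter fun l : V => l ∈ U L x).image fun l =>
      U L x ⊔ span F {v} ⊔ U L (v + l) := by
    intro S hS
    obtain ⟨w, _, hw, rfl⟩ := mem_cov.1 hS
    obtain ⟨B, hB, hBS, hne⟩ := hcon w hw
    have hB2 := D.hL.fr B hB
    obtain ⟨a, ha0, haA, haB⟩ := exists_inf (le_sup_left : U L x ⊔ span F {v} ≤ U L x ⊔ span F {v} ⊔ span F {w}) hBS
      (by rw [finrank_sup_span hw, hA, hB2]; norm_num)
    have haU : a ∉ U L x := by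
      intro h
      apply hne
      rw [D.eq_U hB ha0 haB, ← D.eq_U (D.L_U hx) ha0 h]
    obtain ⟨l, hl, cv, hcv, e⟩ := mem_sup.1 haA
    obtain ⟨c, rfl⟩ := mem_span_singleton.1 hcv
    have hc : c ≠ 0 := by
      rintro rfl
      rw [zero_smul, add_zero] at e
      exact haU (e ▸ hl)
    have e2 : v + c⁻¹ • l = c⁻¹ • a := by
      rw [← e, smul_add, smul_smul, inv_mul_cancel₀ hc, one_smul, add_comm]
    rw [mem_image]
    refine ⟨c⁻¹ • l, ?_, ?_⟩
    · rw [mem_filter]
      exact ⟨mem_univ _, smul_mem _ _ hl⟩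
    · have e3 : U L (v + c⁻¹ • l) = B := by
        rw [e2, D.eq_U hB ha0 haB]
        apply U_congr
        apply span_eq_of_mem
        · exact smul_ne_zero (inv_ne_zero hc) ha0
        · exact smul_mem _ _ (mem_span_singleton_self a)
      change U L x ⊔ span F {v} ⊔ U L (v + c⁻¹ • l) = _
      rw [e3]
      apply eq_of_le_of_finrank_le
      · exact sup_le le_sup_left hBS
      · rw [finrank_sup_span hw, hA]
        have h4 : U L x ⊔ span F {v} < U L x ⊔ span F {v} ⊔ B := by
          rw [left_lt_sup]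
          intro hBA
          obtain ⟨z, hz0, hz1, hz2⟩ := exists_inf (le_sup_left : U L x ≤ U L x ⊔ span F {v}) hBA
            (by rw [hA, D.fr x hx, hB2]; norm_num)
          apply hne
          rw [D.eq_U hB hz0 hz2, ← D.eq_U (D.L_U hx) hz0 hz1]
        have h5 := finrank_lt_finrank_of_lt h4
        omega
  have h4 := (card_le_card h3).trans card_image_le
  rw [card_filter_mem, D.fr x hx] at h4
  omega

theorem Dat.two6 (D : Dat H L 2) (hn : 6 ≤ finrank F V) (h24 : nOrb H (Fl F V ![2, 4]) = 4) : False := by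
  classical
  let f : Fl F V ![2, 4] → ℕ × ℕ × ℕ := fun W =>
    (finrank F ↥(M L (W.1 1)), finrank F ↥(W.1 0 ⊓ M L (W.1 1)), if L (W.1 0) then 1 else 0)
  have hf : ∀ (g : H) W, f (g • W) = f W := by
    intro g W
    change (finrank F ↥(M L (g • W.1 1)), finrank F ↥(g • W.1 0 ⊓ M L (g • W.1 1)), if L (g • W.1 0) then 1 else 0) = _
    rw [← act_M D.hL, ← act_inf, Flags.finrank_smul, Flags.finrank_smul]
    congr 2
    exact if_congr (D.hL.inv_iff g (W.1 0)) rfl rfl
  have hval : ∀ (A B : Submodule F V) (hA : finrank F A = 2) (hB : finrank F B = 4) (h : A ≤ B),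
      f (fl24 A B hA hB h) = (finrank F ↥(M L B), finrank F ↥(A ⊓ M L B), if L A then 1 else 0) :=
    fun _ _ _ _ _ => rfl
  obtain ⟨B0, hB0⟩ := D.hL.ex
  have hB02 := D.hL.fr B0 hB0
  obtain ⟨x, hxB, hx⟩ := exists_mem_ne_zero_of_ne_bot (ne_bot_of hB02)
  have hUx : finrank F ↥(U L x) = 2 := D.fr x hx
  obtain ⟨v, hv⟩ : ∃ v, v ∉ U L x := by
    by_contra hcon
    push Not at hcon
    have : U L x = ⊤ := by
      rw [eq_top_iff]
      intro v _
      exact hcon v
    rw [this, finrank_top] at hUx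
    omega
  have hv0 : v ≠ 0 := by
    rintro rfl
    exact hv (zero_mem _)
  obtain ⟨w, hw, hS⟩ := D.exists_one hn hx hv
  have hA3 : finrank F ↥(U L x ⊔ span F {v}) = 3 := by rw [finrank_sup_span hv, hUx]
  have hS4 : finrank F ↥(U L x ⊔ span F {v} ⊔ span F {w}) = 4 := by rw [finrank_sup_span hw, hA3]
  have hUS : U L x ≤ U L x ⊔ span F {v} ⊔ span F {w} := le_sup_left.trans le_sup_left
  have hM1 : M L (U L x ⊔ span F {v} ⊔ span F {w}) = U L x := by
    apply le_antisymm
    · apply sSup_le
      rintro B ⟨hB, hBS⟩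
      exact (hS B hB hBS).le
    · exact le_sSup ⟨D.L_U hx, hUS⟩
  have hvx : v ∉ span F {x} := fun h => hv ((span_singleton_le_iff_mem x _).2 (D.self_mem hx) h)
  have hwv : w ∉ span F {v} := fun h => hw (mem_sup_right h)
  -- the five flags
  have a1 : ∃ W, f W = (2, 2, 1) := by
    refine ⟨fl24 (U L x) _ hUx hS4 hUS, ?_⟩
    rw [hval, hM1, inf_idem, hUx, if_pos (D.L_U hx)]
  have a2 : ∃ W, f W = (2, 1, 0) := by
    have hA : finrank F ↥(span F {x} ⊔ span F {v}) = 2 := by rw [finrank_sup_span hvx, finrank_span_singleton hx]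
    have hle : span F {x} ⊔ span F {v} ≤ U L x ⊔ span F {v} ⊔ span F {w} :=
      sup_le (((span_singleton_le_iff_mem x _).2 (D.self_mem hx)).trans hUS) (le_sup_right.trans le_sup_left)
    refine ⟨fl24 _ _ hA hS4 hle, ?_⟩
    have h1 : ¬ L (span F {x} ⊔ span F {v}) := by
      intro h
      have := hS _ h hle
      apply hv
      rw [← this]
      exact mem_sup_right (mem_span_singleton_self v)
    have h2 := finrank_sup_add_finrank_inf_eq (span F {x} ⊔ span F {v}) (U L x)
    have h3 : span F {x} ⊔ span F {v} ⊔ U L x = U L x ⊔ span F {v} := by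
      apply le_antisymm
      · exact sup_le (sup_le (((span_singleton_le_iff_mem x _).2 (D.self_mem hx)).trans le_sup_left) le_sup_right)
          le_sup_left
      · exact sup_le le_sup_right (le_sup_right.trans le_sup_left)
    rw [h3, hA3, hA, hUx] at h2
    rw [hval, hM1, hUx, if_neg h1]
    congr 2
    omega
  have a3 : ∃ W, f W = (2, 0, 0) := by
    have hA : finrank F ↥(span F {v} ⊔ span F {w}) = 2 := by rw [finrank_sup_span hwv, finrank_span_singleton hv0]
    have hle : span F {v} ⊔ span F {w} ≤ U L x ⊔ span F {v} ⊔ span F {w} :=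
      sup_le (le_sup_right.trans le_sup_left) le_sup_right
    refine ⟨fl24 _ _ hA hS4 hle, ?_⟩
    have h1 : ¬ L (span F {v} ⊔ span F {w}) := by
      intro h
      have := hS _ h hle
      apply hv
      rw [← this]
      exact mem_sup_left (mem_span_singleton_self v)
    have h2 := finrank_sup_add_finrank_inf_eq (span F {v} ⊔ span F {w}) (U L x)
    have h3 : span F {v} ⊔ span F {w} ⊔ U L x = U L x ⊔ span F {v} ⊔ span F {w} := by
      rw [sup_comm, sup_assoc]
    rw [h3, hS4, hA, hUx] at h2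
    rw [hval, hM1, hUx, if_neg h1]
    congr 2
    omega
  have hUv : finrank F ↥(U L v) = 2 := D.fr v hv0
  have hS24 : finrank F ↥(U L x ⊔ U L v) = 4 := by
    have h2 := finrank_sup_add_finrank_inf_eq (U L x) (U L v)
    have h3 : U L x ⊓ U L v = ⊥ := by
      by_contra h
      obtain ⟨z, hz, hz0⟩ := exists_mem_ne_zero_of_ne_bot h
      apply hv
      rw [D.eq_U (D.L_U hx) hz0 hz.1, ← D.eq_U (D.L_U hv0) hz0 hz.2]
      exact D.self_mem hv0
    rw [h3, finrank_bot] at h2
    omega
  have hM2 : M L (U L x ⊔ U L v) = U L x ⊔ U L v := by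
    apply le_antisymm
    · apply sSup_le
      rintro B ⟨_, hBS⟩
      exact hBS
    · exact sup_le (le_sSup ⟨D.L_U hx, le_sup_left⟩) (le_sSup ⟨D.L_U hv0, le_sup_right⟩)
  have a4 : ∃ W, f W = (4, 2, 1) := by
    refine ⟨fl24 (U L x) _ hUx hS24 le_sup_left, ?_⟩
    rw [hval, hM2, inf_eq_left.2 le_sup_left, hUx, if_pos (D.L_U hx), hS24]
  have a5 : ∃ W, f W = (4, 2, 0) := by
    have hA : finrank F ↥(span F {x} ⊔ span F {v}) = 2 := by rw [finrank_sup_span hvx, finrank_span_singleton hx]
    have hle : span F {x} ⊔ span F {v} ≤ U L x ⊔ U L v :=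
      sup_le_sup ((span_singleton_le_iff_mem x _).2 (D.self_mem hx)) ((span_singleton_le_iff_mem v _).2 (D.self_mem hv0))
    refine ⟨fl24 _ _ hA hS24 hle, ?_⟩
    have h1 : ¬ L (span F {x} ⊔ span F {v}) := by
      intro h
      apply hv
      rw [← D.eq_U h hx (mem_sup_left (mem_span_singleton_self x))]
      exact mem_sup_right (mem_span_singleton_self v)
    rw [hval, hM2, inf_eq_left.2 hle, hA, if_neg h1, hS24]
  have h5 := card_le_nOrb (G := H) f hf {(2, 2, 1), (2, 1, 0), (2, 0, 0), (4, 2, 1), (4, 2, 0)} (by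
    intro z hz
    simp only [mem_insert, mem_singleton] at hz
    rcases hz with rfl | rfl | rfl | rfl | rfl
    · exact a1
    · exact a2
    · exact a3
    · exact a4
    · exact a5)
  rw [h24] at h5
  revert h5
  decide

end

end Cfsg.Agent.H87.Geo5
end

-- part: H87/Geo5e
section
/-!
# The subspaces `U x` of dimension `n - 1`, and the conclusion
-/

set_option autoImplicit false
set_option linter.unusedSectionVars false

namespace Cfsg.Agent.H87.Geo5

open Finset Submodule Module MulAction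
open Cfsg.Agent.H87.Cov Cfsg.Agent.H87.LemS Cfsg.Agent.H87.Flags Cfsg.Agent.H87.Orb Cfsg.Agent.H87.Geo3
open scoped Pointwise

variable {F V : Type*} [Field F] [Fintype F] [AddCommGroup V] [Module F V] [Fintype V]
variable {H : Type*} [Group H] [DistribMulAction H V] [SMulCommClass H F V]

/-- the radical. -/
def rad (L : Submodule F V → Prop) (S : Submodule F V) : Submodule F V := S ⊓ ⨅ (s : V) (_ : s ∈ S ∧ s ≠ 0), U L s

section
variable {L : Submodule F V → Prop} {d : ℕ}

theorem mem_rad {S : Submodule F V} {v : V} : v ∈ rad L S ↔ v ∈ S ∧ ∀ s ∈ S, s ≠ 0 → v ∈ U L s := by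
  simp only [rad, Submodule.mem_inf, Submodule.mem_iInf, and_imp]

theorem act_rad (hL : LL H L) (h : H) (S : Submodule F V) : h • rad L S = rad L (h • S) := by
  ext v
  rw [mem_smul_iff, mem_rad, mem_rad, mem_smul_iff]
  refine and_congr Iff.rfl ⟨fun hh s hs hs0 => ?_, fun hh s hs hs0 => ?_⟩
  · have h1 := hh (h⁻¹ • s) (mem_smul_iff.1 hs) (by rwa [Ne, smul_eq_zero_iff_eq])
    rwa [← act_U hL, ← Flags.smul_mem_smul (h := h), smul_inv_smul, smul_inv_smul] at h1
  · have h1 := hh (h • s) (Flags.smul_mem_smul.2 hs) (by rwa [Ne, smul_eq_zero_iff_eq])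
    rwa [← act_U hL, mem_smul_iff] at h1

section
variable (D : Dat H L d)
include D

theorem Dat.mem_zero {x y : V} (hx : x ≠ 0) (hy : y ≠ 0) (h : y ∉ U L x) {v : V} (hv : v ∈ span F {x} ⊔ span F {y})
    (hvx : v ∈ U L x) (hvy : v ∈ U L y) : v = 0 := by
  have hyx : x ∉ U L y := fun h' => h (D.symm hy hx h')
  obtain ⟨a, ha, b, hb, rfl⟩ := mem_sup.1 hv
  have ha' : a ∈ U L x := (span_singleton_le_iff_mem x _).2 (D.self_mem hx) ha
  have hb' : b ∈ U L y := (span_singleton_le_iff_mem y _).2 (D.self_mem hy) hb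
  have hb2 : b ∈ U L x := by
    have := sub_mem hvx ha'
    rwa [add_sub_cancel_left] at this
  have ha2 : a ∈ U L y := by
    have := sub_mem hvy hb'
    rwa [add_sub_cancel_right] at this
  have aux : ∀ {x a : V} {W : Submodule F V}, x ∉ W → a ∈ span F {x} → a ∈ W → a = 0 := by
    intro x a W hx ha haW
    by_contra h0
    apply hx
    obtain ⟨c, rfl⟩ := mem_span_singleton.1 ha
    have hc : c ≠ 0 := by
      rintro rfl
      exact h0 (zero_smul _ _)
    have := smul_mem W c⁻¹ haW
    rwa [smul_smul, inv_mul_cancel₀ hc, one_smul] at this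
  rw [aux hyx ha ha2, aux h hb hb2, add_zero]

theorem Dat.not_mem_span {x y : V} (hx : x ≠ 0) (h : y ∉ U L x) : y ∉ span F {x} :=
  fun h' => h ((span_singleton_le_iff_mem x _).2 (D.self_mem hx) h')

/-- `span {x, y}` and a subspace of `U x ⊓ U y` have trivial intersection. -/
theorem Dat.finrank_sup {x y : V} (hx : x ≠ 0) (hy : y ≠ 0) (h : y ∉ U L x) {W : Submodule F V}
    (hW : W ≤ U L x ⊓ U L y) : finrank F ↥(span F {x} ⊔ span F {y} ⊔ W) = finrank F W + 2 := by
  have h1 := finrank_sup_add_finrank_inf_eq (span F {x} ⊔ span F {y}) W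
  have h2 : (span F {x} ⊔ span F {y}) ⊓ W = ⊥ := by
    rw [eq_bot_iff]
    rintro v ⟨hv, hvW⟩
    exact D.mem_zero hx hy h hv (hW hvW).1 (hW hvW).2
  rw [h2, finrank_bot, finrank_sup_span (D.not_mem_span hx h), finrank_span_singleton hx] at h1
  omega

theorem Dat.finrank_W (hd : d + 1 = finrank F V) {x y : V} (hx : x ≠ 0) (hy : y ≠ 0) (h : y ∉ U L x) :
    finrank F ↥(U L x ⊓ U L y) + 2 = finrank F V := by
  have h1 := finrank_sup_add_finrank_inf_eq (U L x) (U L y)
  have h2 : finrank F ↥(U L x ⊔ U L y) ≤ finrank F V := Submodule.finrank_le _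
  rw [D.fr x hx, D.fr y hy] at h1
  have h3 := D.finrank_sup hx hy h (le_refl (U L x ⊓ U L y))
  have h4 : finrank F ↥(span F {x} ⊔ span F {y} ⊔ (U L x ⊓ U L y)) ≤ finrank F V := Submodule.finrank_le _
  omega

theorem Dat.not_le (hd : d + 1 = finrank F V) {x y : V} (hx : x ≠ 0) (hy : y ≠ 0) (h : y ∉ U L x) {u : V} (hu : u ≠ 0)
    (huW : u ∈ U L x ⊓ U L y) : ¬ U L x ⊓ U L y ≤ U L u := by
  intro hle
  have h1 : span F {x} ⊔ span F {y} ⊔ (U L x ⊓ U L y) ≤ U L u :=
    sup_le (sup_le ((span_singleton_le_iff_mem _ _).2 (D.symm hx hu huW.1))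
      ((span_singleton_le_iff_mem _ _).2 (D.symm hy hu huW.2))) hle
  have h2 := finrank_mono h1
  rw [D.finrank_sup hx hy h le_rfl, D.finrank_W hd hx hy h, D.fr u hu] at h2
  omega

theorem Dat.exists_xy (hd : d + 1 = finrank F V) : ∃ x y : V, x ≠ 0 ∧ y ≠ 0 ∧ y ∉ U L x := by
  obtain ⟨B0, hB0⟩ := D.hL.ex
  have hB02 := D.hL.fr B0 hB0
  obtain ⟨x, _, hx⟩ := exists_mem_ne_zero_of_ne_bot (ne_bot_of hB02)
  obtain ⟨v, hv⟩ : ∃ v, v ∉ U L x := by
    by_contra hcon
    push Not at hcon
    have : U L x = ⊤ := by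
      rw [eq_top_iff]
      intro v _
      exact hcon v
    have h := D.fr x hx
    rw [this, finrank_top] at h
    omega
  refine ⟨x, v, hx, ?_, hv⟩
  rintro rfl
  exact hv (zero_mem _)

omit D in
theorem exists_inf_hyp {A B : Submodule F V} (hB : finrank F B + 1 = finrank F V) (hA : 2 ≤ finrank F A) :
    ∃ z, z ≠ 0 ∧ z ∈ A ∧ z ∈ B :=
  exists_inf (C := ⊤) le_top le_top (by rw [finrank_top]; omega)

omit D in
theorem finrank_inf_hyp {A B : Submodule F V} (hB : finrank F B + 1 = finrank F V) :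
    finrank F A ≤ finrank F ↥(A ⊓ B) + 1 := by
  have h1 := finrank_sup_add_finrank_inf_eq A B
  have h2 : finrank F ↥(A ⊔ B) ≤ finrank F V := Submodule.finrank_le _
  omega

theorem Dat.hyp5 (hd : d + 1 = finrank F V) (hn : finrank F V = 5) : False := by
  obtain ⟨x, y, hx, hy, hxy⟩ := D.exists_xy hd
  have hW := D.finrank_W hd hx hy hxy
  obtain ⟨u, huW, hu⟩ := exists_mem_ne_zero_of_ne_bot (ne_bot_of (k := 2) (show finrank F ↥(U L x ⊓ U L y) = 2 + 1 by omega))
  obtain ⟨v, hvW, hvu⟩ : ∃ v ∈ U L x ⊓ U L y, v ∉ U L u := by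
    have := D.not_le hd hx hy hxy hu huW
    by_contra hcon
    push Not at hcon
    exact this hcon
  have hv0 : v ≠ 0 := by
    rintro rfl
    exact hvu (zero_mem _)
  have h1 := finrank_inf_hyp (A := U L x ⊓ U L y) (B := U L u) (by rw [D.fr u hu, hd])
  obtain ⟨w, hw0, ⟨hwW, hwu⟩, hwv⟩ := exists_inf_hyp (A := (U L x ⊓ U L y) ⊓ U L u) (B := U L v)
    (by rw [D.fr v hv0, hd]) (by omega)
  have h2 : span F {u} ⊔ span F {v} ⊔ span F {w} = U L x ⊓ U L y := by
    apply eq_of_le_of_finrank_eq
    · exact sup_le (sup_le ((span_singleton_le_iff_mem _ _).2 huW) ((span_singleton_le_iff_mem _ _).2 hvW))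
        ((span_singleton_le_iff_mem _ _).2 hwW)
    · rw [finrank_sup_span, finrank_sup_span (D.not_mem_span hu hvu), finrank_span_singleton hu]
      · omega
      · intro h
        exact hw0 (D.mem_zero hu hv0 hvu h hwu hwv)
  apply D.not_le hd hx hy hxy hw0 hwW
  rw [← h2]
  exact sup_le (sup_le ((span_singleton_le_iff_mem _ _).2 (D.symm hu hw0 hwu))
    ((span_singleton_le_iff_mem _ _).2 (D.symm hv0 hw0 hwv))) ((span_singleton_le_iff_mem _ _).2 (D.self_mem hw0))

theorem Dat.hyp6 (hd : d + 1 = finrank F V) (hn : 6 ≤ finrank F V) (h24 : nOrb H (Fl F V ![2, 4]) = 4) : False := by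
  classical
  let f : Fl F V ![2, 4] → ℕ × ℕ × ℕ := fun W =>
    (finrank F ↥(rad L (W.1 1)), finrank F ↥(W.1 0 ⊓ rad L (W.1 1)), if L (W.1 0) then 1 else 0)
  have hf : ∀ (g : H) W, f (g • W) = f W := by
    intro g W
    change (finrank F ↥(rad L (g • W.1 1)), finrank F ↥(g • W.1 0 ⊓ rad L (g • W.1 1)),
      if L (g • W.1 0) then 1 else 0) = _
    rw [← act_rad D.hL, ← act_inf, Flags.finrank_smul, Flags.finrank_smul]
    congr 2
    exact if_congr (D.hL.inv_iff g (W.1 0)) rfl rfl
  have hval : ∀ (A B : Submodule F V) (hA : finrank F A = 2) (hB : finrank F B = 4) (h : A ≤ B),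
      f (fl24 A B hA hB h) = (finrank F ↥(rad L B), finrank F ↥(A ⊓ rad L B), if L A then 1 else 0) :=
    fun _ _ _ _ _ => rfl
  obtain ⟨x, y, hx, hy, hxy⟩ := D.exists_xy hd
  have hW := D.finrank_W hd hx hy hxy
  obtain ⟨u, huW, hu⟩ := exists_mem_ne_zero_of_ne_bot
    (ne_bot_of (k := finrank F V - 3) (show finrank F ↥(U L x ⊓ U L y) = finrank F V - 3 + 1 by omega))
  obtain ⟨v, hvW, hvu⟩ : ∃ v ∈ U L x ⊓ U L y, v ∉ U L u := by
    have := D.not_le hd hx hy hxy hu huW
    by_contra hcon
    push Not at hcon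
    exact this hcon
  have hv0 : v ≠ 0 := by
    rintro rfl
    exact hvu (zero_mem _)
  have h1 := finrank_inf_hyp (A := U L x ⊓ U L y) (B := U L u) (by rw [D.fr u hu, hd])
  obtain ⟨s, ⟨hsW, hsu⟩, hs⟩ : ∃ s ∈ (U L x ⊓ U L y) ⊓ U L u, s ∉ span F {u} := by
    by_contra hcon
    push Not at hcon
    have h3 : (U L x ⊓ U L y) ⊓ U L u ≤ span F {u} := hcon
    have := finrank_mono h3
    rw [finrank_span_singleton hu] at this
    omega
  have hs0 : s ≠ 0 := by
    rintro rfl
    exact hs (zero_mem _)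
  have hA : finrank F ↥(span F {x} ⊔ span F {y}) = 2 := by
    rw [finrank_sup_span (D.not_mem_span hx hxy), finrank_span_singleton hx]
  have hxyL : ¬ L (span F {x} ⊔ span F {y}) := by
    intro h
    exact hxy ((D.line_iff hA hx (mem_sup_left (mem_span_singleton_self x))).1 h
      (mem_sup_right (mem_span_singleton_self y)))
  -- the two subspaces
  have hT : span F {u} ⊔ span F {v} ≤ U L x ⊓ U L y :=
    sup_le ((span_singleton_le_iff_mem _ _).2 huW) ((span_singleton_le_iff_mem _ _).2 hvW)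
  have hT' : span F {u} ⊔ span F {s} ≤ U L x ⊓ U L y :=
    sup_le ((span_singleton_le_iff_mem _ _).2 huW) ((span_singleton_le_iff_mem _ _).2 hsW)
  have hT2 : finrank F ↥(span F {u} ⊔ span F {v}) = 2 := by
    rw [finrank_sup_span (D.not_mem_span hu hvu), finrank_span_singleton hu]
  have hT2' : finrank F ↥(span F {u} ⊔ span F {s}) = 2 := by
    rw [finrank_sup_span hs, finrank_span_singleton hu]
  have hS4 : finrank F ↥(span F {x} ⊔ span F {y} ⊔ (span F {u} ⊔ span F {v})) = 4 := by
    rw [D.finrank_sup hx hy hxy hT, hT2]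
  have hS4' : finrank F ↥(span F {x} ⊔ span F {y} ⊔ (span F {u} ⊔ span F {s})) = 4 := by
    rw [D.finrank_sup hx hy hxy hT', hT2']
  have hux : u ∉ span F {x} ⊔ span F {y} := fun h => hu (D.mem_zero hx hy hxy h huW.1 huW.2)
  have hux' : u ∉ span F {x} := fun h => hux (mem_sup_left h)
  have hxu : x ∉ span F {u} ⊔ span F {s} := by
    intro h
    exact hx (D.mem_zero hx hy hxy (mem_sup_left (mem_span_singleton_self x)) (hT' h).1 (hT' h).2)
  have hB : finrank F ↥(span F {x} ⊔ span F {u}) = 2 := by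
    rw [finrank_sup_span hux', finrank_span_singleton hx]
  have hBL : L (span F {x} ⊔ span F {u}) := D.line hx huW.1 hux'
  -- the radical of elements
  have hrad : ∀ T : Submodule F V, T ≤ U L x ⊓ U L y → ∀ r ∈ rad L (span F {x} ⊔ span F {y} ⊔ T), r ∈ T := by
    intro T hT r hr
    rw [mem_rad] at hr
    obtain ⟨hr1, hr2⟩ := hr
    have hrx := hr2 x (mem_sup_left (mem_sup_left (mem_span_singleton_self x))) hx
    have hry := hr2 y (mem_sup_left (mem_sup_right (mem_span_singleton_self y))) hy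
    obtain ⟨a, ha, b, hb, rfl⟩ := mem_sup.1 hr1
    have ha0 : a = 0 := by
      apply D.mem_zero hx hy hxy ha
      · have := sub_mem hrx (hT hb).1
        rwa [add_sub_cancel_right] at this
      · have := sub_mem hry (hT hb).2
        rwa [add_sub_cancel_right] at this
    rw [ha0, zero_add]
    exact hb
  have hR : rad L (span F {x} ⊔ span F {y} ⊔ (span F {u} ⊔ span F {v})) = ⊥ := by
    rw [eq_bot_iff]
    intro r hr
    have hr1 := hrad _ hT r hr
    rw [mem_rad] at hr
    have hru := hr.2 u (mem_sup_right (mem_sup_left (mem_span_singleton_self u))) hu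
    have hrv := hr.2 v (mem_sup_right (mem_sup_right (mem_span_singleton_self v))) hv0
    exact D.mem_zero hu hv0 hvu hr1 hru hrv
  have hR' : rad L (span F {x} ⊔ span F {y} ⊔ (span F {u} ⊔ span F {s})) = span F {u} ⊔ span F {s} := by
    apply le_antisymm
    · exact fun r hr => hrad _ hT' r hr
    · have h3 : span F {x} ⊔ span F {y} ⊔ (span F {u} ⊔ span F {s}) ≤ U L u :=
        sup_le (sup_le ((span_singleton_le_iff_mem _ _).2 (D.symm hx hu huW.1))
          ((span_singleton_le_iff_mem _ _).2 (D.symm hy hu huW.2)))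
          (sup_le ((span_singleton_le_iff_mem _ _).2 (D.self_mem hu)) ((span_singleton_le_iff_mem _ _).2 hsu))
      have h4 : span F {x} ⊔ span F {y} ⊔ (span F {u} ⊔ span F {s}) ≤ U L s :=
        sup_le (sup_le ((span_singleton_le_iff_mem _ _).2 (D.symm hx hs0 hsW.1))
          ((span_singleton_le_iff_mem _ _).2 (D.symm hy hs0 hsW.2)))
          (sup_le ((span_singleton_le_iff_mem _ _).2 (D.symm hu hs0 hsu))
            ((span_singleton_le_iff_mem _ _).2 (D.self_mem hs0)))
      refine sup_le ?_ ?_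
      · rw [span_singleton_le_iff_mem, mem_rad]
        exact ⟨mem_sup_right (mem_sup_left (mem_span_singleton_self u)), fun t ht ht0 => D.symm hu ht0 (h3 ht)⟩
      · rw [span_singleton_le_iff_mem, mem_rad]
        exact ⟨mem_sup_right (mem_sup_right (mem_span_singleton_self s)), fun t ht ht0 => D.symm hs0 ht0 (h4 ht)⟩
  have a1 : ∃ W, f W = (0, 0, 1) := by
    refine ⟨fl24 _ _ hB hS4 (sup_le (le_sup_left.trans le_sup_left) (le_sup_left.trans le_sup_right)), ?_⟩
    rw [hval, hR, inf_bot_eq, finrank_bot, if_pos hBL]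
  have a2 : ∃ W, f W = (0, 0, 0) := by
    refine ⟨fl24 _ _ hA hS4 le_sup_left, ?_⟩
    rw [hval, hR, inf_bot_eq, finrank_bot, if_neg hxyL]
  have a3 : ∃ W, f W = (2, 2, 1) := by
    refine ⟨fl24 _ _ hT2' hS4' le_sup_right, ?_⟩
    rw [hval, hR', inf_idem, hT2', if_pos (D.line hu hsu hs)]
  have a4 : ∃ W, f W = (2, 1, 1) := by
    refine ⟨fl24 _ _ hB hS4' (sup_le (le_sup_left.trans le_sup_left) (le_sup_left.trans le_sup_right)), ?_⟩
    have h2 := finrank_sup_add_finrank_inf_eq (span F {x} ⊔ span F {u}) (span F {u} ⊔ span F {s})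
    have h3 : span F {x} ⊔ span F {u} ⊔ (span F {u} ⊔ span F {s}) = span F {u} ⊔ span F {s} ⊔ span F {x} := by
      apply le_antisymm
      · exact sup_le (sup_le le_sup_right (le_sup_left.trans le_sup_left)) le_sup_left
      · exact sup_le le_sup_right (le_sup_left.trans le_sup_left)
    rw [h3, finrank_sup_span hxu, hB, hT2'] at h2
    rw [hval, hR', hT2', if_pos hBL]
    congr 2
    omega
  have a5 : ∃ W, f W = (2, 0, 0) := by
    refine ⟨fl24 _ _ hA hS4' le_sup_left, ?_⟩
    have h2 := finrank_sup_add_finrank_inf_eq (span F {x} ⊔ span F {y}) (span F {u} ⊔ span F {s})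
    rw [hS4', hA, hT2'] at h2
    rw [hval, hR', hT2', if_neg hxyL]
    congr 2
    omega
  have h5 := card_le_nOrb (G := H) f hf {(0, 0, 1), (0, 0, 0), (2, 2, 1), (2, 1, 1), (2, 0, 0)} (by
    intro z hz
    simp only [mem_insert, mem_singleton] at hz
    rcases hz with rfl | rfl | rfl | rfl | rfl
    · exact a1
    · exact a2
    · exact a3
    · exact a4
    · exact a5)
  rw [h24] at h5
  revert h5
  decide

end

theorem Dat.false (D : Dat H L d) (hn : 5 ≤ finrank F V) (h2 : 2 ≤ d) (hd : d + 1 ≤ finrank F V)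
    (h13 : nOrb H (Fl F V ![1, 3]) = 3) (h24 : 6 ≤ finrank F V → nOrb H (Fl F V ![2, 4]) = 4) : False := by
  rcases eq_or_lt_of_le h2 with rfl | h3
  · by_cases hn6 : 6 ≤ finrank F V
    · exact D.two6 hn6 (h24 hn6)
    · exact D.two5 (by omega)
  · by_cases hd' : d + 1 = finrank F V
    · by_cases hn6 : 6 ≤ finrank F V
      · exact D.hyp6 hd' hn6 (h24 hn6)
      · exact D.hyp5 hd' (by omega)
    · exact D.dim hn h13 h3 (by omega)

end

/-- **No group has these numbers of orbits on flags.** -/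
theorem geo5 (hn : 5 ≤ finrank F V) (h1 : nOrb H (Fl F V ![1]) = 1) (h2 : nOrb H (Fl F V ![2]) = 2)
    (h13 : nOrb H (Fl F V ![1, 3]) = 3) (h123 : nOrb H (Fl F V ![1, 2, 3]) = 4)
    (h24 : 6 ≤ finrank F V → nOrb H (Fl F V ![2, 4]) = 4) : False := by
  obtain ⟨c, hs, hc⟩ := exists_class h2
  have hL : LL H (fun B : Submodule F V => ∃ hB : finrank F B = 2, c (ln B hB) = 0) := by
    refine ⟨?_, ?_, ?_, ?_⟩
    · rintro B ⟨hB, _⟩
      exact hB
    · rintro h B ⟨hB, hB'⟩
      refine ⟨by rw [Flags.finrank_smul, hB], ?_⟩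
      rw [← hB', hc]
      exact ⟨h, rfl⟩
    · obtain ⟨W, hW⟩ := hs 0
      refine ⟨W.1 0, W.2.2 0, ?_⟩
      rw [← hW]
      congr 1
      apply Subtype.ext
      funext i
      fin_cases i
      rfl
    · obtain ⟨W, hW⟩ := hs 1
      refine ⟨W.1 0, W.2.2 0, ?_⟩
      rintro ⟨hB, hB'⟩
      have e : ln (W.1 0) hB = W := by
        apply Subtype.ext
        funext i
        fin_cases i
        rfl
      rw [e, hW] at hB'
      exact absurd hB' (by decide)
  obtain ⟨L', hL', hU⟩ := step3 hL hn h1 h13 h123.le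
  obtain ⟨d, D, hd2, hd⟩ := exists_dat hL' h1 hU
  exact D.false hn hd2 hd h13 h24

end Cfsg.Agent.H87.Geo5
end

private theorem dce_226b5e57ff8e : _root_.True := by
  try have : _root_.True := by simp only [_root_.Cfsg.Agent.H87.Geo5.nl.eq_1]
  try have : _root_.True := by simp only [_root_.Cfsg.Agent.H87.Geo5.rad.eq_1]
  try have : _root_.True := by simp only [_root_.Cfsg.Agent.H87.Geo5.U.eq_1]
  exact _root_.True.intro
end
end
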